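/- COV tower (S2483): the Edmonds–Kulkarni–Stong lemma on cycle types. -/
import Cfsg.Agent.H68.CNSpec

set_option autoImplicit false

namespace H23.CNE
open Equiv Equiv.Perm H68.CN

variable {Ω : Type} [Finite Ω]

theorem cyc_of {s : Perm Ω} {S : Set Ω} (hm : ∀ x ∈ S, s x ∈ S)
    (h : ∀ T : Set Ω, (∀ x ∈ T, s x ∈ T) → ∀ x ∈ S, x ∈ T → S ⊆ T) : s.IsCycleOn S := by
  refine ⟨?_, fun x hx y hy => ?_⟩
  · exact ((Set.toFinite S).injOn_iff_bijOn_of_mapsTo hm).1 s.injective.injOn
  · exact h {y | s.SameCycle x y} (fun z hz => SameCycle.apply_right hz) x hx (SameCycle.refl _ _) hy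

theorem cyc_sub {s : Perm Ω} {S : Set Ω} (h : s.IsCycleOn S) {T : Set Ω}
    (hT : ∀ x ∈ T, x ∈ S → s x ∈ T) {x : Ω} (hx : x ∈ S) (hxT : x ∈ T) : S ⊆ T := by
  intro y hy
  obtain ⟨n, -, rfl⟩ := (h.2 hx hy).exists_pow_eq'
  have : ∀ n : ℕ, (s ^ n) x ∈ T ∧ (s ^ n) x ∈ S := by
    intro n
    induction n with
    | zero => exact ⟨hxT, hx⟩
    | succ n ih =>
      rw [pow_succ', Perm.mul_apply]
      exact ⟨hT _ ih.1 ih.2, h.1.mapsTo ih.2⟩
  exact (this n).1

theorem cyc_congr {s s' : Perm Ω} {S : Set Ω} (h : s.IsCycleOn S) (he : ∀ x ∈ S, s' x = s x) :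
    s'.IsCycleOn S := by
  refine cyc_of (fun x hx => by rw [he x hx]; exact h.1.mapsTo hx) fun T hT x hx hxT => ?_
  exact cyc_sub h (fun y hy hyS => by rw [← he y hyS]; exact hT y hy) hx hxT

theorem cyc_ins [DecidableEq Ω] {s : Perm Ω} {T : Set Ω} (h : s.IsCycleOn T) {p q : Ω}
    (hq : q ∈ T) (hp : p ∉ T) (hs : s p = p) : (s * swap p q).IsCycleOn (insert p T) := by
  have e1 : (s * swap p q) q = p := by simp [hs]
  have e2 : (s * swap p q) p = s q := by simp
  have e3 : ∀ x ∈ T, x ≠ q → (s * swap p q) x = s x := by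
    intro x hx hxq
    have : x ≠ p := fun e => hp (e ▸ hx)
    simp [swap_apply_of_ne_of_ne this hxq]
  refine cyc_of ?_ fun U hU x hx hxU => ?_
  · rintro x (rfl | hx)
    · rw [e2]; exact Or.inr (h.1.mapsTo hq)
    · by_cases hxq : x = q
      · rw [hxq, e1]; exact Or.inl rfl
      · rw [e3 x hx hxq]; exact Or.inr (h.1.mapsTo hx)
  · have hcl : ∀ y ∈ U, y ∈ T → s y ∈ U := by
      intro y hy hyT
      by_cases hyq : y = q
      · subst hyq
        have := hU _ (hU _ hy)
        rwa [e1, e2] at this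
      · rw [← e3 y hyT hyq]; exact hU _ hy
    have hTU : T ⊆ U := by
      rcases hx with rfl | hx
      · have := hU _ hxU
        rw [e2] at this
        exact cyc_sub h hcl (h.1.mapsTo hq) this
      · exact cyc_sub h hcl hx hxU
    rintro y (rfl | hy)
    · have := hU _ (hTU hq)
      rwa [e1] at this
    · exact hTU hy

theorem orient_aux [DecidableEq Ω] {s : Perm Ω} {S : Finset Ω} (h : s.IsCycleOn (S : Set Ω))
    {p q t : Ω} (ht : t ∈ S) {a b : ℕ} (h0 : 0 < a) (hab : a < b) (hb : b < S.card)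
    (hp : (s ^ a) t = p) (hq : (s ^ b) t = q) :
    (s * swap q t * swap p t).IsCycleOn (S : Set Ω) := by
  have inj : ∀ i j, i < S.card → j < S.card → (s ^ i) t = (s ^ j) t → i = j := by
    intro i j hi hj e
    have := (h.pow_apply_eq_pow_apply ht).1 e
    exact Nat.ModEq.eq_of_lt_of_lt this hi hj
  have hN : (s ^ S.card) t = t := h.pow_card_apply ht
  have hpt : p ≠ t := fun e => by
    have := inj a 0 (by omega) (by omega) (by rw [hp, e]; rfl)
    omega
  have hqt : q ≠ t := fun e => by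
    have := inj b 0 (by omega) (by omega) (by rw [hq, e]; rfl)
    omega
  have hpq : p ≠ q := fun e => by
    have := inj a b (by omega) (by omega) (by rw [hp, hq, e])
    omega
  have hpS : p ∈ (S : Set Ω) := hp ▸ (h.1.perm_pow a).mapsTo ht
  have hqS : q ∈ (S : Set Ω) := hq ▸ (h.1.perm_pow b).mapsTo ht
  set c := s * swap q t * swap p t with hc
  have e1 : c p = s q := by simp [hc]
  have e2 : c t = s p := by simp [hc, swap_apply_of_ne_of_ne hpq hpt]
  have e3 : c q = s t := by simp [hc, swap_apply_of_ne_of_ne hpq.symm hqt]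
  have e4 : ∀ x, x ≠ p → x ≠ q → x ≠ t → c x = s x := by
    intro x h1 h2 h3
    simp [hc, swap_apply_of_ne_of_ne h1 h3, swap_apply_of_ne_of_ne h2 h3]
  refine cyc_of ?_ fun U hU x hx hxU => ?_
  · intro x hx
    by_cases h1 : x = p
    · rw [h1, e1]; exact h.1.mapsTo hqS
    by_cases h2 : x = q
    · rw [h2, e3]; exact h.1.mapsTo ht
    by_cases h3 : x = t
    · rw [h3, e2]; exact h.1.mapsTo hpS
    rw [e4 x h1 h2 h3]; exact h.1.mapsTo hx
  have seg : ∀ i k, s ((s ^ i) t) ∈ U → i < k → k ≤ S.card →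
      (∀ m, i < m → m < k → m ≠ a ∧ m ≠ b) → (s ^ k) t ∈ U := by
    intro i k hi hik
    induction k, hik using Nat.le_induction with
    | base => intro _ _; rw [pow_succ', Perm.mul_apply]; exact hi
    | succ k hik ih =>
      intro hk hm
      have h1 := ih (by omega) fun m h1 h2 => hm m h1 (by omega)
      have h2 := hm k hik (by omega)
      rw [pow_succ', Perm.mul_apply, ← e4]
      · exact hU _ h1
      · exact fun e => h2.1 (inj _ _ (by omega) (by omega) (by rw [e, hp]))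
      · exact fun e => h2.2 (inj _ _ (by omega) (by omega) (by rw [e, hq]))
      · intro e
        have := inj k 0 (by omega) (by omega) (by rw [e]; rfl)
        omega
  have s1 : q ∈ U → p ∈ U := fun hh => by
    have := hU _ hh
    rw [e3] at this
    exact hp ▸ seg 0 a this h0 (by omega) fun m _ _ => by omega
  have s2 : p ∈ U → t ∈ U := fun hh => by
    have := hU _ hh
    rw [e1, ← hq] at this
    exact hN ▸ seg b S.card this hb le_rfl fun m _ _ => by omega
  have s3 : t ∈ U → q ∈ U := fun hh => by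
    have := hU _ hh
    rw [e2, ← hp] at this
    exact hq ▸ seg a b this hab hb.le fun m _ _ => by omega
  have hpU : p ∈ U := by
    by_contra hn
    have hn2 : q ∉ U := fun hh => hn (s1 hh)
    have hn3 : t ∉ U := fun hh => hn2 (s3 hh)
    refine hn (cyc_sub h (fun y hy _ => ?_) hx hxU hpS)
    rw [← e4 y (fun e => hn (e ▸ hy)) (fun e => hn2 (e ▸ hy)) (fun e => hn3 (e ▸ hy))]
    exact hU _ hy
  refine cyc_sub h (fun y hy _ => ?_) hx hxU
  by_cases h1 : y = p
  · rw [h1, ← e2]; exact hU _ (s2 hpU)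
  by_cases h2 : y = q
  · rw [h2, ← e1]; exact hU _ hpU
  by_cases h3 : y = t
  · rw [h3, ← e3]; exact hU _ (s3 (s2 hpU))
  rw [← e4 y h1 h2 h3]; exact hU _ hy

theorem orient [DecidableEq Ω] {s : Perm Ω} {S : Set Ω} (h : s.IsCycleOn S) {p q t : Ω}
    (hp : p ∈ S) (hq : q ∈ S) (ht : t ∈ S) (hpq : p ≠ q) (hpt : p ≠ t) (hqt : q ≠ t) :
    (s * swap p t * swap q t).IsCycleOn S ∨ (s * swap q t * swap p t).IsCycleOn S := by
  lift S to Finset Ω using Set.toFinite S
  obtain ⟨a, ha, hpa⟩ := h.exists_pow_eq ht hp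
  obtain ⟨b, hb, hqb⟩ := h.exists_pow_eq ht hq
  have a0 : 0 < a := Nat.pos_of_ne_zero fun e => hpt (by rw [← hpa, e]; rfl)
  have b0 : 0 < b := Nat.pos_of_ne_zero fun e => hqt (by rw [← hqb, e]; rfl)
  rcases lt_trichotomy a b with hab | hab | hab
  · exact Or.inr (orient_aux h ht a0 hab hb hpa hqb)
  · exact absurd (by rw [← hpa, ← hqb, hab]) hpq
  · exact Or.inl (orient_aux h ht b0 hab ha hqb hpa)

section LbLemmas
variable {ι : Type} {σ : Perm Ω} {S : Set Ω} {d : ι → ℕ} {lab : Ω → Option ι}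

omit [Finite Ω] in
theorem Lb.mono (h : Lb σ S d lab) {S' : Set Ω} (hS : S ⊆ S') : Lb σ S' d lab :=
  ⟨h.1, fun w hw => h.2.1 w fun hh => hw (hS hh), h.2.2⟩

omit [Finite Ω] in
theorem Lb.inv (h : Lb σ S d lab) : Lb σ⁻¹ S d lab :=
  ⟨fun w hw => by rw [Perm.inv_eq_iff_eq]; exact (h.1 w hw).symm, h.2.1,
    fun i => (h.2.2.1 i).inv, h.2.2.2⟩

omit [Finite Ω] in
theorem Lb.mem (h : Lb σ S d lab) {w : Ω} {i : ι} (hw : lab w = some i) : w ∈ S := by
  by_contra hn
  rw [h.2.1 w hn] at hw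
  cases hw

theorem Lb.count [Fintype ι] (h : Lb σ S d lab) :
    {w | w ∈ S ∧ lab w = none}.ncard + ∑ i, d i = S.ncard := by
  classical
  have := Fintype.ofFinite Ω
  have h1 := Finset.card_eq_sum_card_fiberwise (s := S.toFinset) (t := Finset.univ) (f := lab)
    (fun _ _ => Finset.mem_coe.2 (Finset.mem_univ _))
  rw [Set.ncard_eq_toFinset_card' S, h1, Fintype.sum_option]
  congr 1
  · rw [← Set.ncard_coe_finset]
    congr 1
    ext w
    simp
  · refine Finset.sum_congr rfl fun i _ => ?_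
    rw [← h.2.2.2 i, ← Set.ncard_coe_finset]
    congr 1
    ext w
    simp only [Set.mem_ofPred_eq, Finset.coe_filter, Set.mem_toFinset]
    exact ⟨fun hw => ⟨Lb.mem h hw, hw⟩, fun hw => hw.2⟩

theorem Lb.exists_none [Fintype ι] (h : Lb σ S d lab) (hlt : ∑ i, d i < S.ncard) :
    ∃ p ∈ S, lab p = none := by
  have := Lb.count h
  have h0 : {w | w ∈ S ∧ lab w = none}.ncard ≠ 0 := by omega
  obtain ⟨p, hp⟩ := Set.nonempty_of_ncard_ne_zero h0
  exact ⟨p, hp.1, hp.2⟩

omit [Finite Ω] in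
theorem Lb.exists_some (h : Lb σ S d lab) {j : ι} (hj : d j ≠ 0) : ∃ q, lab q = some j := by
  rw [← h.2.2.2 j] at hj
  exact Set.nonempty_of_ncard_ne_zero hj

omit [Finite Ω] in
theorem fib_upd [DecidableEq Ω] {p : Ω} (j : ι) :
    {w | Function.update lab p (some j) w = some j} = insert p {w | lab w = some j} := by
  ext w
  by_cases hw : w = p
  · simp [hw]
  · simp [Function.update_of_ne hw, hw]

omit [Finite Ω] in
theorem fib_upd' [DecidableEq Ω] {p : Ω} (hp : lab p = none) {i j : ι} (hi : i ≠ j) :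
    {w | Function.update lab p (some j) w = some i} = {w | lab w = some i} := by
  ext w
  by_cases hw : w = p
  · simp [hw, hp, hi.symm]
  · simp [Function.update_of_ne hw]

theorem Lb.new [DecidableEq Ω] (h : Lb σ S d lab) {p : Ω} (hp : lab p = none) (hS : p ∈ S)
    {j : ι} (hj : d j = 0) {d' : ι → ℕ} (h1 : d' j = 1) (h2 : ∀ i, i ≠ j → d' i = d i) :
    Lb σ S d' (Function.update lab p (some j)) := by
  have he : {w | lab w = some j} = ∅ := by
    rw [← Set.ncard_eq_zero (Set.toFinite _), h.2.2.2 j, hj]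
  refine ⟨fun w hw => ?_, fun w hw => ?_, fun i => ?_, fun i => ?_⟩
  · by_cases hwp : w = p
    · rw [hwp]; exact h.1 p hp
    · rw [Function.update_of_ne hwp] at hw; exact h.1 w hw
  · have hwp : w ≠ p := fun e => hw (e ▸ hS)
    rw [Function.update_of_ne hwp]; exact h.2.1 w hw
  · by_cases hi : i = j
    · rw [hi, fib_upd, he]
      simpa using h.1 p hp
    · rw [fib_upd' hp hi]; exact h.2.2.1 i
  · by_cases hi : i = j
    · rw [hi, fib_upd, he, h1]; simp
    · rw [fib_upd' hp hi, h2 i hi]; exact h.2.2.2 i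

theorem Lb.ins [DecidableEq Ω] (h : Lb σ S d lab) {p q : Ω} (hp : lab p = none) (hS : p ∈ S)
    {j : ι} (hq : lab q = some j) {d' : ι → ℕ} (h1 : d' j = d j + 1)
    (h2 : ∀ i, i ≠ j → d' i = d i) :
    Lb (σ * swap p q) S d' (Function.update lab p (some j)) := by
  have hpf : ∀ i, p ∉ {w | lab w = some i} := fun i hh => by
    rw [Set.mem_ofPred_eq, hp] at hh; cases hh
  refine ⟨fun w hw => ?_, fun w hw => ?_, fun i => ?_, fun i => ?_⟩
  · by_cases hwp : w = p
    · rw [hwp, Function.update_self] at hw; cases hw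
    · rw [Function.update_of_ne hwp] at hw
      have hwq : w ≠ q := fun e => by rw [e, hq] at hw; cases hw
      rw [Perm.mul_apply, swap_apply_of_ne_of_ne hwp hwq]; exact h.1 w hw
  · have hwp : w ≠ p := fun e => hw (e ▸ hS)
    rw [Function.update_of_ne hwp]; exact h.2.1 w hw
  · by_cases hi : i = j
    · rw [hi, fib_upd]
      exact cyc_ins (h.2.2.1 j) hq (hpf j) (h.1 p hp)
    · rw [fib_upd' hp hi]
      refine cyc_congr (h.2.2.1 i) fun x hx => ?_
      have hxp : x ≠ p := fun e => hpf i (e ▸ hx)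
      have hxq : x ≠ q := fun e => by
        rw [Set.mem_ofPred_eq, e, hq] at hx
        exact hi (Option.some.inj hx).symm
      rw [Perm.mul_apply, swap_apply_of_ne_of_ne hxp hxq]
  · by_cases hi : i = j
    · rw [hi, fib_upd, Set.ncard_insert_of_notMem (hpf j), h1, h.2.2.2 j]
    · rw [fib_upd' hp hi, h2 i hi]; exact h.2.2.2 i

end LbLemmas

theorem sum_upd {κ : Type} [Fintype κ] [DecidableEq κ] (e : κ → ℕ) (j : κ) (v : ℕ) (F : ℕ → ℕ) :
    ∑ i, F (Function.update e j v i) + F (e j) = ∑ i, F (e i) + F v := by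
  rw [← Finset.add_sum_erase _ _ (Finset.mem_univ j),
    ← Finset.add_sum_erase _ (fun i => F (e i)) (Finset.mem_univ j), Function.update_self]
  have : ∑ i ∈ Finset.univ.erase j, F (Function.update e j v i) =
      ∑ i ∈ Finset.univ.erase j, F (e i) :=
    Finset.sum_congr rfl fun i hi => by rw [Function.update_of_ne (Finset.ne_of_mem_erase hi)]
  omega

/-- The conclusion of the lemma. -/
def Res {ι κ : Type} (S : Set Ω) (d : ι → ℕ) (e : κ → ℕ) : Prop :=
  ∃ (α β : Perm Ω) (la : Ω → Option ι) (lb : Ω → Option κ),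
    Lb α S d la ∧ Lb β S e lb ∧ (α * β).IsCycleOn S

omit [Finite Ω] in
theorem Res.symm {ι κ : Type} {S : Set Ω} {d : ι → ℕ} {e : κ → ℕ} (h : Res S d e) :
    Res S e d := by
  obtain ⟨α, β, la, lb, h1, h2, h3⟩ := h
  refine ⟨β⁻¹, α⁻¹, lb, la, Lb.inv h2, Lb.inv h1, ?_⟩
  rw [← mul_inv_rev]
  exact h3.inv

/-- The statement below a bound. -/
def Upto (Ω : Type) (n : ℕ) : Prop :=
  ∀ (ι κ : Type) [Fintype ι] [Fintype κ] (S : Set Ω) (d : ι → ℕ) (e : κ → ℕ) (r : ℕ),
    S.ncard + ∑ i, d i + ∑ j, e j < n → ∑ i, d i ≤ S.ncard → ∑ j, e j ≤ S.ncard →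
    ∑ i, (d i - 1) + ∑ j, (e j - 1) + 1 = S.ncard + 2 * r → Res S d e

section Steps
variable {n : ℕ} (IH : Upto Ω n) {ι κ : Type} [Fintype ι] [Fintype κ] {S : Set Ω} {d : ι → ℕ}
  {e : κ → ℕ} {r : ℕ} (hn : S.ncard + ∑ i, d i + ∑ j, e j ≤ n) (hd : ∑ i, d i ≤ S.ncard)
  (he : ∑ j, e j ≤ S.ncard) (hr : ∑ i, (d i - 1) + ∑ j, (e j - 1) + 1 = S.ncard + 2 * r)
include IH hn hd he hr

theorem step_new {j : κ} (hj : e j = 1) : Res S d e := by
  classical
  have s1 := sum_upd e j 0 id
  have s2 := sum_upd e j 0 (· - 1)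
  simp only [id] at s1 s2
  obtain ⟨α, β, la, lb, h1, h2, h3⟩ := IH ι κ S d (Function.update e j 0) r (by omega) hd
    (by omega) (by omega)
  obtain ⟨p, hp, hl⟩ := Lb.exists_none h2 (by omega)
  exact ⟨α, β, la, _, h1, Lb.new h2 hl hp (Function.update_self ..) hj
    fun i hi => (Function.update_of_ne hi _ _).symm, h3⟩

theorem step_ins (hlt : ∑ i, d i < S.ncard) {j : κ} (hj : 2 ≤ e j) : Res S d e := by
  classical
  have s1 := sum_upd e j (e j - 1) id
  have s2 := sum_upd e j (e j - 1) (· - 1)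
  simp only [id] at s1 s2
  obtain ⟨p, hp⟩ : S.Nonempty := Set.nonempty_of_ncard_ne_zero (by omega)
  have hc : (S \ {p}).ncard + 1 = S.ncard := Set.ncard_sdiff_singleton_add_one hp
  obtain ⟨α, β, la, lb, h1, h2, h3⟩ := IH ι κ (S \ {p}) d (Function.update e j (e j - 1)) r
    (by omega) (by omega) (by omega) (by omega)
  obtain ⟨q, hq⟩ := Lb.exists_some h2 (j := j) (by rw [Function.update_self]; omega)
  have hpn : p ∉ S \ {p} := fun hh => hh.2 rfl
  refine ⟨α, β * swap p q, la, _, Lb.mono h1 Set.sdiff_subset,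
    Lb.ins (Lb.mono h2 Set.sdiff_subset) (h2.2.1 p hpn) hp hq
      (by rw [Function.update_self]; omega) fun i hi => (Function.update_of_ne hi _ _).symm, ?_⟩
  have := cyc_ins h3 (Lb.mem h2 hq) hpn
    (by rw [Perm.mul_apply, h2.1 p (h2.2.1 p hpn), h1.1 p (h1.2.1 p hpn)])
  rwa [Set.insert_sdiff_singleton, Set.insert_eq_of_mem hp, mul_assoc] at this

theorem step_two (h1r : 1 ≤ r) {j : κ} (hj : 3 ≤ e j) : Res S d e := by
  classical
  have s1 := sum_upd e j (e j - 2) id
  have s2 := sum_upd e j (e j - 2) (· - 1)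
  simp only [id] at s1 s2
  obtain ⟨α, β, la, lb, h1, h2, h3⟩ := IH ι κ S d (Function.update e j (e j - 2)) (r - 1)
    (by omega) (by omega) (by omega) (by omega)
  obtain ⟨t, ht⟩ := Lb.exists_some h2 (j := j) (by rw [Function.update_self]; omega)
  have hc := Lb.count h2
  obtain ⟨p, hp, q, hq, hpq⟩ :=
    (Set.one_lt_ncard (s := {w | w ∈ S ∧ lb w = none}) (Set.toFinite _)).1 (by omega)
  have key : ∀ p q, p ∈ S ∧ lb p = none → q ∈ S ∧ lb q = none → p ≠ q →
      (α * β * swap p t * swap q t).IsCycleOn S → Res S d e := by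
    intro p q hp hq hpq hc
    have htp : t ≠ p := fun e => by rw [e, hp.2] at ht; cases ht
    have a1 := Lb.ins h2 hp.2 hp.1 ht (d' := Function.update e j (e j - 1))
      (by rw [Function.update_self, Function.update_self]; omega)
      fun i hi => by rw [Function.update_of_ne hi, Function.update_of_ne hi]
    have a2 := Lb.ins a1 (p := q) (q := t) (j := j) (d' := e)
      (by rw [Function.update_of_ne hpq.symm]; exact hq.2) hq.1
      (by rw [Function.update_of_ne htp]; exact ht)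
      (by rw [Function.update_self]; omega) fun i hi => (Function.update_of_ne hi _ _).symm
    exact ⟨α, _, la, _, h1, a2, by rwa [← mul_assoc, ← mul_assoc]⟩
  have hpt : p ≠ t := fun e => by rw [← e, hp.2] at ht; cases ht
  have hqt : q ≠ t := fun e => by rw [← e, hq.2] at ht; cases ht
  rcases orient h3 hp.1 hq.1 (Lb.mem h2 ht) hpq hpt hqt with h | h
  · exact key p q hp hq hpq h
  · exact key q p hq hp hpq.symm h

end Steps

theorem sum_le_two {κ : Type} [Fintype κ] {e : κ → ℕ} (h : ∀ j, e j ≠ 1) :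
    ∑ j, e j ≤ 2 * ∑ j, (e j - 1) := by
  rw [Finset.mul_sum]
  exact Finset.sum_le_sum fun j _ => by have := h j; omega

theorem sum_eq_two {κ : Type} [Fintype κ] {e : κ → ℕ} (h : ∀ j, e j ≠ 1) (h' : ∀ j, e j < 3) :
    ∑ j, e j = 2 * ∑ j, (e j - 1) := by
  rw [Finset.mul_sum]
  exact Finset.sum_congr rfl fun j _ => by have := h j; have := h' j; omega

omit [Finite Ω] in
theorem lb_one {ι : Type} (S : Set Ω) {d : ι → ℕ} (h : ∀ i, d i = 0) :
    Lb (1 : Perm Ω) S d fun _ => none :=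
  ⟨fun _ _ => rfl, fun _ _ => rfl, fun i => by simp, fun i => by simp [h i]⟩

theorem upto (n : ℕ) : Upto Ω n := by
  induction n with
  | zero => intro ι κ _ _ S d e r h; omega
  | succ n IH =>
    intro ι κ _ _ S d e r hn hd he hr
    have hn1 : S.ncard + ∑ i, d i + ∑ j, e j ≤ n := by omega
    have hn2 : S.ncard + ∑ j, e j + ∑ i, d i ≤ n := by omega
    have hr2 : ∑ j, (e j - 1) + ∑ i, (d i - 1) + 1 = S.ncard + 2 * r := by omega
    by_cases c1 : ∃ j, e j = 1
    · obtain ⟨j, hj⟩ := c1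
      exact step_new IH hn1 hd he hr hj
    by_cases c2 : ∃ i, d i = 1
    · obtain ⟨i, hi⟩ := c2
      exact (step_new IH hn2 he hd hr2 hi).symm
    push Not at c1 c2
    have z : ∀ {κ : Type} [Fintype κ] {e : κ → ℕ}, (∀ j, e j ≠ 1) → (¬ ∃ j, 2 ≤ e j) →
        (∀ j, e j = 0) ∧ ∑ j, e j = 0 ∧ ∑ j, (e j - 1) = 0 := by
      intro κ _ e h1 h2
      push Not at h2
      have h0 : ∀ j, e j = 0 := fun j => by have := h1 j; have := h2 j; omega
      exact ⟨h0, by simp [h0], by simp [h0]⟩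
    have l1 := sum_le_two c1
    have l2 := sum_le_two c2
    by_cases c3 : ∃ j, 2 ≤ e j
    · obtain ⟨j, hj⟩ := c3
      rcases hd.lt_or_eq with hd' | hd'
      · exact step_ins IH hn1 hd he hr hd' hj
      have hpos : e j ≤ ∑ j, e j := Finset.single_le_sum (fun _ _ => Nat.zero_le _)
        (Finset.mem_univ j)
      have c4 : ∃ i, 2 ≤ d i := by
        by_contra hc
        have := z c2 hc
        omega
      obtain ⟨i, hi⟩ := c4
      rcases he.lt_or_eq with he' | he'
      · exact (step_ins IH hn2 he hd hr2 he' hi).symm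
      by_cases c5 : ∃ j, 3 ≤ e j
      · obtain ⟨j, hj⟩ := c5
        exact step_two IH hn1 hd he hr (by omega) hj
      by_cases c6 : ∃ i, 3 ≤ d i
      · obtain ⟨i, hi⟩ := c6
        exact (step_two IH hn2 he hd hr2 (by omega) hi).symm
      push Not at c5 c6
      have := sum_eq_two c1 c5
      have := sum_eq_two c2 c6
      omega
    · obtain ⟨e0, e1, e2⟩ := z c1 c3
      by_cases c4 : ∃ i, 2 ≤ d i
      · obtain ⟨i, hi⟩ := c4
        have hpos : d i ≤ ∑ i, d i := Finset.single_le_sum (fun _ _ => Nat.zero_le _)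
          (Finset.mem_univ i)
        exact (step_ins IH hn2 he hd hr2 (by omega) hi).symm
      obtain ⟨d0, d1, d2⟩ := z c2 c4
      refine ⟨1, 1, _, _, lb_one S d0, lb_one S e0, ?_⟩
      rw [mul_one, isCycleOn_one]
      exact (Set.ncard_le_one_iff_subsingleton).1 (by omega)

theorem jobEKS : JobEKS := fun Ω ι κ _ _ _ S d e r hd he hr =>
  upto (Ω := Ω) _ ι κ S d e r (Nat.lt_succ_self _) hd he hr

end H23.CNE
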