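/- COV tower (S2483): factorisation of the standard cycle into permutations of a given type. -/
import Cfsg.Agent.H23.CNEks

set_option autoImplicit false

namespace H23.CNE
open Equiv Equiv.Perm H68.CN

theorem Lb.conj {Ω ι : Type} {σ : Perm Ω} {d : ι → ℕ} {lab : Ω → Option ι}
    (h : Lb σ Set.univ d lab) (g : Perm Ω) :
    Lb (g * σ * g⁻¹) Set.univ d (fun w => lab (g⁻¹ w)) := by
  have hf : ∀ i, {w | lab (g⁻¹ w) = some i} = g '' {w | lab w = some i} := by
    intro i
    ext w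
    constructor
    · intro hw
      exact ⟨g⁻¹ w, hw, by simp⟩
    · rintro ⟨v, hv, rfl⟩
      simpa using hv
  refine ⟨fun w hw => ?_, fun w hw => absurd (Set.mem_univ w) hw, fun i => ?_, fun i => ?_⟩
  · have := h.1 _ hw
    rw [Perm.mul_apply, Perm.mul_apply, this]
    simp
  · rw [hf]; exact (h.2.2.1 i).conj
  · rw [hf, Set.ncard_image_of_injective _ g.injective]; exact h.2.2.2 i

theorem Lb.ext {Ω ι : Type} [Finite Ω] [Fintype ι] {σ : Perm Ω} {S : Set Ω} {d : ι → ℕ}
    (hd : ∑ i, d i ≤ S.ncard) (m : ℕ) : ∀ (d' : ι → ℕ) (lab : Ω → Option ι),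
    ∑ i, d' i + m = ∑ i, d i → (∀ i, d' i = d i ∨ (d' i = 0 ∧ d i = 1)) → Lb σ S d' lab →
    ∃ lab', Lb σ S d lab' := by
  classical
  induction m with
  | zero =>
    intro d' lab hs h hl
    have : d' = d := by
      funext i
      exact (Finset.sum_eq_sum_iff_of_le (s := Finset.univ) (f := d') (g := d)
        (fun i _ => by have := h i; omega)).1 (by omega) i (Finset.mem_univ i)
    exact ⟨lab, this ▸ hl⟩
  | succ m ih =>
    intro d' lab hs h hl
    have : ∃ j, d' j ≠ d j := by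
      by_contra hc
      push Not at hc
      have : ∑ i, d' i = ∑ i, d i := Finset.sum_congr rfl fun i _ => hc i
      omega
    obtain ⟨j, hj⟩ := this
    have hj' : d' j = 0 ∧ d j = 1 := (h j).resolve_left hj
    obtain ⟨p, hp, hpl⟩ := Lb.exists_none hl (by omega)
    have s1 := sum_upd d' j 1 id
    simp only [id] at s1
    refine ih (Function.update d' j 1) _ (by omega) (fun i => ?_)
      (Lb.new hl hpl hp hj'.1 (Function.update_self ..) fun i hi => Function.update_of_ne hi _ _)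
    by_cases hi : i = j
    · rw [hi, Function.update_self]; exact Or.inl hj'.2.symm
    · rw [Function.update_of_ne hi]; exact h i

section Main
variable {n : ℕ} {ι : Type} [Fintype ι] {d : ι → ℕ}

/-- The type without the blocks of size one. -/
def dpl (d : ι → ℕ) (i : ι) : ℕ := if d i = 1 then 0 else d i

theorem dpl_rho (d : ι → ℕ) : ∑ i, (dpl d i - 1) = ∑ i, (d i - 1) :=
  Finset.sum_congr rfl fun i _ => by unfold dpl; split_ifs <;> omega

theorem dpl_le (d : ι → ℕ) : ∑ i, dpl d i ≤ ∑ i, d i :=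
  Finset.sum_le_sum fun i _ => by unfold dpl; split_ifs <;> omega

theorem dpl_le_two (d : ι → ℕ) : ∑ i, dpl d i ≤ 2 * ∑ i, (d i - 1) := by
  rw [← dpl_rho]
  exact sum_le_two fun i => by unfold dpl; split_ifs <;> omega

theorem ty0_of_dpl (hn : ∑ i, d i = n) {σ : Perm (Fin n)} {S : Set (Fin n)}
    {lab : Fin n → Option ι} (h : Lb σ S (dpl d) lab) : Ty0 σ d := by
  have := dpl_le d
  refine Lb.ext (by simp [hn]) (∑ i, d i - ∑ i, dpl d i) (dpl d) lab (by omega) (fun i => ?_)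
    (Lb.mono h (Set.subset_univ _))
  unfold dpl
  split_ifs <;> omega

/-- `s` is a product of `k` permutations of type `d`. -/
def PP (d : ι → ℕ) (k : ℕ) (s : Perm (Fin n)) : Prop :=
  ∃ L : List (Perm (Fin n)), L.length = k ∧ (∀ α ∈ L, Ty0 α d) ∧ L.prod = s

omit [Fintype ι] in
theorem PP.conj {k : ℕ} {s : Perm (Fin n)} (h : PP d k s) (g : Perm (Fin n)) :
    PP d k (g * s * g⁻¹) := by
  obtain ⟨L, h1, h2, rfl⟩ := h
  refine ⟨L.map (MulAut.conj g), by simp [h1], fun α hα => ?_, ?_⟩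
  · obtain ⟨β, hβ, rfl⟩ := List.mem_map.1 hα
    obtain ⟨lab, hl⟩ := h2 β hβ
    exact ⟨_, Lb.conj hl g⟩
  · rw [← map_list_prod]; rfl

omit [Fintype ι] in
theorem PP.snoc {k : ℕ} {s a : Perm (Fin n)} (h : PP d k s) (ha : Ty0 a d) :
    PP d (k + 1) (s * a) := by
  obtain ⟨L, h1, h2, rfl⟩ := h
  refine ⟨L ++ [a], by simp [h1], fun α hα => ?_, by simp⟩
  rcases List.mem_append.1 hα with h | h
  · exact h2 α h
  · rw [List.mem_singleton.1 h]; exact ha

theorem isConj_of_cyc {s t : Perm (Fin n)} {S T : Set (Fin n)} (hs : s.IsCycleOn S)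
    (ht : t.IsCycleOn T) (hs' : ∀ x, x ∉ S → s x = x) (ht' : ∀ x, x ∉ T → t x = x)
    (h2 : 2 ≤ S.ncard) (he : S.ncard = T.ncard) : IsConj s t := by
  have key : ∀ {s : Perm (Fin n)} {S : Set (Fin n)}, s.IsCycleOn S → (∀ x, x ∉ S → s x = x) →
      2 ≤ S.ncard → s.IsCycle ∧ s.support.card = S.ncard := by
    intro s S hs hs' h2
    have hnt : S.Nontrivial := (Set.one_lt_ncard_iff_nontrivial).1 (by omega)
    refine ⟨isCycle_iff_exists_isCycleOn.2 ⟨S, hnt, hs, fun x hx => ?_⟩, ?_⟩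
    · by_contra hc
      exact hx (hs' x hc)
    · rw [← Set.ncard_coe_finset]
      congr 1
      ext x
      rw [Finset.mem_coe, mem_support]
      exact ⟨fun hx => by_contra fun hc => hx (hs' x hc), fun hx => hs.apply_ne hnt hx⟩
  obtain ⟨a1, a2⟩ := key hs hs' h2
  obtain ⟨b1, b2⟩ := key ht ht' (by omega)
  exact a1.isConj b1 (by omega)

/-- A cycle type all of whose permutations are products of `k` permutations of type `d`. -/
def Good (n : ℕ) (d : ι → ℕ) (k : ℕ) : Prop :=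
  ∃ (κ : Type) (_ : Fintype κ) (e : κ → ℕ), ∑ j, (e j - 1) = k * ∑ i, (d i - 1) ∧
    ∑ j, e j ≤ (k + 1) * ∑ i, (d i - 1) + 1 ∧ ∑ j, e j ≤ n ∧
    ∀ (β : Perm (Fin n)) (S : Set (Fin n)) (lab : Fin n → Option κ), Lb β S e lab → PP d k β

theorem good (hE : JobEKS) (hn : ∑ i, d i = n) (h1 : 1 ≤ ∑ i, (d i - 1)) (k : ℕ)
    (hk : k * ∑ i, (d i - 1) + 1 ≤ n) : Good n d k := by
  induction k with
  | zero =>
    refine ⟨Empty, inferInstance, fun _ => 0, by simp, by simp, by simp, fun β S lab h => ?_⟩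
    refine ⟨[], rfl, by simp, ?_⟩
    ext w
    have : lab w = none := by
      rcases lab w with _ | ⟨j⟩
      · rfl
      · exact j.elim
    rw [h.1 w this]
    rfl
  | succ k ih =>
    rcases Nat.eq_zero_or_pos k with rfl | hk0
    · have := dpl_le_two d
      refine ⟨ι, inferInstance, dpl d, by rw [dpl_rho]; simp, by omega, hn ▸ dpl_le d,
        fun β S lab h => ⟨[β], rfl, fun α hα => ?_, by simp⟩⟩
      rw [List.mem_singleton.1 hα]
      exact ty0_of_dpl hn h
    have hk' : (k + 1) * ∑ i, (d i - 1) = k * ∑ i, (d i - 1) + ∑ i, (d i - 1) := by ring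
    have hk2 : (k + 1 + 1) * ∑ i, (d i - 1) = (k + 1) * ∑ i, (d i - 1) + ∑ i, (d i - 1) := by ring
    have hk3 : ∑ i, (d i - 1) ≤ k * ∑ i, (d i - 1) := Nat.le_mul_of_pos_left _ hk0
    obtain ⟨κ, _, e, e1, e2, e3, e4⟩ := ih (by omega)
    obtain ⟨S, -, hS⟩ := Set.exists_subset_card_eq (s := (Set.univ : Set (Fin n)))
      (n := (k + 1) * ∑ i, (d i - 1) + 1) (by simpa using hk)
    have := dpl_le_two d
    obtain ⟨α, β, la, lb, a1, a2, a3⟩ := hE (Fin n) κ ι S e (dpl d) 0 (by omega) (by omega)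
      (by rw [dpl_rho]; omega)
    have hP : PP d (k + 1) (α * β) := (e4 α S la a1).snoc (ty0_of_dpl hn a2)
    refine ⟨Unit, inferInstance, fun _ => (k + 1) * ∑ i, (d i - 1) + 1, by simp,
      by rw [Fintype.sum_unique]; omega, by rw [Fintype.sum_unique]; omega, fun γ T lab h => ?_⟩
    have hc := isConj_of_cyc a3 (h.2.2.1 ()) (fun x hx => by
      rw [Perm.mul_apply, a2.1 x (a2.2.1 x hx), a1.1 x (a1.2.1 x hx)])
      (fun x hx => h.1 x (by
        rcases hl : lab x with _ | ⟨j⟩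
        · rfl
        · exact absurd hl hx)) (by omega) (by rw [hS]; exact (h.2.2.2 ()).symm)
    obtain ⟨g, hg⟩ := isConj_iff.1 hc
    exact hg ▸ hP.conj g

theorem exists_norm {s : Perm (Fin n)} (h : s.IsCycleOn Set.univ) (v : Fin n) :
    ∃ τ : Perm (Fin n), (∀ i : Fin n, τ i = (s ^ (i : ℕ)) v) ∧
      ∀ w : Fin n, w.val + 1 < n → ((τ⁻¹ * s * τ⁻¹⁻¹) w).val = w.val + 1 := by
  have h' : s.IsCycleOn ((Finset.univ : Finset (Fin n)) : Set (Fin n)) := by simpa using h
  have hinj : Function.Injective fun i : Fin n => (s ^ (i : ℕ)) v := by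
    intro i j e
    have := (h'.pow_apply_eq_pow_apply (Finset.mem_univ v)).1 e
    rw [Finset.card_univ, Fintype.card_fin] at this
    exact Fin.ext (Nat.ModEq.eq_of_lt_of_lt this i.2 j.2)
  refine ⟨Equiv.ofBijective _ (Finite.injective_iff_bijective.1 hinj), fun _ => rfl,
    fun w hw => ?_⟩
  have : ((Equiv.ofBijective _ (Finite.injective_iff_bijective.1 hinj) : Perm (Fin n))⁻¹ * s *
      (Equiv.ofBijective _ (Finite.injective_iff_bijective.1 hinj) : Perm (Fin n))⁻¹⁻¹) w =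
      ⟨w.val + 1, hw⟩ := by
    rw [inv_inv, Perm.mul_apply, Perm.mul_apply, Perm.inv_eq_iff_eq, Equiv.ofBijective_apply,
      Equiv.ofBijective_apply, pow_succ', Perm.mul_apply]
  rw [this]

end Main

theorem jobPERM : JobPERM := by
  intro hE n ι _ _ d j hn hj h2
  set ρ := ∑ i, (d i - 1) with hρ
  have s1 := sum_upd d j (d j - 1) id
  have s2 := sum_upd d j (d j - 1) (· - 1)
  simp only [id] at s1 s2
  have hρn : ρ + 1 ≤ n := by
    have : ∑ i, (d i - 1) < ∑ i, d i :=
      Finset.sum_lt_sum (fun i _ => Nat.sub_le _ _) ⟨j, Finset.mem_univ j, by omega⟩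
    omega
  set k := (n - 2) / ρ with hk
  have k1 : k * ρ ≤ n - 2 := Nat.div_mul_le_self _ _
  have k2 : n - 2 < (k + 1) * ρ := by
    have := Nat.lt_div_mul_add (a := n - 2) (b := ρ) (by omega)
    rw [add_mul, one_mul]; exact this
  have k3 : (k + 1) * ρ = k * ρ + ρ := by ring
  obtain ⟨κ, _, e, e1, -, e3, e4⟩ := good hE hn (by omega) k (by rw [← hρ]; omega)
  rw [← hρ] at e1
  have hU : (Set.univ : Set (Fin n)).ncard = n := by simp
  have fin : ∀ (α a : Perm (Fin n)) (g : Perm (Fin n)), PP d k α →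
      (Ty0 (g * a * g⁻¹) d ∨ Ty1 (g * a * g⁻¹) d j) →
      (∀ w : Fin n, w.val + 1 < n → ((g * (α * a) * g⁻¹) w).val = w.val + 1) →
      ∃ L : List (Perm (Fin n)), L.length * ρ + 2 ≤ n + ρ ∧
        (∀ w : Fin n, w.val + 1 < n → (L.prod w).val = w.val + 1) ∧
        ∀ α ∈ L, Ty0 α d ∨ Ty1 α d j := by
    intro α a g hP ha hw
    obtain ⟨L, l1, l2, l3⟩ := hP.conj g
    refine ⟨L ++ [g * a * g⁻¹], by rw [List.length_append, l1, List.length_singleton]; omega,
      fun w h => ?_, fun β hβ => ?_⟩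
    · rw [List.prod_append, l3, List.prod_singleton, ← hw w h]
      congr 2
      group
    · rcases List.mem_append.1 hβ with h | h
      · exact Or.inl (l2 β h)
      · rw [List.mem_singleton.1 h]; exact ha
  rcases Nat.even_or_odd' ((k + 1) * ρ + 1 - n) with ⟨r, hr | hr⟩
  · obtain ⟨α, a, la, lb, a1, a2, a3⟩ := hE (Fin n) κ ι Set.univ e d r (by omega) (by omega)
      (by omega)
    obtain ⟨τ, -, hτ⟩ := exists_norm a3 ⟨0, by omega⟩
    exact fin α a τ⁻¹ (e4 α _ la a1) (Or.inl ⟨_, Lb.conj a2 _⟩) hτ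
  · obtain ⟨α, a, la, lb, a1, a2, a3⟩ := hE (Fin n) κ ι Set.univ e
      (Function.update d j (d j - 1)) r (by omega) (by omega) (by omega)
    obtain ⟨p, -, hp⟩ := Lb.exists_none a2 (by omega)
    set s := α * a with hs
    have h' : s.IsCycleOn ((Finset.univ : Finset (Fin n)) : Set (Fin n)) := by simpa using a3
    have ex : ∀ u, lb u = some j → ∃ b, 0 < b ∧ b < n ∧ (s ^ b) p = u := by
      intro u hu
      obtain ⟨b, hb, hbu⟩ := h'.exists_pow_eq (Finset.mem_univ p) (Finset.mem_univ u)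
      rw [Finset.card_univ, Fintype.card_fin] at hb
      refine ⟨b, Nat.pos_of_ne_zero fun h0 => ?_, hb, hbu⟩
      rw [h0, pow_zero, Perm.one_apply] at hbu
      rw [← hbu, hp] at hu
      cases hu
    have hb : ∃ b, 0 < b ∧ b < n ∧ lb ((s ^ b) p) = some j ∧
        (3 ≤ d j → ∃ c, 0 < c ∧ c < b ∧ lb ((s ^ c) p) = some j) := by
      by_cases h3 : 3 ≤ d j
      · have hc := a2.2.2.2 j
        rw [Function.update_self] at hc
        obtain ⟨u, hu, v, hv, huv⟩ :=
          (Set.one_lt_ncard (s := {w | lb w = some j}) (Set.toFinite _)).1 (by omega)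
        obtain ⟨b, b1, b2, rfl⟩ := ex u hu
        obtain ⟨c, c1, c2, rfl⟩ := ex v hv
        rcases lt_trichotomy b c with h | h | h
        · exact ⟨c, c1, c2, hv, fun _ => ⟨b, b1, h, hu⟩⟩
        · exact absurd (by rw [h]) huv
        · exact ⟨b, b1, b2, hu, fun _ => ⟨c, c1, h, hv⟩⟩
      · obtain ⟨u, hu⟩ := Lb.exists_some a2 (j := j) (by rw [Function.update_self]; omega)
        obtain ⟨b, b1, b2, rfl⟩ := ex u hu
        exact ⟨b, b1, b2, hu, fun h => absurd h h3⟩
    obtain ⟨b, b1, b2, b3, b4⟩ := hb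
    obtain ⟨τ, t1, hτ⟩ := exists_norm a3 ((s ^ b) p)
    have hN : (s ^ n) p = p := by
      have := h'.pow_card_apply (Finset.mem_univ p)
      rwa [Finset.card_univ, Fintype.card_fin] at this
    refine fin α a τ⁻¹ (e4 α _ la a1) (Or.inr ⟨_, ⟨n - b, by omega⟩, ⟨0, by omega⟩,
      Lb.conj a2 _, ?_, ?_, ?_, fun h3 => ?_⟩) hτ
    · show lb (τ⁻¹⁻¹ _) = none
      rw [inv_inv, t1, ← Perm.mul_apply, ← pow_add]
      show lb ((s ^ (n - b + b)) p) = none
      rw [Nat.sub_add_cancel b2.le, hN, hp]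
    · show lb (τ⁻¹⁻¹ _) = _
      rw [inv_inv, t1]
      exact b3
    · show 0 < n - b
      omega
    · obtain ⟨c, c1, c2, c3⟩ := b4 h3
      refine ⟨⟨n - b + c, by omega⟩, ?_, ?_⟩
      · show lb (τ⁻¹⁻¹ _) = _
        rw [inv_inv, t1, ← Perm.mul_apply, ← pow_add]
        show lb ((s ^ (n - b + c + b)) p) = _
        rw [show n - b + c + b = c + n by omega, pow_add, Perm.mul_apply, hN, c3]
      · show n - b < n - b + c
        omega

end H23.CNE
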