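/- COV tower (S2483): quadratic blocks. -/
import Cfsg.Agent.H68.CNKit2

set_option autoImplicit false

namespace H23.CNQ
open Module H68.CN H53 Polynomial

universe u
variable {K : Type u} [Field K] {V : Type u} [AddCommGroup V] [Module K V]

theorem det_one_add_nil [FiniteDimensional K V] {N : End K V} (h : IsNilpotent N) :
    LinearMap.det (1 + N) = 1 := by
  have := LinearMap.eval_charpoly (-N) 1
  rw [h.neg.charpoly_eq_X_pow_finrank, map_one, sub_neg_eq_add] at this
  rw [← this]
  simp

theorem sc_of_det [FiniteDimensional K V] {a b h : End K V} (hd : LinearMap.det h = 1)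
    (he : ∀ v, h (a v) = b (h v)) : SC a b := by
  obtain ⟨h', h1, h2⟩ := exists_inv (a := h) (by rw [hd]; exact one_ne_zero)
  exact ⟨LinearEquiv.ofLinearMap h h' h2 h1, hd, he⟩

/-- Block triangular maps. -/
def tri (A B D : End K V) : End K (V × V) :=
  (A.prodMap D) * (1 + LinearMap.inl K V V ∘ₗ B ∘ₗ LinearMap.snd K V V)

theorem tri_apply (A B D : End K V) (p : V × V) : tri A B D p = (A (p.1 + B p.2), D p.2) := by
  simp [tri]

theorem det_tri' [FiniteDimensional K V] (A B D : End K V) :
    LinearMap.det (tri A B D) = LinearMap.det A * LinearMap.det D := by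
  rw [tri, map_mul, LinearMap.det_prodMap, det_one_add_nil, mul_one]
  exact ⟨2, by ext <;> simp [pow_two]⟩

/-- Block maps. -/
def bl (A B C D : End K V) : End K (V × V) :=
  (A ∘ₗ LinearMap.fst K V V + B ∘ₗ LinearMap.snd K V V).prod
    (C ∘ₗ LinearMap.fst K V V + D ∘ₗ LinearMap.snd K V V)

theorem bl_apply (A B C D : End K V) (p : V × V) :
    bl A B C D p = (A p.1 + B p.2, C p.1 + D p.2) := rfl

theorem det_qm_ne [FiniteDimensional K V] (τ : K) {d : K} (hd : d ≠ 0) :
    LinearMap.det (qm V τ d) ≠ 0 := by
  have e : qm V τ d * (τ • 1 - qm V τ d) = d • 1 := by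
    refine LinearMap.ext fun p => ?_
    simp only [Module.End.mul_apply, LinearMap.sub_apply, LinearMap.smul_apply,
      Module.End.one_apply, qm_apply]
    ext <;> simp <;> module
  intro h0
  have := congrArg LinearMap.det e
  rw [map_mul, h0, zero_mul, LinearMap.det_smul, map_one, mul_one] at this
  exact pow_ne_zero _ hd this.symm

theorem jobQM : JobQM.{u} := by
  intro K _ V _ _ _ ι _ x a f τ d h hf
  classical
  let s := (Fintype.equivFin {i // f i ≠ 1}).symm
  let A : (Fin (Fintype.card {i // f i ≠ 1}) → K) →ₗ[K] V :=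
    Fintype.linearCombination K fun k => a (s k)
  have hx : ∀ p, x (x (A p)) = τ • x (A p) - d • A p := by
    intro p
    have : (x * x - τ • x + d • 1) ∘ₗ A = 0 := by
      refine LinearMap.pi_ext' fun k => LinearMap.ext_ring ?_
      have := h.2.1 (s k)
      rw [(hf (s k)).resolve_right (s k).2] at this
      simpa [A, pow_two, Algebra.algebraMap_eq_smul_one] using this
    have := LinearMap.congr_fun this p
    simp only [LinearMap.comp_apply, LinearMap.add_apply, LinearMap.sub_apply,
      Module.End.mul_apply, LinearMap.smul_apply, Module.End.one_apply,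
      LinearMap.zero_apply] at this
    linear_combination (norm := module) this
  have he : ∀ p, (A.coprod (x ∘ₗ A)) (qm _ τ d p) = x ((A.coprod (x ∘ₗ A)) p) := by
    intro p
    simp only [qm_apply, LinearMap.coprod_apply, LinearMap.comp_apply, map_add, map_smul, hx]
    module
  have hs : Function.Surjective (A.coprod (x ∘ₗ A)) := by
    rw [← LinearMap.range_eq_top]
    refine h.2.2.2 _ (fun i => ?_) ?_
    · by_cases hi : f i = 1
      · rw [h.eq_zero (by rw [hi, natDegree_one])]; exact zero_mem _
      · refine ⟨(Pi.single (s.symm ⟨i, hi⟩) 1, 0), ?_⟩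
        simp [A]
    · rintro _ ⟨p, rfl⟩
      exact ⟨_, he p⟩
  have hdim : finrank K ((Fin (Fintype.card {i // f i ≠ 1}) → K) ×
      (Fin (Fintype.card {i // f i ≠ 1}) → K)) = finrank K V := by
    rw [← h.2.2.1, finrank_prod, finrank_fin_fun, Fintype.card_subtype, Finset.card_filter,
      ← Finset.sum_add_distrib]
    refine Finset.sum_congr rfl fun i _ => ?_
    by_cases hi : f i = 1
    · simp [hi]
    · rw [if_pos hi, (hf i).resolve_right hi]
      symm
      compute_degree!
  exact ⟨_, Sim.symm ⟨LinearEquiv.ofBijective _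
    ⟨(LinearMap.injective_iff_surjective_of_finrank_eq_finrank hdim).2 hs, hs⟩, he⟩⟩

theorem cy_nak {S : End K V} {v : V} (hn : IsNilpotent S) (h : ∀ u, ∃ (c : K) (z : V), u = c • v + S z) :
    Cy S v := by
  intro W hv hW
  have : ∀ i u, ∃ z, u - (S ^ i) z ∈ W := by
    intro i u
    induction i with
    | zero => exact ⟨u, by simp⟩
    | succ i ih =>
      obtain ⟨z, hz⟩ := ih
      obtain ⟨c, z', rfl⟩ := h z
      refine ⟨z', ?_⟩
      have := W.add_mem hz (W.smul_mem c (pow_mem hW i hv))
      rw [map_add, map_smul, ← Module.End.mul_apply, ← pow_succ] at this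
      convert this using 1
      abel
  obtain ⟨m, hm⟩ := hn
  refine eq_top_iff.2 fun u _ => ?_
  obtain ⟨z, hz⟩ := this m u
  simpa [hm] using hz

theorem jobQ6 : JobQ6.{u} := by
  intro K _ m τ d h4 hd
  obtain ⟨N, u0, hc, hN⟩ := exists_model (K := K) (V := Fin m → K) (p := X ^ m) (monic_X_pow m)
    (by simp)
  have hN' : IsNilpotent N := ⟨m, by simpa using hc.aeval_eq_zero hN⟩
  have hJ := det_one_add_nil hN'
  obtain ⟨J', j1, j2⟩ := exists_inv (a := 1 + N) (by rw [hJ]; exact one_ne_zero)
  have j3 : ∀ u, N (J' u) = u - J' u := fun u => by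
    have := LinearMap.congr_fun j2 u
    simp only [Module.End.mul_apply, LinearMap.add_apply, Module.End.one_apply] at this
    linear_combination (norm := module) this
  have j4 : ∀ u, J' (N u) = u - J' u := fun u => by
    have := LinearMap.congr_fun j1 u
    simp only [Module.End.mul_apply, LinearMap.add_apply, Module.End.one_apply, map_add] at this
    linear_combination (norm := module) this
  obtain ⟨a, a0, a1, -⟩ := exists_ne3 h4 0 τ τ
  set f := a ^ 2 - τ * a + d with hf
  set x' : End K ((Fin m → K) × (Fin m → K)) := bl (a • 1) ((-f) • J') (1 + N) ((τ - a) • 1)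
    with hx'
  have hsc : SC (qm (Fin m → K) τ d) x' := by
    refine sc_of_det (h := tri 1 (a • 1) (1 + N)) (by rw [det_tri', hJ]; simp) fun p => ?_
    simp only [tri_apply, qm_apply, hx', bl_apply, LinearMap.smul_apply, Module.End.one_apply,
      LinearMap.add_apply, map_add, map_smul, j4, hf]
    refine Prod.ext ?_ ?_ <;> simp only <;> module
  have hP : Pw (qm (Fin m → K) τ d) 2 (qm (Fin m → K) τ d * x') :=
    (Pw.one (SC.refl _)).succ hsc
  refine ⟨_, (0, u0), hP, fun W hv hW => ?_⟩
  set y := qm (Fin m → K) τ d * x' with hy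
  have hdy : LinearMap.det y ≠ 0 := by rw [hP.det]; exact pow_ne_zero _ (det_qm_ne τ hd)
  obtain ⟨y', -, y2⟩ := exists_inv hdy
  set S : End K (Fin m → K) := N * (f • J' - d • 1) with hS
  have yy : ∀ p : (Fin m → K) × (Fin m → K), (S p.1, S p.2) =
      y p + d ^ 2 • y' p - (τ * (τ - a) - d - f) • p := by
    intro p
    have e : p = y (y' p) := by rw [← Module.End.mul_apply, y2]; rfl
    generalize y' p = w at e
    subst e
    simp only [hy, hS, Module.End.mul_apply, qm_apply, hx', bl_apply, LinearMap.smul_apply,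
      Module.End.one_apply, LinearMap.add_apply, LinearMap.sub_apply, map_add, map_smul, map_sub,
      j3, j4, hf]
    refine Prod.ext ?_ ?_ <;>
      simp only [Prod.fst_add, Prod.fst_sub, Prod.snd_add, Prod.snd_sub, Prod.smul_fst,
        Prod.smul_snd] <;> module
  have hcomm : Commute N (f • J' - d • 1) := by
    refine LinearMap.ext fun u => ?_
    simp [j3, j4]
  have hunit : IsUnit ((a * (a - τ)) • (1 : End K (Fin m → K)) + (-d) • N) := by
    refine (hN'.smul (-d)).isUnit_add_left_of_commute ?_ ?_
    · rw [← Algebra.algebraMap_eq_smul_one]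
      exact (IsUnit.mk0 _ (mul_ne_zero a0 (sub_ne_zero.2 a1))).map _
    · exact ((Commute.one_right _).smul_right _)
  have hcy : Cy S u0 := by
    refine cy_nak (hcomm.isNilpotent_mul_right hN') fun u => ?_
    obtain ⟨P, hP⟩ := hc.exists_aeval u
    obtain ⟨z, hz⟩ := ((Module.End.isUnit_iff _).1 hunit).2 (aeval N P.divX u0)
    refine ⟨P.coeff 0, (1 + N) z, ?_⟩
    rw [← hP]
    conv_lhs => rw [← P.X_mul_divX_add]
    simp only [map_add, map_mul, aeval_X, aeval_C, LinearMap.add_apply, Module.End.mul_apply,
      ← hz, Module.algebraMap_end_apply, hS, LinearMap.sub_apply, LinearMap.smul_apply,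
      Module.End.one_apply, map_smul, map_sub, j3, j4, hf]
    module
  have h2 : ∀ u, ((0 : Fin m → K), u) ∈ W := by
    have := hcy (W.comap (LinearMap.inr K _ _)) hv fun u hu => by
      have e := yy (0, u)
      simp only [map_zero] at e
      show ((0 : Fin m → K), S u) ∈ W
      rw [e]
      refine W.sub_mem (W.add_mem (hW _ hu) (W.smul_mem _ (mem_of_apply_mem hdy hW ?_)))
        (W.smul_mem _ hu)
      rw [← Module.End.mul_apply, y2]
      exact hu
    intro u
    exact (this.ge Submodule.mem_top : u ∈ W.comap (LinearMap.inr K _ _))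
  refine eq_top_iff.2 fun p _ => ?_
  have c0 : -d * (τ - a) ≠ 0 := mul_ne_zero (neg_ne_zero.2 hd) (sub_ne_zero.2 a1.symm)
  have h3 := W.add_mem (hW _ (h2 ((-d * (τ - a))⁻¹ • p.1)))
    (h2 (p.2 - (y (0, (-d * (τ - a))⁻¹ • p.1)).2))
  convert h3 using 1
  refine Prod.ext ?_ (by simp)
  simp only [hy, Module.End.mul_apply, qm_apply, hx', bl_apply, LinearMap.smul_apply,
    Module.End.one_apply, map_zero, zero_add, Prod.fst_add, add_zero, smul_smul]
  rw [← mul_assoc, mul_inv_cancel₀ c0, one_smul]

end H23.CNQ
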