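/- COV tower (S2483): two quadratic blocks. -/
import Cfsg.Agent.H23.CNQ

set_option autoImplicit false

namespace H23.CNQ
open Module H68.CN H53 Polynomial

universe u
variable {K : Type u} [Field K]

/-- Diagonal maps of the plane. -/
def dg (s : Fin 2 → K) : End K (Fin 2 → K) := Matrix.toLin' (Matrix.diagonal s)

theorem dg_apply (s u : Fin 2 → K) (k : Fin 2) : dg s u k = s k * u k := by
  simp [dg, Matrix.mulVec_diagonal]

theorem det_dg (s : Fin 2 → K) : LinearMap.det (dg s) = s 0 * s 1 := by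
  simp [dg]

theorem nice_bl {A B C D : Fin 2 → K} {δ : K} (hδ : δ ≠ 0) (hd : ∀ k, A k * D k - B k * C k = δ)
    (hT : A 0 + D 0 ≠ A 1 + D 1) (b0 : B 0 = 0) (b1 : B 1 ≠ 0) (hAD : A 0 ≠ D 0)
    (hdet : LinearMap.det (bl (dg A) (dg B) (dg C) (dg D)) ≠ 0) :
    Nice (bl (dg A) (dg B) (dg C) (dg D)) (A 0)
      ((X - Polynomial.C (D 0)) * (X ^ 2 - Polynomial.C (A 1 + D 1) * X + Polynomial.C δ)) := by
  set y := bl (dg A) (dg B) (dg C) (dg D) with hy
  have d0 : A 0 * D 0 = δ := by simpa [b0] using hd 0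
  have hA : A 0 ≠ 0 := fun e => hδ (by rw [← d0, e, zero_mul])
  have hD : D 0 ≠ 0 := fun e => hδ (by rw [← d0, e, mul_zero])
  have y1 : ∀ p k, (y p).1 k = A k * p.1 k + B k * p.2 k := fun p k => by
    simp [hy, bl_apply, dg_apply]
  have y2 : ∀ p k, (y p).2 k = C k * p.1 k + D k * p.2 k := fun p k => by
    simp [hy, bl_apply, dg_apply]
  have Z1 : ∀ (t : K) p k, (y (y p) - t • y p + δ • p).1 k = (A k + D k - t) * (y p).1 k := by
    intro t p k
    simp only [Prod.fst_add, Prod.fst_sub, Prod.smul_fst, Pi.add_apply, Pi.sub_apply,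
      Pi.smul_apply, smul_eq_mul, y1, y2, ← hd k]
    ring
  have Z2 : ∀ (t : K) p k, (y (y p) - t • y p + δ • p).2 k = (A k + D k - t) * (y p).2 k := by
    intro t p k
    simp only [Prod.snd_add, Prod.snd_sub, Prod.smul_snd, Pi.add_apply, Pi.sub_apply,
      Pi.smul_apply, smul_eq_mul, y1, y2, ← hd k]
    ring
  have m2 : (X ^ 2 - Polynomial.C (A 1 + D 1) * X + Polynomial.C δ).Monic := by monicity!
  have n2 : (X ^ 2 - Polynomial.C (A 1 + D 1) * X + Polynomial.C δ).natDegree = 2 := by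
    compute_degree!
  refine ⟨(monic_X_sub_C _).mul m2, ?_, ?_, ?_, hA, (![1, 0], ![(C 0 - 1) / (A 0 - D 0), 1]),
    fun W hw hW => ?_, ?_⟩
  · rw [(monic_X_sub_C _).natDegree_mul m2, n2, natDegree_X_sub_C]
    simp
  · simp only [eval_mul, eval_sub, eval_X, eval_C, eval_add, eval_pow, ← d0]
    refine mul_ne_zero (sub_ne_zero.2 hAD) ?_
    rw [show A 0 ^ 2 - (A 1 + D 1) * A 0 + A 0 * D 0 = A 0 * (A 0 + D 0 - (A 1 + D 1)) by ring]
    exact mul_ne_zero hA (sub_ne_zero.2 hT)
  · simp [hD, hδ]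
  · have hZ : ∀ t : K, y (y (![1, 0], ![(C 0 - 1) / (A 0 - D 0), 1])) -
        t • y (![1, 0], ![(C 0 - 1) / (A 0 - D 0), 1]) +
        δ • ((![1, 0], ![(C 0 - 1) / (A 0 - D 0), 1]) : (Fin 2 → K) × (Fin 2 → K)) ∈ W := fun t =>
      W.add_mem (W.sub_mem (hW _ (hW _ hw)) (W.smul_mem _ (hW _ hw))) (W.smul_mem _ hw)
    have w0 : ((![1, 0], ![(C 0 - 1) / (A 0 - D 0), 0]) : (Fin 2 → K) × (Fin 2 → K)) ∈ W := by
      refine mem_of_apply_mem hdet hW ((W.smul_mem_iff (sub_ne_zero.2 hT)).1 ?_)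
      convert hZ (A 1 + D 1) using 1
      refine Prod.ext (funext fun k => ?_) (funext fun k => ?_)
      · rw [Z1]
        fin_cases k <;> simp [y1]
      · rw [Z2]
        fin_cases k <;> simp [y2]
    have w1 : ((![0, 0], ![0, 1]) : (Fin 2 → K) × (Fin 2 → K)) ∈ W := by
      convert W.sub_mem hw w0 using 1
      refine Prod.ext (funext fun k => ?_) (funext fun k => ?_) <;> fin_cases k <;> simp
    have hAD' : A 0 - D 0 ≠ 0 := sub_ne_zero.2 hAD
    have w2 : ((![0, 0], ![1, 0]) : (Fin 2 → K) × (Fin 2 → K)) ∈ W := by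
      convert W.sub_mem (hW _ w0) (W.smul_mem (A 0) w0) using 1
      refine Prod.ext (funext fun k => ?_) (funext fun k => ?_) <;> fin_cases k
      · simp [y1, b0]
      · simp [y1]
      · simp [y2]
        field_simp
        ring
      · simp [y2]
    have w3 : ((![0, 1], ![0, 0]) : (Fin 2 → K) × (Fin 2 → K)) ∈ W := by
      refine (W.smul_mem_iff b1).1 ?_
      convert W.sub_mem (hW _ w1) (W.smul_mem (D 1) w1) using 1
      refine Prod.ext (funext fun k => ?_) (funext fun k => ?_) <;> fin_cases k <;> simp [y1, y2]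
    refine eq_top_iff.2 fun p _ => ?_
    convert W.add_mem (W.add_mem (W.smul_mem (p.1 0) w0) (W.smul_mem (p.1 1) w3))
      (W.add_mem (W.smul_mem (p.2 0 - p.1 0 * ((C 0 - 1) / (A 0 - D 0))) w2)
        (W.smul_mem (p.2 1) w1)) using 1
    refine Prod.ext (funext fun k => ?_) (funext fun k => ?_) <;> fin_cases k <;> simp
  · have e : (X - Polynomial.C (A 0)) * ((X - Polynomial.C (D 0)) *
        (X ^ 2 - Polynomial.C (A 1 + D 1) * X + Polynomial.C δ)) =
        (X ^ 2 - Polynomial.C (A 0 + D 0) * X + Polynomial.C δ) *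
        (X ^ 2 - Polynomial.C (A 1 + D 1) * X + Polynomial.C δ) := by
      rw [← mul_assoc]
      congr 1
      rw [← d0, map_mul, map_add]
      ring
    have ev : ∀ (t : K) p, aeval y (X ^ 2 - Polynomial.C t * X + Polynomial.C δ) p =
        y (y p) - t • y p + δ • p := fun t p => by
      simp [pow_two]
    rw [e, map_mul, Module.End.mul_apply, ev, ev]
    refine Prod.ext (funext fun k => ?_) (funext fun k => ?_)
    · rw [Z1, y1, Z1, Z2]
      fin_cases k <;> simp
    · rw [Z2, y2, Z1, Z2]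
      fin_cases k <;> simp

theorem jobQ4 : JobQ4.{u} := by
  intro K _ τ d h4 hd
  constructor
  · obtain ⟨c, c0, c1, c2⟩ := exists_ne3 h4 (0 : K) 1 (-1)
    obtain ⟨a, a1, a2, -⟩ := exists_ne3 h4 τ (-(c * τ)) 0
    set x' : End K ((Fin 2 → K) × (Fin 2 → K)) := bl (dg ![τ, a])
      (dg ![-d / c, -(a ^ 2 - τ * a + d) / c]) (dg ![c, c]) (dg ![0, τ - a]) with hx'
    have hsc : SC (qm (Fin 2 → K) τ d) x' := by
      refine sc_of_det (h := tri (dg ![c⁻¹, 1]) (dg ![τ, a]) (dg ![1, c]))
        (by rw [det_tri', det_dg, det_dg]; simp [c0]) fun p => ?_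
      simp only [tri_apply, qm_apply, hx', bl_apply]
      refine Prod.ext (funext fun k => ?_) (funext fun k => ?_) <;> fin_cases k <;>
        simp [dg_apply] <;> field_simp <;> ring
    have hP : Pw (qm (Fin 2 → K) τ d) 2 (qm (Fin 2 → K) τ d * x') :=
      (Pw.one (SC.refl _)).succ hsc
    have hdy : LinearMap.det (qm (Fin 2 → K) τ d * x') ≠ 0 := by
      rw [hP.det]; exact pow_ne_zero _ (det_qm_ne τ hd)
    have e : qm (Fin 2 → K) τ d * x' = bl (dg ![-(d * c), -(d * c)]) (dg ![0, -d * (τ - a)])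
        (dg ![τ + τ * c, a + τ * c])
        (dg ![-d / c, -(a ^ 2 - τ * a + d) / c + τ * (τ - a)]) := by
      refine LinearMap.ext fun p => ?_
      simp only [Module.End.mul_apply, qm_apply, hx', bl_apply]
      refine Prod.ext (funext fun k => ?_) (funext fun k => ?_) <;> fin_cases k <;>
        simp [dg_apply] <;> ring
    rw [e] at hP hdy
    refine ⟨_, _, _, hP, nice_bl (δ := d ^ 2) (pow_ne_zero _ hd) (fun k => ?_) ?_ (by simp) ?_ ?_
      hdy⟩
    · fin_cases k <;> simp <;> field_simp <;> ring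
    · intro h
      simp only [Matrix.cons_val_zero, Matrix.cons_val_one] at h
      have : (τ - a) * (a + c * τ) = 0 := by
        field_simp at h
        linear_combination -h
      rcases mul_eq_zero.1 this with h | h
      · exact a1 (sub_eq_zero.1 h).symm
      · exact a2 (eq_neg_of_add_eq_zero_left h)
    · simpa [hd, sub_eq_zero] using a1.symm
    · intro h
      simp only [Matrix.cons_val_zero] at h
      have : d * ((c - 1) * (c + 1)) = 0 := by
        field_simp at h
        linear_combination -d * h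
      rcases mul_eq_zero.1 this with h | h
      · exact hd h
      rcases mul_eq_zero.1 h with h | h
      · exact c1 (sub_eq_zero.1 h)
      · exact c2 (eq_neg_of_add_eq_zero_left h)
  · have hsc : SC (qm (Fin 2 → K) τ d) (τ • 1 - qm (Fin 2 → K) τ d) := by
      refine sc_of_det (h := tri 1 (τ • 1) ((-1 : K) • 1))
        (by rw [det_tri', LinearMap.det_smul]; simp) fun p => ?_
      simp only [tri_apply, qm_apply, LinearMap.smul_apply, Module.End.one_apply,
        LinearMap.sub_apply]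
      refine Prod.ext ?_ ?_ <;> simp only [Prod.fst_sub, Prod.snd_sub, Prod.smul_fst,
        Prod.smul_snd] <;> module
    have e : qm (Fin 2 → K) τ d * (τ • 1 - qm (Fin 2 → K) τ d) = d • 1 := by
      refine LinearMap.ext fun p => ?_
      simp only [Module.End.mul_apply, LinearMap.sub_apply, LinearMap.smul_apply,
        Module.End.one_apply, qm_apply]
      ext <;> simp
    exact e ▸ (Pw.one (SC.refl _)).succ hsc

end H23.CNQ
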