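/- COV tower (S2483): products of rank-one elements. -/
import Cfsg.Agent.H68.CNKit2

set_option autoImplicit false

namespace H23.CNR
open Module H68.CN H53 LinearMap

universe u
variable {K : Type u} [Field K] {V : Type u} [AddCommGroup V] [Module K V]

theorem exists_dual {p : Submodule K V} {x : V} (hx : x ∉ p) :
    ∃ φ : Dual K V, φ x = 1 ∧ ∀ y ∈ p, φ y = 0 := by
  obtain ⟨f, h1, h2⟩ := p.exists_dual_map_eq_bot_of_notMem hx inferInstance
  refine ⟨(f x)⁻¹ • f, by simp [h1], fun y hy => ?_⟩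
  have : f y ∈ p.map f := Submodule.mem_map_of_mem hy
  rw [h2, Submodule.mem_bot] at this
  simp [this]

theorem ker_ne_top' {φ : Dual K V} (h : φ ≠ 0) : LinearMap.ker φ ≠ ⊤ :=
  fun e => h (LinearMap.ker_eq_top.1 e)

theorem exists_indep {h : End K V} {W : Submodule K V} (hW : ∀ w ∈ W, h w ∈ W)
    (hn : ∀ c : K, ¬ ∀ w ∈ W, h w = c • w) : ∃ u ∈ W, h u ∉ K ∙ u := by
  by_contra hc
  push Not at hc
  obtain ⟨a, ha⟩ := LinearMap.exists_eq_smul_id_of_forall_notLinearIndependent
    (f := h.restrict hW) fun v hv => by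
      obtain ⟨c, hc'⟩ := Submodule.mem_span_singleton.1 (hc v v.2)
      have := (LinearIndependent.pair_iff.1 hv c (-1) (by
        apply Subtype.ext
        simp [hc'])).2
      simp at this
  refine hn a fun w hw => ?_
  have := congrArg (fun f : W →ₗ[K] W => (f ⟨w, hw⟩ : V)) ha
  simpa using this

variable [FiniteDimensional K V]

theorem sim_of_det {a b h : End K V} (hd : LinearMap.det h ≠ 0) (he : ∀ v, h (a v) = b (h v)) :
    Sim a b := by
  obtain ⟨h', h1, h2⟩ := exists_inv hd
  refine ⟨LinearEquiv.ofLinearMap h h' h2 h1, he⟩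

theorem sim_tv (h4 : 4 ≤ Cardinal.mk K) {φ φ' : Dual K V} {u u' : V} (h1 : φ ≠ 0) (h2 : φ' ≠ 0)
    (h3 : u ≠ 0) (h3' : u' ≠ 0) (he : φ u = φ' u') :
    Sim (transvection φ u) (transvection φ' u') := by
  obtain ⟨v, -, -, a1, a2⟩ := H56.RegU.avoid4 h4 (ker_ne_top' h1) (ker_ne_top' h1)
    (ker_ne_top' h1) (ker_ne_top' h2)
  rw [LinearMap.mem_ker] at a1 a2
  set t1 := transvection (φ - φ') ((φ' v)⁻¹ • v) with ht1
  have d1 : LinearMap.det t1 ≠ 0 := by
    rw [ht1, transvection.det]
    simp only [map_smul, LinearMap.sub_apply, smul_eq_mul]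
    rw [show 1 + (φ' v)⁻¹ * (φ v - φ' v) = (φ' v)⁻¹ * φ v by field_simp; ring]
    exact mul_ne_zero (inv_ne_zero a2) a1
  have e1 : ∀ x, φ' (t1 x) = φ x := by
    intro x
    rw [ht1, transvection.apply]
    simp only [map_add, map_smul, LinearMap.sub_apply, smul_eq_mul]
    field_simp
    ring
  have u1 : t1 u ≠ 0 := by
    obtain ⟨t', h, -⟩ := exists_inv d1
    intro e
    apply h3
    have : (t' * t1) u = 0 := by rw [Module.End.mul_apply, e, map_zero]
    rwa [h] at this
  obtain ⟨ψ, -, b1, b2, -⟩ := H56.RegU.avoid_dual (w := (0 : V)) (x₀ := t1 u) (x₁ := u') (x₂ := u')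
    (x₃ := u') h4 (by simpa using u1) (by simpa using h3') (by simpa using h3') (by simpa using h3')
  have s1 : Sim (transvection φ u) (transvection φ' (t1 u)) :=
    sim_of_det d1 fun x => by
      rw [transvection.apply φ, transvection.apply φ', map_add, map_smul, e1]
  refine s1.trans (sim_of_det (h := transvection ψ (u' - t1 u)) ?_ fun x => ?_)
  · rw [transvection.det, map_sub, b1]
    simpa using b2
  · have f1 : φ' (t1 u) = φ' u' := by rw [e1, he]
    generalize t1 u = u1 at b1 f1
    simp only [transvection.apply, map_add, map_smul, map_sub, smul_eq_mul, b1, f1]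
    module

theorem ss_tv (h3 : 3 ≤ finrank K V) (φ : Dual K V) (u : V) :
    ∃ e ε, SS (transvection φ u) e ε 1 := by
  have : ¬ LinearMap.ker φ ≤ K ∙ u := fun h => by
    have h1 := Submodule.finrank_mono h
    have h2 := finrank_span_singleton_le' (K := K) u
    have h4 := LinearMap.finrank_range_add_finrank_ker φ
    have h5 : finrank K (LinearMap.range φ) ≤ 1 :=
      (Submodule.finrank_le _).trans (by simp)
    omega
  obtain ⟨e, he, heu⟩ := SetLike.not_le_iff_exists.1 this
  obtain ⟨ε, a1, a2⟩ := exists_dual heu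
  refine ⟨e, ε, ?_, fun v => ?_, a1⟩
  · rw [transvection.apply, LinearMap.mem_ker.1 he]; simp
  · rw [transvection.apply, map_add, map_smul, a2 u (Submodule.mem_span_singleton_self u)]; simp
where
  finrank_span_singleton_le' {K : Type u} [Field K] {V : Type u} [AddCommGroup V] [Module K V]
      (u : V) : finrank K (K ∙ u) ≤ 1 := by
    simpa using finrank_span_le_card (R := K) ({u} : Set V)

section QQ
variable (h4 : 4 ≤ Cardinal.mk K) (h3 : 3 ≤ finrank K V) {φ₀ : Dual K V} {u₀ : V} (hφ : φ₀ ≠ 0)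
  (hu : u₀ ≠ 0)
include h4 h3 hφ hu

theorem sc_tv {φ : Dual K V} {u : V} (h1 : φ ≠ 0) (h2 : u ≠ 0) (he : φ u = φ₀ u₀) :
    SC (transvection φ₀ u₀) (transvection φ u) := by
  obtain ⟨e, ε, h⟩ := ss_tv h3 φ₀ u₀
  exact h.sc (sim_tv h4 hφ h1 hu h2 he.symm)

theorem pad (h0 : φ₀ u₀ = 0) {k : ℕ} {h : End K V} (hp : Pw (transvection φ₀ u₀) (k + 1) h) :
    Pw (transvection φ₀ u₀) (k + 2) h := by
  obtain ⟨c, c0, c1, -⟩ := exists_ne3 h4 (0 : K) 1 1
  have two : Pw (transvection φ₀ u₀) 2 (transvection φ₀ u₀) := by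
    have a := (Pw.one (sc_tv h4 h3 hφ hu (φ := c • φ₀) (smul_ne_zero c0 hφ) hu
      (by simp [h0]))).succ (sc_tv h4 h3 hφ hu (φ := (1 - c) • φ₀)
        (smul_ne_zero (sub_ne_zero.2 c1.symm) hφ) hu (by simp [h0]))
    have e : transvection (c • φ₀) u₀ * transvection ((1 - c) • φ₀) u₀ = transvection φ₀ u₀ := by
      ext x
      rw [Module.End.mul_apply, transvection.comp_of_right_eq_apply (by simp [h0]), ← add_smul]
      simp
    rwa [e] at a
  obtain ⟨L, l1, l2, rfl⟩ := hp
  obtain _ | ⟨z, L⟩ := L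
  · simp at l1
  · have a := (two.conj (l2 z (by simp))).mul
      (⟨L, by simpa using l1, fun w hw => l2 w (by simp [hw]), rfl⟩ : Pw _ k L.prod)
    rw [List.prod_cons, add_comm k 2]
    exact a

theorem qq_mul {k : ℕ} {h : End K V} {φ : Dual K V} {u : V} (he : φ u = φ₀ u₀)
    (hq : Pw (transvection φ₀ u₀) k h ∨ (φ₀ u₀ = 0 ∧ h = 1)) :
    Pw (transvection φ₀ u₀) (k + 1) (h * transvection φ u) ∨
      (φ₀ u₀ = 0 ∧ h * transvection φ u = 1) := by
  by_cases ht : φ = 0 ∨ u = 0
  · have h0 : φ₀ u₀ = 0 := by rcases ht with h | h <;> simp [← he, h]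
    have e : transvection φ u = 1 := by
      rcases ht with h | h <;> simp [h] <;> rfl
    rw [e, mul_one]
    rcases hq with hq | hq
    · rcases k with _ | k
      · obtain ⟨L, l1, -, rfl⟩ := hq
        rw [List.length_eq_zero_iff.1 l1]
        exact Or.inr ⟨h0, rfl⟩
      · exact Or.inl (pad h4 h3 hφ hu h0 hq)
    · exact Or.inr hq
  push Not at ht
  have hs := sc_tv h4 h3 hφ hu ht.1 ht.2 he
  rcases hq with hq | hq
  · exact Or.inl (hq.succ hs)
  · left
    rw [hq.2, one_mul]
    induction k with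
    | zero => exact Pw.one hs
    | succ k ih => exact pad h4 h3 hφ hu hq.1 ih

end QQ

/-- The reduced map. -/
noncomputable def red (h : End K V) (ψ : Dual K V) (u : V) (al : K) : End K V :=
  h * transvection ((-al⁻¹) • (ψ ∘ₗ (h - 1))) u

omit [FiniteDimensional K V] in
theorem red_apply (h : End K V) (ψ : Dual K V) (u : V) (al : K) (v : V) :
    red h ψ u al v = h v - (al⁻¹ * (ψ (h v) - ψ v)) • h u := by
  simp only [red, Module.End.mul_apply, transvection.apply, map_add, map_smul,
    LinearMap.smul_apply, LinearMap.comp_apply, LinearMap.sub_apply, Module.End.one_apply, map_sub,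
    smul_eq_mul]
  module

omit [FiniteDimensional K V] in
theorem red_mul {h : End K V} {ψ : Dual K V} {u : V} {al : K} (ha : al ≠ 0) (h1 : ψ u = 1)
    (h2 : ψ (h u) = al) : red h ψ u al * transvection (ψ ∘ₗ (h - 1)) u = h := by
  ext v
  simp only [Module.End.mul_apply, red_apply, transvection.apply, map_add, map_smul,
    LinearMap.comp_apply, LinearMap.sub_apply, Module.End.one_apply, map_sub, h1, h2]
  have : al⁻¹ * (al - 1) = 1 - al⁻¹ := by field_simp
  rw [this]
  module

theorem finrank_inf_ker {W : Submodule K V} {ψ : Dual K V} {u : V} (hu : u ∈ W) (h1 : ψ u = 1) :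
    finrank K (W ⊓ LinearMap.ker ψ : Submodule K V) + 1 = finrank K W := by
  have := H56.RegU.finrank_ker_add (φ := ψ ∘ₗ W.subtype) (v := ⟨u, hu⟩) h1
  rw [← this, LinearMap.ker_comp, ← Submodule.finrank_map_subtype_eq W,
    Submodule.map_comap_subtype]

theorem claim (h4 : 4 ≤ Cardinal.mk K) (h3 : 3 ≤ finrank K V) {φ₀ : Dual K V} {u₀ : V}
    (hφ : φ₀ ≠ 0) (hu : u₀ ≠ 0) {al : K} (ha : al ≠ 0) (hal : 1 + φ₀ u₀ = al) (k : ℕ) :
    ∀ (h : End K V) (W : Submodule K V), finrank K W = k + 1 → (∀ v, h v - v ∈ W) →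
      LinearMap.det h = al ^ (k + 1) → (1 ≤ k → ∀ c : K, ¬ ∀ w ∈ W, h w = c • w) →
      Pw (transvection φ₀ u₀) (k + 1) h ∨ (φ₀ u₀ = 0 ∧ h = 1) := by
  induction k with
  | zero =>
    intro h W hW hr hd _
    obtain ⟨⟨u, huW⟩, hu0, hsp⟩ := finrank_eq_one_iff'.1 hW
    have hu1 : u ≠ 0 := fun e => hu0 (Subtype.ext e)
    obtain ⟨ψ, a1, -⟩ := exists_dual (p := (⊥ : Submodule K V)) (x := u) (by simpa using hu1)
    have e : h = transvection (ψ ∘ₗ (h - 1)) u := by
      ext v
      obtain ⟨c, hc⟩ := hsp ⟨_, hr v⟩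
      have hc' : c • u = h v - v := congrArg Subtype.val hc
      rw [transvection.apply, LinearMap.comp_apply, LinearMap.sub_apply, Module.End.one_apply,
        ← hc', map_smul, a1, smul_eq_mul, mul_one, hc']
      abel
    have hd' : (ψ ∘ₗ (h - 1)) u = φ₀ u₀ := by
      rw [e, transvection.det, ← hal] at hd
      simpa using hd
    have := qq_mul h4 h3 hφ hu hd' (Or.inl (Pw.zero _))
    rwa [one_mul, ← e] at this
  | succ k ih =>
    intro h W hW hr hd hn
    have hWW : ∀ w ∈ W, h w ∈ W := fun w hw => by simpa using W.add_mem (hr w) hw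
    obtain ⟨u, huW, hi⟩ := exists_indep hWW (hn (by omega))
    have hu0 : u ≠ 0 := fun e => hi (by simp [e])
    have step : ∀ ψ : Dual K V, ψ u = 1 → ψ (h u) = al →
        (1 ≤ k → ∀ c : K, ¬ ∀ w ∈ W ⊓ LinearMap.ker ψ, red h ψ u al w = c • w) →
        Pw (transvection φ₀ u₀) (k + 1 + 1) h ∨ (φ₀ u₀ = 0 ∧ h = 1) := by
      intro ψ a1 a2 a3
      have e := red_mul ha a1 a2
      have ht : (ψ ∘ₗ (h - 1)) u = φ₀ u₀ := by
        rw [LinearMap.comp_apply, LinearMap.sub_apply, Module.End.one_apply, map_sub, a1, a2, ← hal]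
        ring
      have hd' : LinearMap.det (red h ψ u al) = al ^ (k + 1) := by
        have := congrArg LinearMap.det e
        rw [map_mul, transvection.det, ht, hal, hd, pow_succ] at this
        exact mul_right_cancel₀ ha this
      have := finrank_inf_ker huW a1
      have q := ih (red h ψ u al) (W ⊓ LinearMap.ker ψ) (by omega) (fun v => ?_) hd' a3
      · have := qq_mul h4 h3 hφ hu ht q
        rwa [e] at this
      · rw [red_apply, sub_right_comm]
        refine Submodule.mem_inf.2 ⟨W.sub_mem (hr v) (W.smul_mem _ (hWW u huW)), ?_⟩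
        rw [LinearMap.mem_ker, map_sub, map_sub, map_smul, a2, smul_eq_mul]
        field_simp
        ring
    have hs : h u - al • u ∉ K ∙ u := fun hh => hi (by
      simpa using Submodule.add_mem _ hh
        (Submodule.smul_mem _ al (Submodule.mem_span_singleton_self u)))
    have hs' : u ∉ K ∙ (h u - al • u) := fun hh => by
      obtain ⟨c, hc⟩ := Submodule.mem_span_singleton.1 hh
      have c0 : c ≠ 0 := fun e => hu0 (by rw [← hc, e, zero_smul])
      exact hs (Submodule.mem_span_singleton.2 ⟨c⁻¹, by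
        rw [eq_comm, eq_inv_smul_iff₀ c0, hc]⟩)
    obtain ⟨ψ, a1, a2⟩ := exists_dual hs'
    have a3 : ψ (h u) = al := by
      have := a2 _ (Submodule.mem_span_singleton_self _)
      rw [map_sub, map_smul, a1, smul_eq_mul, mul_one] at this
      exact sub_eq_zero.1 this
    by_cases hc : 1 ≤ k → ∀ c : K, ¬ ∀ w ∈ W ⊓ LinearMap.ker ψ, red h ψ u al w = c • w
    · exact step ψ a1 a3 hc
    push Not at hc
    obtain ⟨hk, c, hc⟩ := hc
    have hlt : ¬ W ≤ Submodule.span K {u, h u} := fun hle => by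
      have b1 := Submodule.finrank_mono hle
      have b2 : finrank K (Submodule.span K ({u, h u} : Set V)) ≤ 2 := by
        classical
        refine (finrank_span_le_card _).trans ?_
        rw [Set.toFinset_insert, Set.toFinset_singleton]
        exact Finset.card_le_two
      omega
    obtain ⟨w1, hw1, hw2⟩ := SetLike.not_le_iff_exists.1 hlt
    obtain ⟨χ, b1, b2⟩ := exists_dual hw2
    have b3 : χ u = 0 := b2 _ (Submodule.subset_span (by simp))
    have b4 : χ (h u) = 0 := b2 _ (Submodule.subset_span (by simp))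
    refine step (ψ + χ) (by simp [a1, b3]) (by simp [a3, b4]) fun _ c' hc' => ?_
    have key : ∀ w ∈ W, ψ w = 0 →
        c • w - (c * χ w * al⁻¹) • h u = c' • w - (c' * χ w) • u := by
      intro w hw h0
      have e1 := hc w (Submodule.mem_inf.2 ⟨hw, h0⟩)
      have e2 := hc' (w - χ w • u) (Submodule.mem_inf.2 ⟨W.sub_mem hw (W.smul_mem _ huW), by
        simp [h0, a1, b3]⟩)
      rw [red_apply, h0, sub_zero, sub_eq_iff_eq_add] at e1
      have e3 : χ (h w) = c * χ w := by rw [e1]; simp [b4]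
      rw [red_apply] at e2
      simp only [map_sub, map_smul, LinearMap.add_apply, h0, a1, a3, b3, b4, e3, smul_eq_mul] at e2
      have e4 : al⁻¹ * (ψ (h w) + c * χ w - χ w * (al + 0) - (0 + χ w - χ w * (1 + 0))) =
          al⁻¹ * ψ (h w) + c * χ w * al⁻¹ - χ w := by
        field_simp
        ring
      rw [e4] at e2
      generalize ψ (h w) = t at e1 e2
      rw [e1] at e2
      linear_combination (norm := module) e2
    have hsW : h u - al • u ∈ W := W.sub_mem (hWW u huW) (W.smul_mem _ huW)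
    have hs0 : h u - al • u ≠ 0 := fun e => hs (by simp [e])
    have k1 := key _ hsW (by simp [a1, a3])
    simp only [map_sub, map_smul, b3, b4, smul_eq_mul, mul_zero, sub_zero, zero_mul,
      zero_smul] at k1
    have cc : c = c' := smul_left_injective K hs0 k1
    have c0 : c ≠ 0 := by
      intro e
      have e1 := hc _ (Submodule.mem_inf.2 ⟨hsW, by simp [a1, a3]⟩)
      rw [e, zero_smul] at e1
      have hd' : LinearMap.det (red h ψ u al) ≠ 0 := by
        intro e0
        have := congrArg LinearMap.det (red_mul ha a1 a3)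
        rw [map_mul, e0, zero_mul, hd] at this
        exact pow_ne_zero _ ha this.symm
      obtain ⟨t', h1, -⟩ := exists_inv hd'
      apply hs0
      have : (t' * red h ψ u al) (h u - al • u) = 0 := by rw [Module.End.mul_apply, e1, map_zero]
      rwa [h1] at this
    have k2 := key (w1 - ψ w1 • u) (W.sub_mem hw1 (W.smul_mem _ huW)) (by simp [a1])
    simp only [map_sub, map_smul, b1, b3, smul_eq_mul, mul_zero, sub_zero, mul_one, ← cc,
      sub_right_inj] at k2
    apply hi
    refine Submodule.mem_span_singleton.2 ⟨al, ?_⟩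
    have : (c * al⁻¹) • (al • u) = (c * al⁻¹) • h u := by
      rw [k2, smul_smul]
      congr 1
      field_simp
    exact smul_right_injective V (mul_ne_zero c0 (inv_ne_zero ha)) this

theorem jobR1 : JobR1.{u} := by
  intro K _ V _ _ _ x l w h4 h3 hd hn hw g hg hgn
  have hl : l ≠ 0 := by
    rintro rfl
    obtain ⟨x', -, h2⟩ := exists_inv (a := x) (by rw [hd]; exact one_ne_zero)
    have : (⊤ : Submodule K V) ≤ K ∙ w := fun v _ => by
      have := hw (x' v)
      rwa [zero_smul, sub_zero, ← Module.End.mul_apply, h2] at this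
    have b1 := Submodule.finrank_mono this
    have b2 := ss_tv.finrank_span_singleton_le' (K := K) w
    rw [finrank_top] at b1
    omega
  have hw0 : w ≠ 0 := by
    rintro rfl
    refine hn l (LinearMap.ext fun v => ?_)
    simpa [sub_eq_zero] using hw v
  obtain ⟨ψ, a1, -⟩ := exists_dual (p := (⊥ : Submodule K V)) (x := w) (by simpa using hw0)
  set φ₀ : Dual K V := l⁻¹ • (ψ ∘ₗ (x - l • 1)) with hφ₀
  have e : x = l • transvection φ₀ w := by
    ext v
    obtain ⟨c, hc⟩ := Submodule.mem_span_singleton.1 (hw v)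
    have : φ₀ v = l⁻¹ * c := by
      rw [hφ₀, LinearMap.smul_apply, LinearMap.comp_apply, LinearMap.sub_apply,
        LinearMap.smul_apply, Module.End.one_apply, ← hc, map_smul, a1]
      simp
    rw [LinearMap.smul_apply, transvection.apply, this, smul_add, smul_smul,
      mul_inv_cancel_left₀ hl, hc]
    abel
  have hφ : φ₀ ≠ 0 := fun e0 => hn l (by rw [e, e0]; simp; rfl)
  have hdet : l ^ finrank K V * (1 + φ₀ w) = 1 := by
    rw [e, LinearMap.det_smul, transvection.det] at hd
    exact hd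
  have ha : 1 + φ₀ w ≠ 0 := fun e0 => by simp [e0] at hdet
  obtain ⟨k, hk⟩ : ∃ k, finrank K V = k + 1 := ⟨finrank K V - 1, by omega⟩
  have hns : ∀ c : K, ¬ ∀ v ∈ (⊤ : Submodule K V), ((1 + φ₀ w) • g) v = c • v := by
    intro c hc
    refine hgn ((1 + φ₀ w)⁻¹ * c) (LinearMap.ext fun v => ?_)
    have := hc v Submodule.mem_top
    rw [LinearMap.smul_apply] at this
    rw [LinearMap.smul_apply, Module.End.one_apply, mul_smul, ← this, inv_smul_smul₀ ha]
  rcases claim h4 h3 hφ hw0 ha rfl k ((1 + φ₀ w) • g) ⊤ (by rw [finrank_top, hk])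
    (fun _ => Submodule.mem_top) (by rw [LinearMap.det_smul, hg, hk, mul_one])
    (fun _ => hns) with q | q
  · have := q.smul l
    rwa [← e, smul_smul, ← hk, hdet, one_smul] at this
  · exact absurd (fun v _ => by rw [q.2]; simp) (hns 1)

end H23.CNR
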