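import Cfsg.Agent.Base
import Cfsg.Agent.H4.Cover
import Cfsg.Agent.H9.PBasic
import Cfsg.Agent.H8.HallFocal

/-! Class sizes of the elements of prime-power order of a non-solvable normal subgroup. -/

set_option autoImplicit false

namespace H23.CSD

open Subgroup H4
open scoped commutatorElement

universe u

/-- solvability from a coprime action with nilpotent fixed points -/
def FPF : Prop := ∀ {A G : Type u} [Group A] [Finite A] [Group G] [Finite G]
  [MulDistribMulAction A G], (Nat.card G).Coprime (Nat.card A) →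
  Group.IsNilpotent ↥(FixedPoints.subgroup A G) ∨ Odd (Nat.card ↥(FixedPoints.subgroup A G)) →
  Group.IsSolvable G

variable {G : Type u} [Group G] [Finite G]

theorem pow_dvd_card {p k : ℕ} [hp : Fact p.Prime] (P : Sylow p G) {Z : Subgroup G} {x : G}
    (hx : x ∈ (P : Subgroup G)) (h : ∀ g ∈ (P : Subgroup G), ⁅x, g⁆ ∈ Z) (hk : p ^ k ∣ ind x) :
    p ^ k ∣ Nat.card Z := by
  set C := centralizer ({x} : Set G)
  have h1 : p ^ k ∣ C.relIndex P := by
    have a : p ^ k ∣ (C ⊓ P : Subgroup G).index := hk.trans (index_dvd_of_le inf_le_left)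
    rw [← relIndex_mul_index (inf_le_right : C ⊓ P ≤ (P : Subgroup G)), inf_relIndex_right] at a
    exact (Nat.Coprime.pow_left k (hp.out.coprime_iff_not_dvd.2 P.not_dvd_index)).dvd_of_dvd_mul_right a
  have h2 : C.relIndex P ≤ Nat.card (Z ⊓ P : Subgroup G) := by
    refine Nat.card_le_card_of_injective (fun q : (P : Subgroup G) ⧸ C.subgroupOf P =>
      (⟨⁅x, (q.out : G)⁆, mem_inf.2 ⟨h _ q.out.2, by
        rw [commutatorElement_def]
        exact mul_mem (mul_mem (mul_mem hx q.out.2) (inv_mem hx)) (inv_mem q.out.2)⟩⟩ :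
        (Z ⊓ P : Subgroup G))) fun a b e => ?_
    have e1 : ⁅x, (a.out : G)⁆ = ⁅x, (b.out : G)⁆ := congrArg Subtype.val e
    rw [← a.out_eq', ← b.out_eq', QuotientGroup.eq, mem_subgroupOf]
    refine mem_cent_iff.2 ?_
    simp only [commutatorElement_def, mul_assoc, mul_left_cancel_iff] at e1
    simp only [coe_mul, coe_inv]
    generalize (a.out : G) = s at e1
    generalize (b.out : G) = t at e1
    calc s⁻¹ * t * x = s⁻¹ * (t * (x⁻¹ * t⁻¹))⁻¹ * t := by group
      _ = _ := by rw [← e1]; group
  obtain ⟨l, hl⟩ := IsPGroup.iff_card.1 (P.isPGroup'.to_inf_right (H := Z))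
  have h3 : p ^ k ≤ p ^ l := hl ▸ (Nat.le_of_dvd (Nat.pos_of_ne_zero index_ne_zero_of_finite) h1).trans h2
  exact (pow_dvd_pow p ((Nat.pow_le_pow_iff_right hp.out.one_lt).1 h3)).trans
    (hl ▸ card_dvd_of_le inf_le_left)

theorem S4367_of (H : FPF.{u}) (N : Subgroup G) [N.Normal] (hN : ¬ Group.IsSolvable N) (m : ℕ)
    (h : ∀ x : G, x ∈ N → (∃ y ∈ N, x * y ≠ y * x) → IsPrimePow (orderOf x) →
      m ∣ (Subgroup.centralizer ({x} : Set G)).index) :
    m ∣ Nat.card (Subgroup.center N) := by
  refine (Nat.dvd_iff_prime_pow_dvd_dvd _ _).2 fun p k hp hk => ?_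
  have := Fact.mk hp
  let Z := (center N).map N.subtype
  have hZ : ∀ x, x ∈ N → x ∉ Z → ∀ q j : ℕ, q.Prime → orderOf x = q ^ j → p ^ k ∣ ind x := by
    intro x hx hz q j hq e
    refine hk.trans (h x hx ?_ ?_)
    · by_contra! a
      exact hz ⟨⟨x, hx⟩, mem_center_iff.2 fun y => Subtype.ext (a y y.2).symm, rfl⟩
    · rcases j with _ | j
      · rw [pow_zero, orderOf_eq_one_iff] at e
        exact (hz (e ▸ one_mem _)).elim
      · exact e ▸ hq.isPrimePow.pow j.succ_ne_zero
  obtain ⟨Q⟩ : Nonempty (Sylow p N) := inferInstance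
  obtain ⟨P, hP⟩ := (Q.isPGroup'.map N.subtype).exists_le_sylow
  by_cases hQ : (Q : Subgroup N) ≤ center N
  · rcases k with _ | k
    · simp
    exfalso
    have hc : normalizer ((Q : Subgroup N) : Set N) ≤ centralizer ((Q : Subgroup N) : Set N) :=
      fun g _ y hy => (mem_center_iff.1 (hQ hy) g).symm
    have c := MonoidHom.ker_transferSylow_isComplement' Q hc
    set K := (MonoidHom.transferSylow Q hc).ker
    have hK : p.Coprime (Nat.card K) := by
      rw [← c.index_eq_card]; exact hp.coprime_iff_not_dvd.2 Q.not_dvd_index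
    have : K.Characteristic := H8.characteristic_of_normal_hall K (by
      obtain ⟨j, hj⟩ := IsPGroup.iff_card.1 Q.isPGroup'
      rw [c.symm.index_eq_card, hj]; exact hK.symm.pow_right j)
    let K' := K.map N.subtype
    have e : K ≃* K' := K.equivMapOfInjective _ N.subtype_injective
    let _ : MulDistribMulAction P K' :=
      .compHom K' ((MulAut.conjNormal (H := K')).comp (P : Subgroup G).subtype)
    have hs : Group.IsSolvable K' := by
      refine H (A := P) ?_ (Or.inl ?_)
      · obtain ⟨j, hj⟩ := IsPGroup.iff_card.1 P.isPGroup'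
        rw [hj, ← Nat.card_congr e.toEquiv]; exact hK.symm.pow_right j
      · have k1 : ∀ y : FixedPoints.subgroup P K', ((y : K') : G) ∈ Z := fun y => by
          have hy : ((y : K') : G) ∈ N := map_subtype_le _ (y : K').2
          have hc : ((y : K') : G) ∈ centralizer ((P : Subgroup G) : Set G) := fun g hg => by
            have : g * ((y : K') : G) * g⁻¹ = y := congrArg Subtype.val (y.2 ⟨g, hg⟩)
            rw [mul_inv_eq_iff_eq_mul.1 this]
          refine mem_of_forall_primePow_mem _ fun i q j hq _ e => by_contra fun a => ?_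
          exact not_dvd_ind_of_mem_centralizer_sylow P (pow_mem hc i)
            ((dvd_pow_self p k.succ_ne_zero).trans (hZ _ (pow_mem hy i) a q j hq e))
        have : IsMulCommutative (FixedPoints.subgroup P K') := ⟨⟨fun a b => by
          obtain ⟨z, hz, e⟩ := k1 a
          have hb : ((b : K') : G) ∈ N := map_subtype_le _ (b : K').2
          have := congrArg Subtype.val (mem_center_iff.1 hz ⟨_, hb⟩)
          refine Subtype.ext (Subtype.ext ?_)
          simp only [coe_mul, ← e, coe_subtype]
          exact this.symm⟩⟩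
        exact ⟨1, by
          rw [Subgroup.upperCentralSeries_one, eq_top_iff]
          exact fun a _ => mem_center_iff.2 fun b => this.is_comm.comm b a⟩
    have : Group.IsSolvable K := Group.isSolvable_of_isSolvable_injective (f := e.toMonoidHom) e.injective
    have := Q.isPGroup'.isNilpotent
    exact hN (Group.isSolvable_of_ker_le_range K.subtype (MonoidHom.transferSylow Q hc) (by
      rw [range_subtype]))
  · have := P.isPGroup'.isNilpotent
    obtain ⟨x, h1, h2, h3⟩ := H9.exists_central_mod (G := (P : Subgroup G)) (N := Z.subgroupOf P)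
      (K := N.subgroupOf P) fun a => hQ fun y hy => by
        obtain ⟨z, hz, e⟩ := a (x := ⟨y, hP ⟨y, hy, rfl⟩⟩) y.2
        exact (Subtype.ext e : z = y) ▸ hz
    obtain ⟨j, hj⟩ := (IsPGroup.iff_orderOf.1 P.isPGroup') x
    rw [← card_map_of_injective N.subtype_injective]
    exact pow_dvd_card P x.2 (fun g hg => h3 ⟨g, hg⟩)
      (hZ x h1 h2 p j hp (by rw [orderOf_coe, hj]))

end H23.CSD
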