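import Cfsg.Agent.H40.E7TSpec
import Cfsg.Agent.H58.E7Lin

/-! Tower E7T: the jobs `JobCong` and `JobSplit`. -/

set_option autoImplicit false

namespace H23.E7T

open Module H40.E7S H40.E7T H58.E7

theorem card_sub (M : Submodule (ZMod 2) V56) : Nat.card M = 2 ^ dm M := by
  rw [Module.natCard_eq_pow_finrank (K := ZMod 2), Nat.card_zmod]

theorem res_pow {M : Submodule (ZMod 2) V56} {A : End (ZMod 2) V56}
    {f : M → M} (hf : ∀ v, (f v).1 = A v) (k : ℕ) (v : M) : (f^[k] v).1 = (A ^ k) v := by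
  induction k with
  | zero => rfl
  | succ k ih => rw [Function.iterate_succ_apply', hf, ih, pow_succ', End.mul_apply]

theorem six_dvd {d : ℕ} (h : 2 ^ d % 9 = 1) : 6 ∣ d := by
  rw [← Nat.div_add_mod d 6, pow_add, pow_mul, Nat.mul_mod, Nat.pow_mod] at h
  have : d % 6 < 6 := Nat.mod_lt _ (by norm_num)
  rw [Nat.dvd_iff_mod_eq_zero]
  interval_cases d % 6 <;> simp_all

theorem jobCong : JobCong := by
  classical
  intro M A h
  have := Fintype.ofFinite M
  let f : Function.End M := fun v => ⟨A v, h v v.2⟩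
  have hf := res_pow (A := A) (f := f) fun _ => rfl
  refine ⟨fun p hp e => ?_, fun e h0 => six_dvd ?_⟩
  · have := Fact.mk hp
    have k := Equiv.Perm.card_fixedPoints_modEq (f := f) (p := p) (n := 1) (by
      rw [pow_one]
      exact funext fun v => Subtype.ext ((congrArg Subtype.val
        (congrFun (hom_coe_pow (fun g : Function.End M => g) rfl (fun _ _ => rfl) f p) v)).trans ((hf p v).trans (e v v.2))))
    rw [← Nat.card_eq_fintype_card, ← Nat.card_eq_fintype_card, card_sub] at k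
    rw [← card_sub (M ⊓ kf A), Nat.card_congr (show ↥(M ⊓ kf A) ≃ f.fixedPoints from
      ⟨fun v => ⟨⟨v.1, v.2.1⟩, Subtype.ext (mem_kf.1 v.2.2)⟩,
        fun v => ⟨v.1.1, v.1.2, mem_kf.2 (congrArg Subtype.val v.2)⟩, fun _ => rfl, fun _ => rfl⟩)]
    exact k
  · have i9 : ∀ v, f^[9] v = v := fun v => Subtype.ext ((hf 9 v).trans (e v v.2))
    let σ : Equiv.Perm M := ⟨f, f^[8], fun v => i9 v, fun v => (Function.iterate_succ_apply' f 8 v).symm.trans (i9 v)⟩
    have hσ : ∀ k v, (σ ^ k) v = f^[k] v := fun k v => congrFun (Equiv.Perm.coe_pow σ k) v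
    have s9 : σ ^ 9 = 1 := Equiv.ext fun v => (hσ 9 v).trans (i9 v)
    have s3 : ∀ v, (σ ^ 3) v = v → v = 0 := fun v hv => Subtype.ext ((Submodule.mem_bot _).1
      (h0 ▸ Submodule.mem_inf.2 ⟨v.2, mem_kf.2 ((hf 3 v).symm.trans
        (congrArg Subtype.val ((hσ 3 v).symm.trans hv)))⟩))
    have s0 : σ 0 = 0 := Subtype.ext (map_zero A)
    have d9 : 9 ∣ σ.support.card := by
      rw [← Equiv.Perm.sum_cycleType]
      refine Multiset.dvd_sum fun n hn => ?_
      have a1 := (Equiv.Perm.dvd_of_mem_cycleType hn).trans (orderOf_dvd_of_pow_eq_one s9)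
      have a2 := Equiv.Perm.two_le_of_mem_cycleType hn
      have a3 : n ≠ 3 := by
        rintro rfl
        obtain ⟨c, τ, e1, e2, e3, e4⟩ := Equiv.Perm.mem_cycleType_iff.1 hn
        obtain ⟨x, hx, -⟩ := id e3
        have t := (e2 x).resolve_left hx
        have c3 : c ^ 3 = 1 := by rw [← e4, ← e3.orderOf, pow_orderOf_eq_one]
        have x0 := s3 x (by
          rw [e1, e2.commute.mul_pow, c3, one_mul, Equiv.Perm.pow_apply_eq_self_of_apply_eq_self t])
        rw [x0] at hx t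
        rw [e1, Equiv.Perm.mul_apply, t] at s0
        exact hx s0
      have := Nat.le_of_dvd (by norm_num) a1
      interval_cases n <;> simp_all
    have e1 : σ.support = Finset.univ.erase 0 := by
      ext v
      rw [Equiv.Perm.mem_support, Finset.mem_erase]
      exact ⟨fun a => ⟨fun b => a (b ▸ s0), Finset.mem_univ _⟩, fun a b =>
        a.1 (s3 v (Equiv.Perm.pow_apply_eq_self_of_apply_eq_self b 3))⟩
    rw [e1, Finset.card_erase_of_mem (Finset.mem_univ _), Finset.card_univ,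
      ← Nat.card_eq_fintype_card, card_sub] at d9
    have : 0 < 2 ^ dm M := by positivity
    omega

theorem kf_kc (Z : End (ZMod 2) V56) : kf Z ⊓ kc Z = ⊥ := eq_bot_iff.2 fun v hv => by
  have a := mem_kc.1 hv.2
  rw [mem_kf.1 hv.1, mem_kf.1 hv.1, aa, zero_add] at a
  exact a

theorem cube_of_kc {Z : End (ZMod 2) V56} {v : V56} (h : v ∈ kc Z) : (Z ^ 3) v = v := by
  have a := mem_kc.1 h
  have b := congrArg Z a
  rw [map_add, map_add, map_zero] at b
  have c : Z (Z (Z v)) + v = (Z (Z (Z v)) + Z (Z v) + Z v) + (Z (Z v) + Z v + v) := by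
    rw [show Z (Z (Z v)) + Z (Z v) + Z v + (Z (Z v) + Z v + v) =
      Z (Z (Z v)) + v + (Z (Z v) + Z (Z v)) + (Z v + Z v) by abel, aa, aa, add_zero, add_zero]
  rw [a, b, add_zero] at c
  show Z (Z (Z v)) = v
  rw [← add_zero (Z (Z (Z v))), ← aa v, ← add_assoc, c, zero_add]

theorem jobSplit : JobSplit := by
  refine ⟨kf_kc, fun M Z h e => ?_, fun M Z X Y hZ hX hY hc x3 zx hi yz yx => ?_⟩
  · have e : ∀ v ∈ M, Z (Z (Z v)) = v := e
    rw [← Submodule.finrank_sup_add_finrank_inf_eq, show M ⊓ kf Z ⊓ (M ⊓ kc Z) = ⊥ from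
      eq_bot_iff.2 fun v hv => kf_kc Z ▸ Submodule.mem_inf.2 ⟨hv.1.2, hv.2.2⟩, finrank_bot, add_zero]
    refine congrArg dm (le_antisymm (sup_le inf_le_left inf_le_left) fun v hv =>
      Submodule.mem_sup.2 ⟨Z (Z v) + Z v + v, Submodule.mem_inf.2
        ⟨add_mem (add_mem (h _ (h v hv)) (h v hv)) hv, mem_kf.2 ?_⟩, Z (Z v) + Z v,
        Submodule.mem_inf.2 ⟨add_mem (h _ (h v hv)) (h v hv), mem_kc.2 ?_⟩, ?_⟩)
    · rw [map_add, map_add, e v hv]; abel
    · rw [map_add, map_add, e v hv, show Z v + v + (v + Z (Z v)) + (Z (Z v) + Z v) =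
        (Z v + Z v) + (v + v) + (Z (Z v) + Z (Z v)) by abel, aa (Z v), aa v, aa (Z (Z v)), add_zero,
        add_zero]
    · rw [add_right_comm, aa, zero_add]
  · have z3 : ∀ v ∈ M, (Z ^ 3) v = v := fun v hv => cube_of_kc (hc hv)
    have h0 : M ⊓ kf Z = ⊥ := eq_bot_iff.2 fun v hv =>
      kf_kc Z ▸ Submodule.mem_inf.2 ⟨hv.2, hc hv.1⟩
    have p := jobPart V56 3 Nat.prime_three (by norm_num) M Z X hZ hX zx z3 x3
    rw [h0, bot_inf_eq, dm, dm, finrank_bot, Finset.sum_range_succ, Finset.sum_range_succ,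
      Finset.sum_range_one, pow_zero, one_mul] at p
    have yp : ∀ i, ∀ v ∈ M, Y ((Z ^ i) v) = (Z ^ i) (Y v) := fun i v hv => by
      induction i with
      | zero => rfl
      | succ i ih => rw [pow_succ', End.mul_apply, End.mul_apply,
          yz _ (End.pow_apply_mem_of_forall_mem i hZ v hv), ih]
    have st : ∀ i, dm (M ⊓ kf (Z ^ i * X)) ≤ dm (M ⊓ kf (Z ^ (i + 1) * X)) := fun i =>
      dm_le Y (fun v hv => Submodule.mem_inf.2 ⟨hY v hv.1, mem_kf.2 (by
        have a := congrArg Y (mem_kf.1 hv.2)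
        rw [End.mul_apply, yp i _ (hX v hv.1), yx v hv.1, ← zx _ (hY v hv.1)] at a
        rw [pow_succ, End.mul_apply, End.mul_apply, a])⟩) fun v _ e => hi (e.trans (map_zero Y).symm)
    have e3 : M ⊓ kf (Z ^ 3 * X) = M ⊓ kf X := by
      ext v
      simp only [Submodule.mem_inf, mem_kf, End.mul_apply]
      exact and_congr_right fun hv => by rw [z3 _ (hX v hv)]
    have s0 := st 0
    have s1 := st 1
    have s2 := st 2
    rw [pow_zero, one_mul] at s0
    rw [e3] at s2
    simp only [dm, zero_add, Nat.reduceAdd, mul_zero, add_zero] at *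
    omega

end H23.E7T
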