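import Cfsg.Agent.H36.NGSpec
import Cfsg.Agent.H43.Col

/-! A perfect group has no character of even degree `e` that restricts to the regular character
of a cyclic subgroup of order `e`; the job `JobDet`. -/

set_option autoImplicit false
set_option linter.unusedVariables false

namespace H23.NGDet

open Cfsg H87 H39 H2.PR H36.NG

universe u

theorem geom_root {e : ℕ} {z : ℂ} (hz : z ^ e = 1) :
    ∑ m ∈ Finset.range e, z ^ m = if z = 1 then (e : ℂ) else 0 := by
  split_ifs with h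
  · simp [h]
  · have := mul_neg_geom_sum z e
    rw [hz, sub_self] at this
    exact (mul_eq_zero.1 this).resolve_left (sub_ne_zero.2 (Ne.symm h))

theorem count_one {e : ℕ} (he : 0 < e) (ε : Fin e → ℂ) (h1 : ∀ i, ε i ^ e = 1)
    (h2 : ∀ m, 0 < m → m < e → ∑ i, ε i ^ m = 0) {z : ℂ} (hz : z ^ e = 1) :
    (Finset.univ.filter fun i => ε i * z = 1).card = 1 := by
  classical
  have h3 : ∑ m ∈ Finset.range e, ∑ i, (ε i * z) ^ m = e := by
    rw [Finset.sum_eq_single 0]
    · simp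
    · intro m hm h0
      simp only [mul_pow, ← Finset.sum_mul]
      rw [h2 m (Nat.pos_of_ne_zero h0) (Finset.mem_range.1 hm), zero_mul]
    · intro h; exact absurd (Finset.mem_range.2 he) h
  rw [Finset.sum_comm, Finset.sum_congr rfl fun i _ =>
    geom_root (z := ε i * z) (by rw [mul_pow, h1, hz, one_mul]), ← Finset.sum_filter,
    Finset.sum_const, nsmul_eq_mul] at h3
  have h4 : (e : ℂ) ≠ 0 := Nat.cast_ne_zero.2 he.ne'
  have h5 := mul_right_cancel₀ h4 (h3.trans (one_mul _).symm)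
  exact_mod_cast h5

theorem prod_eq_neg {e : ℕ} (he : 0 < e) (hev : Even e) (ε : Fin e → ℂ) (h1 : ∀ i, ε i ^ e = 1)
    (h2 : ∀ m, 0 < m → m < e → ∑ i, ε i ^ m = 0) : ∏ i, ε i = -1 := by
  classical
  have hζ := Complex.isPrimitiveRoot_exp e he.ne'
  set ζ := Complex.exp (2 * Real.pi * Complex.I / e)
  have h0 : ∀ i, ε i ≠ 0 := fun i h => by
    have := h1 i; rw [h, zero_pow he.ne'] at this; exact zero_ne_one this
  have hinj : Function.Injective ε := fun i j hij => by
    have h3 := count_one he ε h1 h2 (z := (ε j)⁻¹) (by rw [inv_pow, h1, inv_one])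
    obtain ⟨k, hk⟩ := Finset.card_eq_one.1 h3
    have hi : i ∈ Finset.univ.filter fun i => ε i * (ε j)⁻¹ = 1 := by
      simp [hij, mul_inv_cancel₀ (h0 j)]
    have hj : j ∈ Finset.univ.filter fun i => ε i * (ε j)⁻¹ = 1 := by
      simp [mul_inv_cancel₀ (h0 j)]
    rw [hk, Finset.mem_singleton] at hi hj
    rw [hi, hj]
  have : NeZero e := ⟨he.ne'⟩
  choose f hf1 hf2 using fun i => hζ.eq_pow_of_pow_eq_one (h1 i)
  let g : Fin e → Fin e := fun i => ⟨f i, hf1 i⟩
  have hg : Function.Bijective g := Finite.injective_iff_bijective.1 fun i j hij =>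
    hinj (by rw [← hf2, ← hf2, show f i = f j from congrArg Fin.val hij])
  have h3 : ∏ i, ε i = ∏ i : Fin e, ζ ^ (i : ℕ) := by
    rw [← hg.prod_comp fun i : Fin e => ζ ^ (i : ℕ)]
    exact Finset.prod_congr rfl fun i _ => (hf2 i).symm
  rw [h3, Finset.prod_pow_eq_pow_sum, Fin.sum_univ_eq_sum_range (fun i => i) e]
  obtain ⟨k, rfl⟩ := hev
  have h4 : ∑ i ∈ Finset.range (k + k), i = k * (k + k - 1) := by
    have := Finset.sum_range_id_mul_two (k + k)
    have h5 : (k + k) * (k + k - 1) = k * (k + k - 1) * 2 := by ring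
    omega
  have h5 : ζ ^ k = -1 := by
    have h6 : ζ ^ k * ζ ^ k = 1 := by rw [← pow_add, hζ.pow_eq_one]
    rcases mul_self_eq_one_iff.1 h6 with h7 | h7
    · have := Nat.le_of_dvd (by omega) (hζ.dvd_of_pow_eq_one k h7); omega
    · exact h7
  rw [h4, pow_mul, h5, Odd.neg_one_pow ⟨k - 1, by omega⟩]

theorem no_char {G : Type u} [Group G] [Fintype G] {p U K n e h : ℕ} [Fact p.Prime]
    {P : Sylow p G} {X Y : Finset (IrrCharacter G)} {δ : IrrCharacter G → ℤ} {ε d : ℤ} {x y : G}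
    {lam : Nor (P : Subgroup G) →* ℂˣ} {ω : ℂ} (A : All p U K n e 1 h P X Y δ ε d x y lam ω)
    (χ : IrrCharacter G) (hd : dg χ + 1 = p) (hv : ∀ g, p ∣ orderOf g → (χ : G → ℂ) g = -1) :
    False := by
  have hte := A.ty.nm.te
  have he2 := A.ty.nm.e2
  have hχ : IsCharacter G (χ : G → ℂ) := H28.Cfsg.IsIrrCharacter.isCharacter χ.2
  have h1 := A.m2.sum χ hχ (-1) fun g hg => by rw [hv g hg]; simp
  have hdg : charDegree (χ : G → ℂ) = dg χ := rfl
  have h2 : ∑ i ∈ Finset.range e, mm (LL lam i) χ = 0 := by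
    have h3 : (p : ℤ) * (∑ i ∈ Finset.range e, mm (LL lam i) χ : ℕ) = 0 := by
      rw [h1, hdg, ← hd]; push_cast; ring
    have h4 : (p : ℤ) ≠ 0 := by omega
    exact_mod_cast (mul_eq_zero.1 h3).resolve_left h4
  have h3 : ∀ b, ¬ e ∣ b → (χ : G → ℂ) (x ^ b) = 0 := fun b hb => by
    rw [A.m2.val χ hχ b hb]
    exact Finset.sum_eq_zero fun i hi => by
      rw [Finset.sum_eq_zero_iff.1 h2 i hi]; simp
  have h4 : (χ : G → ℂ) 1 = e := by
    rw [← coe_dg, show dg χ = e by omega]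
  obtain ⟨η, h5, h6, h7⟩ := H43.exists_eigen_det A.cf.perf hχ h4 x
  rw [A.m1.ord] at h5
  have h8 : Even e := by
    obtain ⟨k, hk⟩ := A.ty.nm.odd
    exact ⟨k, by omega⟩
  have h9 := prod_eq_neg (by omega) h8 η h5 fun m h0 hm => by
    rw [← h6, h3 m fun h => absurd (Nat.le_of_dvd h0 h) (by omega)]
  rw [h7] at h9
  norm_num at h9

theorem jobDET : H36.NG.JobDet.{u} := by
  intro G _ _ p U K n e t h _ P X Y δ ε d x y lam ω A hyp
  have ht := A.cf.br.t_pos
  by_cases h2 : 2 ≤ t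
  · exact ⟨h2, hyp.resolve_right (A.ty.nm.d4 h2)⟩
  obtain rfl : t = 1 := by omega
  exfalso
  rcases hyp with hyp | rfl
  · obtain ⟨χ, hχ⟩ := Finset.card_pos.1 hyp
    obtain ⟨h3, h4, h5⟩ := Finset.mem_filter.1 hχ
    exact no_char A χ h5 fun g hg => by rw [A.cf.br.valX χ h3 g hg, h4]; simp
  · obtain ⟨θ, hθ⟩ := Finset.card_eq_one.1 A.cf.br.cardY
    have h3 := A.ty.hY θ (by rw [hθ]; simp)
    have h4 := A.ty.nm.te
    have h5 := A.ty.nm.e2
    rcases A.cf.br.sε with rfl | rfl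
    · refine no_char A θ (by push_cast at h3; omega) fun g hg => ?_
      have := A.cf.br.valY g hg
      rw [hθ, Finset.sum_singleton] at this
      rw [this]; simp
    · push_cast at h3; omega

end H23.NGDet
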