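import Cfsg.Agent.H23.O11O1

/-! O11 tower: counting involutions (`JobO0`, `JobE1`, `JobBE`). -/

set_option autoImplicit false

namespace H23.O11

open Subgroup MulAction H74.O11

universe u

variable {G Ω : Type u} [Group G] [MulAction G Ω] {Γ : Geo G Ω} {a b : Ω} {y s : G}

theorem eq_one_of_odd {K : Subgroup G} (ho : Odd (Nat.card K)) {z : G} (hz : z ∈ K) (h2 : z * z = 1) : z = 1 := by
  obtain ⟨m, hm⟩ := ho
  have := orderOf_dvd_iff_pow_eq_one.1 (orderOf_dvd_natCard _ hz)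
  rwa [hm, pow_succ, pow_mul, pow_two, h2, one_pow, one_mul] at this

theorem w_sq {t : G} (ha : t • a = a) (h2 : t * t = 1) : Γ.w t a = 1 ∨ Γ.w t a = -1 := by
  have := Γ.w_mul ha ha
  rw [h2, Γ.w_one] at this
  revert this
  generalize Γ.w t a = k
  revert k; decide

theorem fix_conj [Finite Ω] (g t : G) :
    {c : Ω | (g * t * g⁻¹) • c = c}.ncard = {c : Ω | t • c = c}.ncard := by
  rw [← Set.ncard_image_of_injective {c : Ω | t • c = c} (MulAction.injective g)]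
  congr 1
  ext c
  constructor
  · intro hc
    refine ⟨g⁻¹ • c, ?_, smul_inv_smul g c⟩
    rw [Set.mem_ofPred_eq, mul_smul, mul_smul] at hc
    exact eq_inv_smul_iff.2 hc
  · rintro ⟨d, hd, rfl⟩
    rw [Set.mem_ofPred_eq, mul_smul, mul_smul, inv_smul_smul, hd]

theorem cnt [Finite G] [Finite Ω] (hC : JobCnt.{u}) (h : One Γ) (hab : a ≠ b) (C : Set G)
    (c1 : ∀ g t : G, t ∈ C → g * t * g⁻¹ ∈ C) (φ : ℕ) (c2 : ∀ t ∈ C, {c : Ω | t • c = c}.ncard = φ) :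
    {t | t ∈ C ∧ t • a = a ∧ t • b = b}.ncard * (Nat.card Ω - φ) =
      {t | t ∈ C ∧ t • a = b}.ncard * (φ * (φ - 1)) := by
  obtain ⟨e1, e2⟩ := hC G Ω h.two' C c1 φ c2 a b hab
  have := h.big12
  refine Nat.eq_of_mul_eq_mul_left (Nat.mul_pos (show 0 < Nat.card Ω by omega)
    (show 0 < Nat.card Ω - 1 by omega)) ?_
  rw [← mul_assoc, ← e1, ← mul_assoc (_ * _), ← e2]; ring

/-- the involutions `s x y ^ i` -/
def TT (y s : G) (Y : Set G) : Set G := (fun p : G × ℕ => s * p.1 * y ^ p.2) '' Y ×ˢ Set.Iio 5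

theorem mem_TT (F : Frame Γ a b y s) {Y : Set G} {t : G} : t ∈ TT y s Y ↔ ∃ x ∈ Y, ∃ i : ℕ, t = s * x * y ^ i :=
  ⟨fun ⟨p, hp, e⟩ => ⟨p.1, hp.1, p.2, e.symm⟩, fun ⟨x, hx, i, e⟩ =>
    ⟨(x, i % 5), ⟨hx, Nat.mod_lt _ (by decide)⟩, by
      change s * x * y ^ (i % 5) = t
      rw [e, ← F.oy, pow_mod_orderOf]⟩⟩

theorem card_TT (F : Frame Γ a b y s) {Y : Set G} (hY : ∀ x ∈ Y, x ∈ Γ.H a b ∧ x * x = 1) :
    (TT y s Y).ncard = 5 * Y.ncard := by
  have key : ∀ x ∈ Y, ∀ i : ℕ, (x * y ^ i) ^ 5 = x := fun x hx i => by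
    rw [(Commute.pow_right (F.cen x (hY x hx).1) i).mul_pow, ← pow_mul, mul_comm i, pow_mul, F.y5, one_pow,
      mul_one, show 5 = 2 * 2 + 1 from rfl, pow_succ, pow_mul, pow_two x, (hY x hx).2, one_pow, one_mul]
  rw [TT, Set.InjOn.ncard_image, Set.ncard_prod, mul_comm]
  · congr 1
    rw [← Finset.coe_range, Set.ncard_coe_finset, Finset.card_range]
  rintro ⟨x, i⟩ ⟨hx, hi⟩ ⟨x', j⟩ ⟨hx', hj⟩ e
  have e1 : x * y ^ i = x' * y ^ j := mul_left_cancel (a := s) (by simpa only [mul_assoc] using e)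
  obtain rfl : x = x' := by rw [← key x hx i, e1, key x' hx' j]
  exact Prod.ext rfl (pow_injOn_Iio_orderOf (F.oy ▸ hi) (F.oy ▸ hj) (mul_left_cancel e1))

theorem swap {t : G} (h2 : t * t = 1) (ht : t • a = b) : t • b = a := by rw [← ht, ← mul_smul, h2, one_smul]

theorem sH (F : Frame Γ a b y s) {t : G} (h2 : t * t = 1) (ht : t • a = b) : s * t ∈ Γ.H a b :=
  Γ.mem_H.2 ⟨by rw [mul_smul, ht, F.sb], by rw [mul_smul, swap h2 ht, F.sa]⟩

theorem inL (F : Frame Γ a b y s) {t : G} (hL : t ∈ Γ.L a b) (h2 : t * t = 1) (ht : t • a = b) :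
    ∃ i : ℕ, t = s * y ^ i :=
  (F.decL _ (sH F h2 ht) (mul_mem F.sL hL)).imp fun i e => by rw [← e, ← mul_assoc, F.ss, one_mul]

theorem sy_pow (F : Frame Γ a b y s) (i : ℕ) : s * y ^ i * (s * y ^ i) = 1 := by
  calc _ = s * y ^ i * s⁻¹ * (s * s) * y ^ i := by group
    _ = 1 := by rw [← conj_pow, F.sy, F.ss]; group

theorem TT_sq (F : Frame Γ a b y s) {x : G} (hx : x ∈ Γ.H a b) (hs : s * x = x * s) (i : ℕ) :
    s * x * y ^ i * (s * x * y ^ i) = x * x := by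
  have c : Commute x (s * y ^ i) := Commute.mul_right hs.symm (Commute.pow_right (F.cen x hx) i)
  rw [hs, mul_assoc x s, ← pow_two, c.mul_pow, pow_two, pow_two, sy_pow F, mul_one]

theorem TT_smul (F : Frame Γ a b y s) {x : G} (hx : x ∈ Γ.H a b) (i : ℕ) : (s * x * y ^ i) • a = b := by
  rw [mul_smul, mul_smul, Geo.pow_smul_of_fix F.ya, hx.1, F.sa]

theorem s_comm (F : Frame Γ a b y s) {o : G} (ho : o ∈ Γ.H a b) (h2 : o * o = 1) : s * o = o * s := by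
  obtain ⟨i, e⟩ := inL F (conj_H_L ho F.sL) (by
    calc _ = o * (s * s) * o⁻¹ := by group
      _ = 1 := by rw [F.ss]; group) (by
    rw [mul_smul, mul_smul, inv_smul_eq_iff.2 (show o • a = a from ho.1).symm, F.sa]; exact ho.2)
  have c : Commute o (y ^ i) := Commute.pow_right (F.cen o ho) i
  have e1 : y ^ i * y ^ i = 1 := mul_left_cancel (a := s) (by
    calc _ = o * s * o⁻¹ * (o * y ^ i * o⁻¹) := by rw [e, c.eq]; group
      _ = o * (s * y ^ i) * o⁻¹ := by group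
      _ = o * o * s * (o * o)⁻¹ := by rw [← e]; group
      _ = _ := by rw [h2]; group)
  rw [eq_one_of_odd (K := zpowers y) (by rw [Nat.card_zpowers, F.oy]; decide) (pow_mem (mem_zpowers y) i) e1,
    mul_one] at e
  exact (mul_inv_eq_iff_eq_mul.1 e).symm

theorem split (h : One Γ) (hab : a ≠ b) {l z : G} (hl : l ∈ Γ.L a b) (hz : z ∈ Γ.Z a b)
    (h2 : l * z * (l * z) = 1) : l * l = 1 ∧ z * z = 1 := by
  rw [← pow_two, (show Commute l z from Γ.mem_Z.1 hz l hl).mul_pow, pow_two, pow_two] at h2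
  have := (h.lp a b hab).LZ (mul_mem hl hl) (eq_inv_of_mul_eq_one_left h2 ▸ inv_mem (mul_mem hz hz))
  exact ⟨this, by rwa [this, one_mul] at h2⟩

theorem jobO0 : JobO0.{u} := by
  intro hC G Ω _ _ _ _ Γ h hv a b hab hZ o ho
  obtain ⟨y, s, F⟩ := h.frame a b hab
  have wo : ∀ o ∈ invs (Γ.H a b), Γ.w o a = -1 := fun o ho => (w_sq ho.1.1 ho.2.1).resolve_left fun e =>
    ho.2.2 (eq_one_of_odd hZ (h.memZ a b o hab ho.1.1 ho.1.2 e) ho.2.1)
  have cj : ∀ o' ∈ invs (Γ.H a b), ∃ z ∈ Γ.Z a b, o' = z * o * z⁻¹ := fun o' ho' => by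
    have h1 := mul_mem ho'.1 ho.1
    have hz := h.memZ a b _ hab h1.1 h1.2 (by rw [Γ.w_mul ho'.1.1 ho.1.1, wo o ho, wo o' ho']; decide)
    obtain ⟨m, hm⟩ := hZ
    have e := orderOf_dvd_iff_pow_eq_one.1 (orderOf_dvd_natCard _ hz)
    have e1 : o * (o' * o) * o⁻¹ = (o' * o)⁻¹ := by
      rw [mul_inv_rev, inv_eq_of_mul_eq_one_right ho'.2.1, ← mul_assoc, mul_inv_cancel_right,
        inv_eq_of_mul_eq_one_right ho.2.1]
    refine ⟨(o' * o) ^ (m + 1), pow_mem hz _, ?_⟩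
    calc o' = (o' * o) ^ (2 * m + 1) * (o' * (o * o)) := by rw [← hm, e, ho.2.1]; group
      _ = (o' * o) ^ (m + 1) * (o * (o' * o) ^ (m + 1) * o⁻¹)⁻¹ * o := by
        rw [← conj_pow, e1, inv_pow, inv_inv, ← pow_add, ← mul_assoc, ← mul_assoc, mul_assoc _ o', ← pow_succ]
        congr 2; ring
      _ = _ := by rw [mul_inv_rev, mul_inv_rev, inv_inv, mul_assoc, mul_assoc, mul_assoc, inv_mul_cancel]; group
  have cjs : ∀ g t : G, t * t = 1 → g * t * g⁻¹ * (g * t * g⁻¹) = 1 := fun g t e => by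
    calc _ = g * (t * t) * g⁻¹ := by group
      _ = 1 := by rw [e]; group
  have mv : ∀ (g t : G), t * t = 1 → t ≠ 1 → t • g • a = g • a → t • g • b = g • b →
      g⁻¹ * t * g⁻¹⁻¹ ∈ invs (Γ.H a b) := fun g t t2 t1 e1 e2 =>
    ⟨Γ.mem_H.2 ⟨by rw [inv_inv, mul_smul, mul_smul, e1, inv_smul_smul],
      by rw [inv_inv, mul_smul, mul_smul, e2, inv_smul_smul]⟩, cjs _ t t2, fun e => t1 (conj_eq_one_iff.1 e)⟩
  refine ⟨wo o ho, (even_fix ho.2.1).2 hv, cj, fun d hd e => ?_, ?_⟩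
  · obtain ⟨g, hg, rfl⟩ := h.transA a b d hab.symm hd
    obtain ⟨z, hz, e1⟩ := cj _ (mv g o ho.2.1 ho.2.2 (by rw [A_fix hg]; exact ho.1.1) e)
    refine ⟨g * z, mul_mem hg (Γ.Z_le_A (Γ.on_left a b) hz), ?_, by rw [mul_smul, Z_fix hz (Γ.on_right a b)]⟩
    calc _ = g * (z * o * z⁻¹) * z := by group
      _ = _ := by rw [← e1]; group
  have c2 : ∀ t, IsConj o t → t * t = 1 ∧ t ≠ 1 := fun t ht => by
    obtain ⟨g, rfl⟩ := isConj_iff.1 ht
    exact ⟨cjs g o ho.2.1, fun e => ho.2.2 (by simpa using e)⟩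
  have e := cnt hC h hab {t | IsConj o t} (fun g t ht => IsConj.trans ht (isConj_iff.2 ⟨g, rfl⟩)) _
    fun t ht => by
      obtain ⟨g, rfl⟩ := isConj_iff.1 ht
      exact fix_conj g o
  have ic : ∀ t ∈ invs (Γ.H a b), IsConj o t := fun t ht => by
    obtain ⟨z, -, e⟩ := cj t ht
    exact isConj_iff.2 ⟨z, e.symm⟩
  rw [show {t | t ∈ {t | IsConj o t} ∧ t • a = a ∧ t • b = b} = invs (Γ.H a b) from
    Set.ext fun t => ⟨fun ht => ⟨ht.2, c2 t ht.1⟩, fun ht => ⟨ic t ht, ht.1⟩⟩] at e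
  refine ⟨_, ?_, e⟩
  have out : ∀ x ∈ invs (Γ.H a b), ∀ i : ℕ, IsConj o (s * x * y ^ i) := fun x hx i => by
    have t2 := (TT_sq F hx.1 (s_comm F hx.1 hx.2.1) i).trans hx.2.1
    have ta := TT_smul F hx.1 i
    have tL : s * x * y ^ i ∉ Γ.L a b := fun e => hx.2.2 ((h.lp a b hab).inv_fpf
      ((mul_mem_cancel_left F.sL).1 ((mul_mem_cancel_right (pow_mem F.yL i)).1 e)) hx.2.1 (Γ.on_left a b) hx.1.1)
    generalize s * x * y ^ i = t at t2 ta tL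
    rcases h.odd a b t hab (ta ▸ Γ.on_right a b) (swap t2 ta ▸ Γ.on_left a b) (t2 ▸ one_mem _) with
      ⟨l, hl, z, hz, rfl⟩ | ⟨c, -, hc, -⟩
    · rw [eq_one_of_odd hZ hz (split h hab hl hz t2).2, mul_one] at tL
      exact absurd hl tL
    · obtain ⟨d, hd, e⟩ := exists_fix_ne t2 hv hc
      obtain ⟨g, rfl, rfl⟩ := h.two' a b c d hab hd.symm
      exact (ic _ (mv g t t2 (fun e => tL (e ▸ one_mem _)) hc e)).trans (isConj_iff.2 ⟨g, by group⟩)
  have dec : ∀ t, t * t = 1 → t • a = b → ∃ x ∈ insert 1 (invs (Γ.H a b)), ∃ i : ℕ, t = s * x * y ^ i := by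
    intro t t2 ta
    have key : ∀ x ∈ Γ.H a b, s * x = x * s → ∀ i : ℕ, s * t = x * y ^ i →
        ∃ x ∈ insert 1 (invs (Γ.H a b)), ∃ i : ℕ, t = s * x * y ^ i := fun x hx c i e => by
      have e1 : t = s * x * y ^ i := by rw [mul_assoc, ← e, ← mul_assoc, F.ss, one_mul]
      exact ⟨x, (em _).imp_right fun x1 => ⟨hx, by rw [← TT_sq F hx c i, ← e1, t2], x1⟩, i, e1⟩
    have hH := sH F t2 ta
    rcases w5 (Γ := Γ) hH.1 with e | e
    · obtain ⟨z, hz, i, e⟩ := F.dec _ hH e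
      exact key z (Γ.Z_le_H a b hz) (Γ.mem_Z.1 hz s F.sL) i e
    · obtain ⟨z, hz, i, e⟩ := F.dec _ (mul_mem hH ho.1) (by
        rw [Γ.w_mul hH.1 ho.1.1, mul_pow, e, wo o ho]; decide)
      refine key (z * o) (mul_mem (Γ.Z_le_H a b hz) ho.1)
        (Commute.mul_right (Γ.mem_Z.1 hz s F.sL) (s_comm F ho.1 ho.2.1)) i ?_
      rw [mul_assoc, (Commute.pow_right (F.cen o ho.1) i).eq, ← mul_assoc, ← e, mul_assoc, ho.2.1, mul_one]
  have cs : ∀ i : ℕ, IsConj s (s * 1 * y ^ i) := fun i => isConj_iff.2 ⟨y ^ (2 * i), by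
    calc _ = s * (s⁻¹ * (s * s) * y ^ (2 * i) * (s * s)⁻¹ * s) * (y ^ (2 * i))⁻¹ := by rw [F.ss]; group
      _ = s * (s * y ^ (2 * i) * s⁻¹) * (y ^ (2 * i))⁻¹ * (y ^ 5) ^ i := by rw [F.y5]; group
      _ = _ := by rw [← conj_pow, F.sy]; group⟩
  by_cases hs : IsConj o s
  · right
    rw [show {t | t ∈ {t | IsConj o t} ∧ t • a = b} = TT y s (insert 1 (invs (Γ.H a b))) from Set.ext fun t =>
      ⟨fun ht => (mem_TT F).2 (dec t (c2 t ht.1).1 ht.2), fun ht => by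
        obtain ⟨x, rfl | hx, i, rfl⟩ := (mem_TT F).1 ht
        exacts [⟨hs.trans (cs i), TT_smul F (one_mem _) i⟩, ⟨out x hx i, TT_smul F hx.1 i⟩]⟩,
      card_TT F (by
        rintro x (rfl | hx)
        exacts [⟨one_mem _, mul_one _⟩, ⟨hx.1, hx.2.1⟩]),
      Set.ncard_insert_of_notMem (fun e => e.2.2 rfl), mul_add]
  · left
    rw [show {t | t ∈ {t | IsConj o t} ∧ t • a = b} = TT y s (invs (Γ.H a b)) from Set.ext fun t =>
      ⟨fun ht => by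
        obtain ⟨x, rfl | hx, i, rfl⟩ := dec t (c2 t ht.1).1 ht.2
        exacts [absurd (IsConj.trans ht.1 (cs i).symm) hs, (mem_TT F).2 ⟨x, hx, i, rfl⟩], fun ht => by
        obtain ⟨x, hx, i, rfl⟩ := (mem_TT F).1 ht
        exact ⟨out x hx i, TT_smul F hx.1 i⟩⟩, card_TT F fun x hx => ⟨hx.1, hx.2.1⟩]

theorem fix12 (h : One Γ) (hab : a ≠ b) {z : G} (hz : z ∈ Γ.Z a b) (h1 : z ≠ 1) :
    {c : Ω | z • c = c}.ncard = 12 := by
  rw [← (h.lp a b hab).line]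
  exact congrArg _ (Set.ext fun c => h.fixZ a b z c hab hz h1)

theorem jobE1 : JobE1.{u} := by
  intro hC G Ω _ _ _ _ Γ h hv a b hab
  obtain ⟨y, s, F⟩ := h.frame a b hab
  have e := cnt hC h hab {t | t * t = 1 ∧ t ≠ 1 ∧ ∃ c, t ∈ Γ.A c}
    (fun g t ⟨t2, t1, c, hc⟩ => ⟨by
      calc _ = g * (t * t) * g⁻¹ := by group
        _ = 1 := by rw [t2]; group, fun e => t1 (by simpa using e), _, Γ.conj_mem_A g hc⟩) 12
    fun t ⟨t2, t1, c, hc⟩ => by
      obtain ⟨d, hd, e⟩ := exists_fix_ne t2 hv (A_fix hc)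
      exact fix12 h hd.symm (h.memZ c d t hd.symm (A_fix hc) e (A_w hc)) t1
  rw [show {t | t ∈ {t | t * t = 1 ∧ t ≠ 1 ∧ ∃ c, t ∈ Γ.A c} ∧ t • a = a ∧ t • b = b} = invs (Γ.Z a b) from
    Set.ext fun t => ⟨fun ⟨⟨t2, t1, c, hc⟩, ta, tb⟩ => ⟨h.memZ a b t hab ta tb (h.w_one_of hc ta), t2, t1⟩,
      fun ht => ⟨⟨ht.2.1, ht.2.2, a, Γ.Z_le_A (Γ.on_left a b) ht.1⟩, Γ.Z_le_H a b ht.1⟩⟩] at e
  have key : ∀ l ∈ Γ.L a b, l * l = 1 → l • a = b → ∀ z ∈ Γ.Z a b, z * z = 1 →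
      l * z ∈ TT y s (insert 1 (invs (Γ.Z a b))) := fun l hl ll la z hz zz => by
    obtain ⟨i, rfl⟩ := inL F hl ll la
    exact (mem_TT F).2 ⟨z, (em _).imp_right fun z1 => ⟨hz, zz, z1⟩, i, by
      rw [mul_assoc, Γ.mem_Z.1 hz _ (pow_mem F.yL i), mul_assoc]⟩
  have sub : {t | t ∈ {t | t * t = 1 ∧ t ≠ 1 ∧ ∃ c, t ∈ Γ.A c} ∧ t • a = b} ⊆
      TT y s (insert 1 (invs (Γ.Z a b))) := fun t ⟨⟨t2, _, c, hc⟩, ta⟩ => by
    rcases h.odd a b t hab (ta ▸ Γ.on_right a b) (swap t2 ta ▸ Γ.on_left a b) (t2 ▸ one_mem _) with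
      ⟨l, hl, z, hz, rfl⟩ | ⟨d, -, hd, e⟩
    · exact key l hl (split h hab hl hz t2).1 (by rwa [mul_smul, Z_fix hz (Γ.on_left a b)] at ta) z hz
        (split h hab hl hz t2).2
    · rw [h.w_one_of hc hd] at e
      exact absurd e (by decide)
  have cT : (TT y s (insert 1 (invs (Γ.Z a b)))).ncard = 5 * ((invs (Γ.Z a b)).ncard + 1) := by
    rw [card_TT F (by
      rintro x (rfl | hx)
      exacts [⟨one_mem _, mul_one _⟩, ⟨Γ.Z_le_H a b hx.1, hx.2.1⟩]), Set.ncard_insert_of_notMem (fun e => e.2.2 rfl)]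
  refine ⟨_, e.trans (mul_comm _ _), cT ▸ Set.ncard_le_ncard sub, fun e1 t ht t2 ta z hz zz => ?_⟩
  exact (Set.eq_of_subset_of_ncard_le sub (cT.trans e1.symm).le ▸ key t ht t2 ta z hz zz).1.2.2

theorem invs_pos [Finite G] {K : Subgroup G} (h : Even (Nat.card K)) : 0 < (invs K).ncard := by
  have : Fact (Nat.Prime 2) := ⟨Nat.prime_two⟩
  obtain ⟨t, ht⟩ := exists_prime_orderOf_dvd_card' 2 h.two_dvd
  rw [← orderOf_coe] at ht
  exact (Set.ncard_pos (Set.toFinite _)).2 ⟨t, t.2, by rw [← pow_two, ← ht, pow_orderOf_eq_one],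
    fun e => by simp [e] at ht⟩

theorem jobBE : JobBE.{u} := by
  intro G Ω _ _ _ _ Γ h hv e1 a b c x u d
  by_contra hZ
  rw [Nat.not_odd_iff_even] at hZ
  obtain ⟨k, e, hk, -⟩ := e1 a b d.ne
  have j0 := invs_pos hZ
  have j1 : (invs (Γ.Z a b)).ncard ≤ Nat.card (Γ.Z a b) := Set.ncard_le_ncard (s := invs _) fun _ ht => ht.1
  have j11 : 11 ∣ (invs (Γ.Z a b)).ncard := by
    have : Finite (ConjAct G) := ‹Finite G›
    have := card_dvd_of_free (zpowers (ConjAct.toConjAct c)) (invs (Γ.Z a b)) (Set.toFinite _)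
      (by
        rintro _ ⟨i, rfl⟩ t ht
        change c ^ i * t * (c ^ i)⁻¹ ∈ invs (Γ.Z a b)
        exact ⟨mul_mem (mul_mem (zpow_mem d.cZ i) ht.1) (inv_mem (zpow_mem d.cZ i)), by
          calc _ = c ^ i * (t * t) * (c ^ i)⁻¹ := by group
            _ = 1 := by rw [ht.2.1]; group, fun e => ht.2.2 (by simpa using e)⟩)
      (by
        rintro _ ⟨i, rfl⟩ t ht (e : c ^ i * t * (c ^ i)⁻¹ = t)
        change c ^ i = 1
        by_contra h1
        obtain ⟨m, hm⟩ := mem_zpowers_iff.1 (mem_zpowers_of_prime_card (G := zpowers c) (p := 11)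
          (hp := ⟨by norm_num⟩) (by rw [Nat.card_zpowers, d.oc]) (g := ⟨c ^ i, zpow_mem (mem_zpowers c) i⟩)
          (g' := ⟨c, mem_zpowers c⟩) fun e => h1 (congrArg Subtype.val e))
        obtain ⟨n, rfl⟩ := d.centZ ht.1 (by
          rw [← (show (c ^ i) ^ m = c from congrArg Subtype.val hm)]
          exact (Commute.zpow_left (mul_inv_eq_iff_eq_mul.1 e) m).eq.symm)
        exact ht.2.2 (eq_one_of_odd (K := zpowers c) (by rw [Nat.card_zpowers, d.oc]; decide)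
          (pow_mem (mem_zpowers c) n) ht.2.1))
    rwa [Nat.card_zpowers, MulEquiv.orderOf_eq, d.oc] at this
  obtain ⟨r, hr⟩ := h.dvdH0 a b d.ne
  obtain ⟨z, hz⟩ := hZ
  obtain ⟨m, hm⟩ := d.d121
  have := h.big12
  obtain ⟨j, hj⟩ := j11
  rw [hj] at e hk j0 j1
  have e2 : Nat.card Ω - 12 ≤ 720 := by
    by_contra! e2
    have := Nat.mul_le_mul_left (11 * j) e2
    omega
  have e3 : Nat.card Ω - 12 = 110 := by
    rw [hz, show 5 * (z + z) * r = 10 * (z * r) by ring] at hr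
    omega
  have := Nat.le_of_dvd (by decide) (e3 ▸ h.dvdH0 a b d.ne)
  rw [e3] at e
  omega

end H23.O11
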