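import Cfsg.Agent.H74.O11Res
import Cfsg.Agent.H5.FrobCompl
import Cfsg.Agent.H3.NormalRankOne
import Cfsg.Agent.H8.TransferEval
import Cfsg.Agent.H9.PBasic

/-! O11 tower: the two-point stabiliser is cyclic if `Z` has odd order and is centralised by the involutions. -/

set_option autoImplicit false

namespace H23.O11

open Subgroup MulAction H74.O11
open scoped commutatorElement

universe u

theorem comm_of_cyc {X : Type*} [Group X] [Finite X] (ho : Odd (Nat.card X))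
    (h : ∀ A : Subgroup X, (IsMulCommutative A ∨ ∃ p q : ℕ, p.Prime ∧ q.Prime ∧ Nat.card A = p * q) → IsCyclic A)
    (h12 : ∀ x : X, x ^ 12 ∈ commutator X) (x x' : X) : x * x' = x' * x := by
  have : Fact (Nat.Prime 3) := ⟨Nat.prime_three⟩
  have : IsZGroup X := ⟨fun p hp P => by
    have : Fact p.Prime := ⟨hp⟩
    by_cases h2 : p = 2
    · subst h2
      obtain ⟨n, hn⟩ := IsPGroup.iff_card.1 P.isPGroup'
      have : Nat.card P = 1 := Nat.Coprime.eq_one_of_dvd (hn ▸ (Nat.coprime_two_left.2 ho).pow_left n)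
        (card_subgroup_dvd_card (P : Subgroup X))
      have := (Nat.card_eq_one_iff_unique.1 this).1
      infer_instance
    · refine H3.isCyclic_of_normal_abelian_cyclic_odd h2 P.isPGroup' fun A _ _ => ?_
      exact (equivMapOfInjective A _ (P : Subgroup X).subtype_injective).isCyclic.2
        (h _ (Or.inl inferInstance))⟩
  have cD := IsZGroup.isCyclic_commutator X
  have cmD : ∀ d ∈ commutator X, ∀ d' ∈ commutator X, d * d' = d' * d := fun d hd d' hd' =>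
    congrArg Subtype.val (cD.isMulCommutative.is_comm.comm ⟨d, hd⟩ ⟨d', hd'⟩)
  have cop := IsZGroup.coprime_commutator_index X
  obtain ⟨g, hg⟩ := (IsZGroup.isCyclic_abelianization (G := X)).exists_generator
  have og : orderOf g = (commutator X).index := orderOf_eq_card_of_forall_mem_zpowers hg
  obtain ⟨g, rfl⟩ : ∃ g' : X, Abelianization.of g' = g := QuotientGroup.mk_surjective g
  have ker : ∀ x : X, Abelianization.of x = 1 ↔ x ∈ commutator X := fun x => QuotientGroup.eq_one_iff x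
  have h3 : (commutator X).index ∣ 3 := by
    refine Nat.Coprime.dvd_of_dvd_mul_left (m := 2 ^ 2) ((Nat.coprime_two_right.2
      (ho.of_dvd_nat (index_dvd_card _))).pow_right 2) ?_
    rw [← og]
    exact orderOf_dvd_of_pow_eq_one (by rw [← map_pow]; exact (ker _).2 (h12 g))
  rcases (Nat.dvd_prime Nat.prime_three).1 h3 with e | e
  · rw [index_eq_one] at e
    exact cmD x (e ▸ mem_top _) x' (e ▸ mem_top _)
  obtain ⟨m, hm⟩ := exists_pow_eq_self_of_coprime (x := Abelianization.of g) (og ▸ cop)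
  have c3 : (g ^ Nat.card (commutator X)) ^ 3 = 1 := by
    rw [← pow_mul, mul_comm, pow_mul]
    exact orderOf_dvd_iff_pow_eq_one.1 (orderOf_dvd_natCard _ (e ▸ pow_index_mem _ g))
  rw [← map_pow] at hm
  generalize g ^ Nat.card (commutator X) = c at hm c3
  rw [e] at cop
  have oc : (Nat.card (zpowers c)).Coprime (Nat.card (commutator X)) :=
    cop.symm.of_dvd_left (Nat.card_zpowers c ▸ orderOf_dvd_of_pow_eq_one c3)
  have cN : c ∈ normalizer (commutator X : Set X) := by rw [normalizer_eq_top]; trivial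
  have cC : zpowers c ≤ centralizer (commutator X : Set X) := by
    have := cD.isMulCommutative
    refine Cfsg.Agent.S0056.result _ _ (zpowers_le.2 cN) oc ?_
    rintro v hv hp _ ⟨i, rfl⟩
    refine (Commute.zpow_left ?_ i).eq
    by_cases hc : c ∈ zpowers v
    · exact cmD c (zpowers_le.2 hv hc) v hv
    · have := (h (zpowers v ⊔ zpowers c) (Or.inr ⟨3, _, Nat.prime_three, hp, by
        rw [H9.card_sup_zpowers_of_normalizes (p := 3) (H5.zpowers_normalized_of_le_cyclic hv cN) hc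
          (c3 ▸ one_mem _), Nat.card_zpowers]⟩)).isMulCommutative
      exact congrArg Subtype.val (this.is_comm.comm ⟨c, mem_sup_right (mem_zpowers c)⟩
        ⟨v, mem_sup_left (mem_zpowers v)⟩)
  have dec : ∀ x : X, ∃ d ∈ commutator X, ∃ t ∈ zpowers c, x = d * t := fun x => by
    obtain ⟨i, hi⟩ := hg (Abelianization.of x)
    refine ⟨x * ((c ^ m) ^ i)⁻¹, (ker _).1 ?_, _, zpow_mem (pow_mem (mem_zpowers c) m) i, by group⟩
    rw [map_mul, map_inv, map_zpow, map_pow, hm, ← hi]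
    exact mul_inv_cancel _
  obtain ⟨d, hd, t, ht, rfl⟩ := dec x
  obtain ⟨d', hd', t', ht', rfl⟩ := dec x'
  have tt : Commute t t' := by
    obtain ⟨i, rfl⟩ := ht
    obtain ⟨j, rfl⟩ := ht'
    exact zpow_mul_comm c i j
  exact (Commute.mul_left (Commute.mul_right (cmD d hd d' hd') (cC ht' d hd))
    (Commute.mul_right (Commute.symm (cC ht d' hd')) tt)).eq

variable {G Ω : Type u} [Group G] [MulAction G Ω] {Γ : Geo G Ω} {a b : Ω}

/-- the elements of `H` whose weight is a fifth root of unity -/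
def H0 (Γ : Geo G Ω) (a b : Ω) : Subgroup G where
  carrier := {g | g ∈ Γ.H a b ∧ Γ.w g a ^ 5 = 1}
  one_mem' := ⟨one_mem _, by rw [Γ.w_one, one_pow]⟩
  mul_mem' hg hh := ⟨mul_mem hg.1 hh.1, by rw [Γ.w_mul hg.1.1 hh.1.1, mul_pow, hg.2, hh.2, one_mul]⟩
  inv_mem' {g} hg := ⟨inv_mem hg.1, by
    have := congrArg (· ^ 5) (Γ.w_inv_mul hg.1.1)
    simpa only [mul_pow, hg.2, mul_one, one_pow] using this⟩

theorem w5 {g : G} (hg : g • a = a) : Γ.w g a ^ 5 = 1 ∨ Γ.w g a ^ 5 = -1 := by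
  have := Γ.w_pow_ten hg
  revert this
  generalize Γ.w g a = k
  revert k; decide

theorem ex_L (h : One Γ) (hab : a ≠ b) {c : Ω} (hc : Γ.On a b c) : ∃ l ∈ Γ.L a b, l • a = c := by
  by_cases e : c = b
  · obtain ⟨s, hs, -, e'⟩ := (h.lp a b hab).exs
    exact ⟨s, hs, e ▸ e'⟩
  · obtain ⟨x, hx, e'⟩ := (h.lp a b hab).reg b a c (Γ.on_right a b) (Γ.on_left a b) hc hab e
    exact ⟨x, Γ.on_right a b hx, e'⟩

theorem hom_triv (h : One Γ) (hab : a ≠ b) {A : Type*} [CommGroup A] (f : G →* A) (g : G) : f g = 1 := by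
  obtain ⟨y, s, F⟩ := h.frame a b hab
  have := h.simple
  rcases f.normal_ker.eq_bot_or_eq_top with e | e
  · have e1 : y = y⁻¹ := (f.ker_eq_bot_iff.1 e) (by rw [← F.sy, map_mul, map_mul, map_inv, mul_inv_cancel_comm])
    have := orderOf_dvd_of_pow_eq_one (show y ^ 2 = 1 by rw [pow_two]; exact mul_eq_one_iff_eq_inv.2 e1)
    rw [F.oy] at this
    omega
  · exact (e ▸ mem_top g : g ∈ f.ker)

/-- an involution of weight `-1` -/
theorem ex_o [Finite G] (h : One Γ) (hab : a ≠ b) (ho : Odd (Nat.card (Γ.Z a b))) {g : G} (hg : g ∈ Γ.H a b)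
    (hw : Γ.w g a ^ 5 = -1) : ∃ o ∈ invs (Γ.H a b), Γ.w o a = -1 := by
  have e : Γ.w ((g ^ 5) ^ Nat.card (Γ.Z a b)) a = -1 := by
    rw [Γ.w_pow (pow_mem hg 5).1, Γ.w_pow hg.1, hw, ho.neg_one_pow]
  refine ⟨_, ⟨pow_mem (pow_mem hg 5) _, ?_, fun e1 => ?_⟩, e⟩
  · rw [← (Commute.refl _).mul_pow]
    have h2 := mul_mem (pow_mem hg 5) (pow_mem hg 5)
    exact orderOf_dvd_iff_pow_eq_one.1 (orderOf_dvd_natCard _ (h.memZ a b _ hab h2.1 h2.2 (by
      rw [Γ.w_mul (pow_mem hg 5).1 (pow_mem hg 5).1, Γ.w_pow hg.1, hw]; decide)))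
  · rw [e1, Γ.w_one] at e
    exact absurd e (by decide)

theorem pow12 [Finite G] [Finite Ω] (h : One Γ) {K : Subgroup G} (k : Ker Γ a b K)
    (hH : ⁅Γ.H a b, Γ.H a b⁆ ≤ ⁅Γ.Z a b, Γ.Z a b⁆) {z : G} (hz : z ∈ Γ.Z a b) :
    z ^ 12 ∈ ⁅Γ.Z a b, Γ.Z a b⁆ := by
  have hab := k.ne
  have za : z ∈ stabilizer G a := (Γ.Z_le_H a b hz).1
  have e := H8.transfer_eq_pow_of_forall (Abelianization.of (G := stabilizer G a)) z (Abelianization.of ⟨z, za⟩)
    fun n g hg => by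
      by_cases h1 : z ^ n = 1
      · rw [← map_pow]
        exact congrArg _ (Subtype.ext (by simp [h1]))
      obtain ⟨l, hl, e⟩ := ex_L h hab ((h.fixZ a b _ (g • a) hab (pow_mem hz n) h1).1 (by
        rw [mem_stabilizer_iff, mul_smul, mul_smul, inv_smul_eq_iff] at hg; exact hg))
      have ha : l⁻¹ * g ∈ stabilizer G a := by rw [mem_stabilizer_iff, mul_smul, ← e, inv_smul_smul]
      have : (⟨g⁻¹ * z ^ n * g, hg⟩ : stabilizer G a) = ⟨_, ha⟩⁻¹ * ⟨z, za⟩ ^ n * ⟨_, ha⟩ := Subtype.ext (by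
        change _ = (l⁻¹ * g)⁻¹ * z ^ n * (l⁻¹ * g)
        rw [mul_inv_rev, inv_inv, mul_assoc g⁻¹ l, Γ.mem_Z.1 (pow_mem hz n) l hl]; group)
      rw [this, map_mul, map_mul, map_inv, map_pow, inv_mul_cancel_comm]
  have : IsPretransitive G Ω := ⟨Γ.trans⟩
  rw [hom_triv h hab, index_stabilizer_of_transitive, ← map_pow, eq_comm] at e
  have e1 : z ^ Nat.card Ω ∈ ⁅stabilizer G a, stabilizer G a⁆ := by
    rw [← map_subtype_commutator]
    exact ⟨_, (QuotientGroup.eq_one_iff _).1 e, rfl⟩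
  have e2 : z ^ Nat.card Ω = z ^ 12 := by
    obtain ⟨m, hm⟩ := Nat.exists_eq_add_of_le h.big12.le
    have : z ^ m = 1 := orderOf_dvd_iff_pow_eq_one.1 ((orderOf_dvd_natCard _ hz).trans
      ((Dvd.intro_left 5 rfl).trans (by simpa [hm] using h.dvdH0 a b hab)))
    rw [hm, pow_add, this, mul_one]
  have dec : ∀ g ∈ stabilizer G a, ∃ x ∈ K, ∃ t ∈ Γ.H a b, g = x * t := fun g hg => by
    have hx' : ∀ x ∈ K, x ∈ stabilizer G a := fun x hx => A_fix (k.le hx)
    obtain ⟨x, hx, e⟩ := k.trans b (g • b) hab.symm (smul_ne hg hab.symm)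
    exact ⟨x, hx, x⁻¹ * g, mem_inf.2 ⟨mul_mem (inv_mem (hx' x hx)) hg, by
      rw [mem_stabilizer_iff, mul_smul, ← e, inv_smul_smul]⟩, by group⟩
  have nK : Γ.H a b ≤ normalizer (K : Set G) := fun g hg => mem_normalizer_fintype (k.norm g hg.1)
  have e3 : ⁅stabilizer G a, stabilizer G a⁆ ≤ K ⊔ ⁅Γ.H a b, Γ.H a b⁆ := commutator_le.2 fun g hg g' hg' => by
    obtain ⟨x, hx, t, ht, rfl⟩ := dec g hg
    obtain ⟨x', hx', t', ht', rfl⟩ := dec g' hg'
    have c := commutator_mem_commutator ht ht'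
    rw [show ⁅x * t, x' * t'⁆ = x * (t * x' * t⁻¹) * (t * t' * t⁻¹ * x⁻¹ * (t * t' * t⁻¹)⁻¹) *
      (⁅t, t'⁆ * x'⁻¹ * ⁅t, t'⁆⁻¹) * ⁅t, t'⁆ by simp only [commutatorElement_def]; group]
    exact mul_mem_sup (mul_mem (mul_mem (mul_mem hx (k.norm t ht.1 _ hx'))
      (k.norm _ (mul_mem (mul_mem ht ht') (inv_mem ht)).1 _ (inv_mem hx)))
      (k.norm _ (commutator_le_self _ c).1 _ (inv_mem hx'))) c
  have := e3 (e2 ▸ e1)
  rw [← SetLike.mem_coe, coe_mul_of_right_le_normalizer_left _ _ ((commutator_le_self _).trans nK)] at this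
  obtain ⟨x, hx, t, ht, (e4 : x * t = _)⟩ := this
  have e5 : x = 1 := k.semi x hx b hab.symm (by
    rw [eq_mul_inv_of_mul_eq e4]
    exact (mul_mem (pow_mem (Γ.Z_le_H a b hz) 12) (inv_mem (commutator_le_self _ ht))).2)
  rw [e5, one_mul] at e4
  exact hH (e4 ▸ ht)

theorem jobO1 : JobO1.{u} := by
  intro G Ω _ _ _ _ Γ h a b K k ho hc
  have hab := k.ne
  obtain ⟨y, s, F⟩ := h.frame a b hab
  obtain ⟨o, oH, oo, oZ, dec⟩ : ∃ o ∈ Γ.H a b, o * o = 1 ∧ (∀ z ∈ Γ.Z a b, o * z = z * o) ∧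
      ∀ g ∈ Γ.H a b, g ∈ H0 Γ a b ∨ g * o ∈ H0 Γ a b := by
    by_cases e : ∀ g ∈ Γ.H a b, Γ.w g a ^ 5 = 1
    · exact ⟨1, one_mem _, mul_one _, fun z _ => by simp, fun g hg => Or.inl ⟨hg, e g hg⟩⟩
    · push Not at e
      obtain ⟨g, hg, e⟩ := e
      obtain ⟨o, ho', wo⟩ := ex_o h hab ho hg ((w5 hg.1).resolve_left e)
      exact ⟨o, ho'.1, ho'.2.1, hc o ho', fun g hg => (w5 hg.1).imp (fun e => ⟨hg, e⟩) fun e =>
        ⟨mul_mem hg ho'.1, by rw [Γ.w_mul hg.1 ho'.1.1, mul_pow, e, wo]; decide⟩⟩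
  have oH0 : ∀ g ∈ H0 Γ a b, Commute o g := fun g hg => by
    obtain ⟨z, hz, i, rfl⟩ := F.dec g hg.1 hg.2
    exact Commute.mul_right (oZ z hz) (Commute.pow_right (F.cen o oH) i)
  have dec' : ∀ g ∈ Γ.H a b, ∃ z ∈ Γ.Z a b, ∃ c : G, (∀ t ∈ Γ.H a b, Commute t c) ∧ g = z * c := by
    have cy : ∀ i : ℕ, ∀ t ∈ Γ.H a b, Commute t (y ^ i) := fun i t ht => Commute.pow_right (F.cen t ht) i
    intro g hg
    rcases dec g hg with e | e <;> obtain ⟨z, hz, i, e⟩ := F.dec _ e.1 e.2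
    · exact ⟨z, hz, _, cy i, e⟩
    · refine ⟨z, hz, y ^ i * o, fun t ht => (cy i t ht).mul_right ?_, by rw [← mul_assoc, ← e, mul_assoc, oo, mul_one]⟩
      rcases dec t ht with e | e
      · exact (oH0 t e).symm
      · simpa [mul_assoc, oo] using (oH0 _ e).symm.mul_left (Commute.refl o)
  have cZ : ∀ z ∈ Γ.Z a b, ∀ z' ∈ Γ.Z a b, z * z' = z' * z := fun z hz z' hz' => congrArg Subtype.val
    (comm_of_cyc (X := Γ.Z a b) ho (fun A hA => (equivMapOfInjective A _ (Γ.Z a b).subtype_injective).isCyclic.2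
      (k.cyc _ ((map_subtype_le A).trans (Γ.Z_le_H a b))
        (fun g hg => by rw [Z_w (map_subtype_le A hg) (Γ.on_left a b), one_pow])
        (hA.imp (fun e => by have := e; infer_instance) fun e => by rwa [card_map_of_injective (subtype_injective _)])))
      (fun x => by
        have := pow12 h k (commutator_le.2 fun g hg g' hg' => by
          obtain ⟨z, hz, c, hc, rfl⟩ := dec' g hg
          obtain ⟨z', hz', c', hc', rfl⟩ := dec' g' hg'
          have e : ⁅z * c, z' * c'⁆ = ⁅z, z'⁆ := by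
            calc _ = z * (c * (z' * c')) * c⁻¹ * z⁻¹ * (z' * c')⁻¹ := by rw [commutatorElement_def]; group
              _ = z * z' * (c' * z⁻¹) * (z' * c')⁻¹ := by rw [← (hc _ hg').eq]; group
              _ = _ := by rw [← (hc' _ (inv_mem (Γ.Z_le_H a b hz))).eq, commutatorElement_def]; group
          exact e ▸ commutator_mem_commutator hz hz') x.2
        rw [← map_subtype_commutator] at this
        obtain ⟨x', hx', e⟩ := this
        exact (show x' = x ^ 12 from Subtype.ext e) ▸ hx') ⟨z, hz⟩ ⟨z', hz'⟩)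
  obtain ⟨g, hg⟩ := (Subgroup.isCyclic_iff_exists_zpowers_eq_top _).1 (k.cyc (H0 Γ a b) (fun _ hg => hg.1) (fun _ hg => hg.2)
    (Or.inl ⟨⟨fun t t' => Subtype.ext (by
      obtain ⟨z, hz, c, hc, e⟩ := dec' t t.2.1
      obtain ⟨z', hz', i, e'⟩ := F.dec t' t'.2.1 t'.2.2
      change t.1 * t'.1 = t'.1 * t.1
      have c1 : Commute t'.1 z := e' ▸ Commute.mul_left (cZ z' hz' z hz)
        (Commute.pow_left (Commute.symm (F.cen z (Γ.Z_le_H a b hz))) i)
      exact e ▸ (c1.mul_right (hc _ t'.2.1)).eq.symm)⟩⟩))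
  have g0 : g ∈ H0 Γ a b := hg ▸ mem_zpowers g
  have e : (g * o) ^ (5 * Nat.card (Γ.Z a b)) = o := by
    obtain ⟨z, hz, i, e⟩ := F.dec g g0.1 g0.2
    obtain ⟨m, hm⟩ := (show Odd 5 by decide).mul ho
    rw [(oH0 g g0).symm.mul_pow, e, (Commute.pow_right (F.cen z (Γ.Z_le_H a b hz)) i).mul_pow, ← pow_mul y,
      mul_left_comm i, pow_mul y, F.y5, one_pow, mul_one, mul_comm 5, pow_mul,
      orderOf_dvd_iff_pow_eq_one.1 (orderOf_dvd_natCard _ hz), one_pow, one_mul, mul_comm, hm, pow_succ, pow_mul,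
      pow_two, oo, one_pow, one_mul]
  have o1 : o ∈ zpowers (g * o) := by
    have := pow_mem (mem_zpowers (g * o)) (5 * Nat.card (Γ.Z a b))
    rwa [e] at this
  have g1 : H0 Γ a b ≤ zpowers (g * o) := hg ▸ zpowers_le.2 ((mul_mem_cancel_right o1).1 (mem_zpowers _))
  refine (Subgroup.isCyclic_iff_exists_zpowers_eq_top _).2 ⟨g * o, le_antisymm (zpowers_le.2 (mul_mem g0.1 oH))
    fun t ht => ?_⟩
  exact (dec t ht).elim (fun e => g1 e) fun e => (mul_mem_cancel_right o1).1 (g1 e)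

end H23.O11
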