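/- Tower R3F (S2207): the quotient matrix. -/
import Cfsg.Agent.H51.RFAsm
import Cfsg.Agent.H11.SL2Act

set_option autoImplicit false

namespace H23.R3
open MulAction H51.R3F Finset

universe u v

theorem dvd_free {G X : Type*} [Group G] [MulAction G X] (E : Subgroup G) (T : Set X)
    (h1 : ∀ g ∈ E, ∀ x ∈ T, g • x ∈ T) (h2 : ∀ g ∈ E, ∀ x ∈ T, g • x = x → g = 1) :
    Nat.card E ∣ T.ncard :=
  H11.card_dvd_ncard_of_free T (fun g x hx => h1 g g.2 x hx)
    fun g x hx e => Subtype.ext (h2 g g.2 x hx e)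

theorem ncard_smul {G X : Type*} [Group G] [MulAction G X] (g : G) {A B : Set X}
    (h : ∀ w, g • w ∈ B ↔ w ∈ A) : A.ncard = B.ncard := by
  rw [← Set.ncard_image_of_injective A (MulAction.injective g)]
  congr 1
  ext w
  constructor
  · rintro ⟨x, hx, rfl⟩
    exact (h x).2 hx
  · intro hw
    exact ⟨g⁻¹ • w, (h _).1 (by simpa using hw), by simp⟩

theorem card_image_mul {X β : Type*} [Finite X] (L : Set X) (f : X → β) {n : ℕ}
    (h : ∀ y ∈ L, {w | w ∈ L ∧ f w = f y}.ncard = n) : L.ncard = (f '' L).ncard * n := by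
  classical
  lift L to Finset X using Set.toFinite L
  rw [← Finset.coe_image, Set.ncard_coe_finset, Set.ncard_coe_finset,
    Finset.card_eq_sum_card_image f, Finset.sum_const_nat]
  intro b hb
  obtain ⟨y, hy, rfl⟩ := Finset.mem_image.1 hb
  rw [← h y hy, ← Set.ncard_coe_finset]
  congr 1
  ext w
  simp

theorem exists_enum {X β : Type*} [Finite X] (L : Set X) (f : X → β) {n u : ℕ} (hn : 0 < n)
    (hu : 0 < u) (hL : L.ncard = u * n) (h : ∀ y ∈ L, {w | w ∈ L ∧ f w = f y}.ncard = n) :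
    ∃ o : X → Fin u, (∀ y ∈ L, ∀ y' ∈ L, o y = o y' ↔ f y = f y') ∧ ∀ i, ∃ y ∈ L, o y = i := by
  classical
  have h1 : (f '' L).ncard = u := by
    have := card_image_mul L f h
    rw [hL] at this
    exact (Nat.eq_of_mul_eq_mul_right hn this).symm
  have : Finite (f '' L) := (Set.toFinite L).image f
  let e : (f '' L) ≃ Fin u := Finite.equivFinOfCardEq h1
  refine ⟨fun y => if hy : y ∈ L then e ⟨f y, y, hy, rfl⟩ else ⟨0, hu⟩, fun y hy y' hy' => ?_,
    fun i => ?_⟩
  · simp only [dif_pos hy, dif_pos hy', e.apply_eq_iff_eq]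
    exact Subtype.ext_iff
  · obtain ⟨⟨_, y, hy, rfl⟩, rfl⟩ := e.surjective i
    exact ⟨y, hy, by simp [hy]⟩

open Classical in
theorem dc {X : Type*} (Γ : SimpleGraph X) (A B : Finset X) :
    ∑ y ∈ A, #(B.filter (Γ.Adj y)) = ∑ w ∈ B, #(A.filter (Γ.Adj w)) := by
  simp only [Finset.card_filter]
  rw [Finset.sum_comm]
  refine Finset.sum_congr rfl fun w _ => Finset.sum_congr rfl fun y _ => ?_
  simp [Γ.adj_comm]

open Classical in
theorem split3 {X : Type*} [Fintype X] (Γ : SimpleGraph X) (a : X) (F : X → ℕ) :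
    ∑ w, F w = F a + ∑ w ∈ univ.filter (Γ.Adj a), F w + ∑ w ∈ univ.filter (Nadj Γ a), F w := by
  rw [Finset.sum_filter, Finset.sum_filter, ← Finset.sum_ite_eq_of_mem univ a F (mem_univ a),
    ← Finset.sum_add_distrib, ← Finset.sum_add_distrib]
  refine Finset.sum_congr rfl fun w _ => ?_
  by_cases h1 : a = w
  · subst h1; simp [Nadj]
  · by_cases h2 : Γ.Adj a w <;> simp [Nadj, h1, h2]

theorem jobQM : JobQM.{u, v} := by
  intro G X _ _ _ _ Γ N k lam mu h m e n u t S a
  classical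
  have := Fintype.ofFinite X
  have nc : ∀ (p : X → Prop) [DecidablePred p], {w | p w}.ncard = #(univ.filter p) :=
    fun p _ => by
    rw [← Set.ncard_coe_finset]; congr 1; ext w; simp
  have fixa : ∀ g ∈ N a, g • a = a := fun g hg => ((S.memN a g).1 hg).1
  have k0 : 0 < k := lt_trans S.mu_pos S.mu_lt
  have n0 : 0 < n := Nat.pos_of_ne_zero fun e => by have := S.k_eq; rw [e] at this; omega
  obtain ⟨c0, hc0⟩ := S.ex a
  have u0 : 0 < u := Nat.pos_of_ne_zero fun e => by
    have := S.cardL a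
    rw [e, zero_mul, Set.ncard_eq_zero] at this
    exact (this.le hc0 : c0 ∈ (∅ : Set X))
  have orb : ∀ y y' : X, orbit (N a) y = orbit (N a) y' ↔ ∃ g ∈ N a, g • y = y' := fun y y' => by
    rw [eq_comm, orbit_eq_iff]
    exact ⟨fun ⟨g, hg⟩ => ⟨g, g.2, hg⟩, fun ⟨g, hg, e⟩ => ⟨⟨g, hg⟩, e⟩⟩
  obtain ⟨o, ho, hs⟩ := exists_enum {c | Nadj Γ a c} (orbit (N a)) n0 u0 (S.cardL a)
    (fun y hy => by
      rw [← S.cardO a y hy]
      congr 1
      ext w
      simp only [Set.mem_ofPred_eq]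
      rw [eq_comm, orb]
      exact ⟨fun h => h.2, fun ⟨g, hg, e⟩ => ⟨e ▸ S.nadj_orb hy hg, g, hg, e⟩⟩)
  replace ho : ∀ y y', Nadj Γ a y → Nadj Γ a y' → (o y = o y' ↔ ∃ g ∈ N a, g • y = y') :=
    fun y y' hy hy' => (ho y hy y' hy').trans (orb y y')
  choose r hr hor using hs
  set P : Fin u → Finset X := fun j => univ.filter fun w => Nadj Γ a w ∧ o w = j with hP
  set D : Finset X := univ.filter (Γ.Adj a) with hD
  set dg : X → Fin u → ℕ := fun y j => #((P j).filter (Γ.Adj y)) with hdg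
  have dg' : ∀ y j, dg y j = {w | Γ.Adj y w ∧ Nadj Γ a w ∧ o w = j}.ncard := fun y j => by
    rw [nc, hdg]; simp only; congr 1; ext w; simp [hP, and_comm]
  have adj_iff : ∀ (g : G) x y, Γ.Adj (g • x) (g • y) ↔ Γ.Adj x y := fun g x y =>
    ⟨fun h => by simpa using S.inv g⁻¹ _ _ h, S.inv g x y⟩
  have nadj_iff : ∀ (g : G) w, g • a = a → (Nadj Γ a (g • w) ↔ Nadj Γ a w) := fun g w hg =>
    ⟨fun h => by
      have := S.toGr.nadj_smul g⁻¹ h
      rwa [inv_smul_smul, inv_smul_eq_iff.2 hg.symm] at this,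
    fun h => by have := S.toGr.nadj_smul g h; rwa [hg] at this⟩
  have osm : ∀ g ∈ N a, ∀ w, Nadj Γ a w → o (g • w) = o w := fun g hg w hw =>
    ((ho _ _ hw (S.nadj_orb hw hg)).2 ⟨g, hg, rfl⟩).symm
  have dsm : ∀ g ∈ N a, ∀ y j, dg (g • y) j = dg y j := by
    intro g hg y j
    rw [dg', dg']
    refine (ncard_smul g fun w => ?_).symm
    simp only [Set.mem_ofPred_eq, adj_iff, nadj_iff g w (fixa g hg)]
    exact and_congr_right fun _ => and_congr_right fun hw => by rw [osm g hg w hw]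
  have db : ∀ y j, Nadj Γ a y → dg y j = dg (r (o y)) j := by
    intro y j hy
    obtain ⟨g, hg, e⟩ := (ho _ _ hy (hr (o y))).1 (hor _).symm
    rw [← e, dsm g hg]
  have cP : ∀ j, #(P j) = n := by
    intro j
    rw [← S.cardO a _ (hr j), nc]
    congr 1
    ext w
    simp only [hP, mem_filter, mem_univ, true_and]
    constructor
    · rintro ⟨h1, h2⟩
      exact (ho _ _ (hr j) h1).1 (by rw [hor, h2])
    · rintro ⟨g, hg, rfl⟩
      exact ⟨S.nadj_orb (hr j) hg, by rw [osm g hg _ (hr j), hor]⟩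
  have cD : #D = k := by rw [← S.deg a, nc]
  have sP : ∀ i j, ∑ y ∈ P i, dg y j = n * dg (r i) j := by
    intro i j
    rw [← cP i]
    refine Finset.sum_const_nat fun y hy => ?_
    obtain ⟨h1, h2⟩ := (mem_filter.1 hy).2
    rw [db y j h1, h2]
  obtain ⟨b0, hb0⟩ : D.Nonempty := card_pos.1 (by omega)
  have dD : ∀ y ∈ D, ∀ j, dg y j = dg b0 j := by
    intro y hy j
    obtain ⟨g, hg, e⟩ := S.regN a b0 y (mem_filter.1 hb0).2 (mem_filter.1 hy).2
    rw [← e, dsm g hg]
  have muD : ∀ w, Nadj Γ a w → #(D.filter (Γ.Adj w)) = mu := by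
    intro w hw
    rw [← S.nadj a w hw, nc, hD, filter_filter]
  have knu : ∀ j, k * dg b0 j = n * mu := by
    intro j
    rw [← cD, ← cP j, ← Finset.sum_const_nat (f := fun y => dg y j) fun y hy => dD y hy j,
      ← Finset.sum_const_nat (f := fun w => #(D.filter (Γ.Adj w)))
        fun w hw => muD w (mem_filter.1 hw).2.1]
    exact dc Γ D (P j)
  set ν := dg b0 ⟨0, u0⟩ with hν
  have nuj : ∀ j, dg b0 j = ν := fun j =>
    Nat.eq_of_mul_eq_mul_left k0 ((knu j).trans (knu _).symm)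
  have spl : ∀ (y : X) (F : X → ℕ), ∑ w ∈ univ.filter (Γ.Adj y), F w =
      (if Γ.Adj y a then F a else 0) + ∑ w ∈ D.filter (Γ.Adj y), F w +
        ∑ j, ∑ w ∈ (P j).filter (Γ.Adj y), F w := by
    intro y F
    rw [sum_filter, split3 Γ a, sum_filter (s := D) (Γ.Adj y)]
    congr 1
    rw [← Finset.sum_fiberwise (univ.filter (Nadj Γ a)) o]
    refine Finset.sum_congr rfl fun j _ => ?_
    rw [sum_filter (Γ.Adj y), filter_filter]
  have path : ∀ i j, ∑ y' ∈ P j, #((univ.filter (Γ.Adj (r i))).filter (Γ.Adj y')) =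
      mu * ν + ∑ s, dg (r i) s * dg (r s) j := by
    intro i j
    rw [← dc, spl, if_neg fun h => (hr i).2 h.symm, zero_add]
    congr 1
    · rw [← muD _ (hr i)]
      exact Finset.sum_const_nat fun w hw => (dD w (mem_filter.1 hw).1 j).trans (nuj j)
    · refine Finset.sum_congr rfl fun s _ => Finset.sum_const_nat fun w hw => ?_
      obtain ⟨h1, h2⟩ := (mem_filter.1 (mem_filter.1 hw).1).2
      exact (db w j h1).trans (by rw [h2])
  have com : ∀ y y', (#((univ.filter (Γ.Adj y)).filter (Γ.Adj y')) : ℤ) =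
      (if y' = y then (k : ℤ) - mu else 0) + (if Γ.Adj y y' then (lam : ℤ) - mu else 0) + mu := by
    intro y y'
    rw [filter_filter, ← nc]
    by_cases h1 : y' = y
    · subst h1
      simp [S.deg]
    · by_cases h2 : Γ.Adj y y'
      · simp [h1, h2, S.adj y y' h2]
      · simp [h1, h2, S.nadj y y' ⟨fun e => h1 e.symm, h2⟩]
  have path' : ∀ i j, (if r i ∈ P j then (k : ℤ) - mu else 0) + dg (r i) j * ((lam : ℤ) - mu) +
      n * mu = mu * ν + ∑ s, (dg (r i) s : ℤ) * dg (r s) j := by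
    intro i j
    have := congrArg (Nat.cast : ℕ → ℤ) (path i j)
    push_cast at this
    rw [← this]
    simp only [com, sum_add_distrib, sum_ite_eq', ← sum_filter, sum_const, nsmul_eq_mul, cP, hdg]
  have symm : ∀ i j, dg (r i) j = dg (r j) i := fun i j =>
    Nat.eq_of_mul_eq_mul_left n0 (by rw [← sP, ← sP]; exact dc Γ (P i) (P j))
  refine ⟨o, fun i j => dg (r i) j, ν, ⟨symm, fun i j => ?_, fun i j => ?_, fun i => ?_,
    fun i => ?_, fun i j hij => ?_, ?_, ?_⟩, ho, fun i => ⟨r i, hr i, hor i⟩,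
    fun y j hy => by rw [← dg', db y j hy]⟩
  · rw [← S.cardE a _ (hr i), dg']
    refine dvd_free _ _ (fun g hg w hw => ?_) fun g hg w hw e => ?_
    · obtain ⟨g1, g2⟩ := Subgroup.mem_inf.1 hg
      refine ⟨?_, S.nadj_orb hw.2.1 g1, by rw [osm g g1 w hw.2.1, hw.2.2]⟩
      have := S.inv g _ _ hw.1
      rwa [mem_stabilizer_iff.1 g2] at this
    · obtain ⟨g1, g2⟩ := Subgroup.mem_inf.1 hg
      by_contra h1
      exact S.no_fix g1 h1 g2 e hw.1
  · obtain ⟨g, g1, g2⟩ := S.narc a _ _ (hr i) (hr j)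
    rw [dg', dg']
    refine ncard_smul g fun w => ?_
    simp only [Set.mem_ofPred_eq]
    rw [← g2, adj_iff, nadj_iff g w g1]
    refine and_congr_right fun _ => and_congr_right fun hw => ?_
    have e1 := ho _ _ (hr j) ((nadj_iff g w g1).2 hw)
    have e2 := ho _ _ (hr i) hw
    rw [hor, eq_comm] at e1 e2
    rw [e1, e2, ← g2]
    constructor
    · rintro ⟨x, hx, e⟩
      refine ⟨g⁻¹ * x * g⁻¹⁻¹, ?_, ?_⟩
      · have := S.conjN a g⁻¹ x hx
        rwa [inv_smul_eq_iff.2 g1.symm] at this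
      · rw [inv_inv, mul_smul, mul_smul, e, inv_smul_smul]
    · rintro ⟨x, hx, e⟩
      refine ⟨g * x * g⁻¹, ?_, ?_⟩
      · have := S.conjN a g x hx
        rwa [g1] at this
      · rw [mul_smul, mul_smul, inv_smul_smul, e]
  · have := spl (r i) fun _ => 1
    rw [if_neg fun h => (hr i).2 h.symm] at this
    simp only [← card_eq_sum_ones, muD _ (hr i), ← nc, S.deg] at this
    simp only [hdg]
    omega
  · have := path' i i
    rw [if_pos (mem_filter.2 ⟨mem_univ _, hr i, hor i⟩)] at this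
    rw [show ∑ j, (dg (r i) j : ℤ) * dg (r i) j = ∑ s, (dg (r i) s : ℤ) * dg (r s) i from
      Finset.sum_congr rfl fun s _ => by rw [symm s i]]
    linear_combination this
  · have := path' i j
    rw [if_neg fun h => hij ((hor i).symm.trans (mem_filter.1 h).2.2)] at this
    linear_combination this
  · have := spl b0 fun _ => 1
    have hb := (mem_filter.1 hb0).2
    rw [if_pos hb.symm] at this
    simp only [← card_eq_sum_ones] at this
    rw [← nc, S.deg, hD, filter_filter, ← nc, S.adj a b0 hb,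
      Finset.sum_const_nat (m := ν) fun j _ => nuj j] at this
    simpa using this
  · have := knu ⟨0, u0⟩
    rw [S.k_eq, ← hν, mul_comm e, mul_assoc] at this
    exact (Nat.eq_of_mul_eq_mul_left n0 this).symm

end H23.R3
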