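/- Tower R3F (S2207): the orders. -/
import Cfsg.Agent.H23.R3QM

set_option autoImplicit false

namespace H23.R3
open MulAction H51.R3F Finset

universe u v

theorem orb_stab {G X : Type*} [Group G] [MulAction G X] (K : Subgroup G) (x : X) :
    Nat.card K = {y | ∃ g ∈ K, g • x = y}.ncard * Nat.card ↥(K ⊓ stabilizer G x) := by
  have h1 : {y | ∃ g ∈ K, g • x = y} = orbit K x := by
    ext y
    exact ⟨fun ⟨g, hg, e⟩ => ⟨⟨g, hg⟩, e⟩, fun ⟨g, hg⟩ => ⟨g, g.2, hg⟩⟩
  have h2 : Nat.card ↥(K ⊓ stabilizer G x) = Nat.card (stabilizer K x) := by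
    rw [← Subgroup.card_map_of_injective (K := stabilizer K x) K.subtype_injective]
    congr 3
    ext g
    constructor
    · rintro ⟨h1, h2⟩
      exact ⟨⟨g, h1⟩, h2, rfl⟩
    · rintro ⟨g, hg, rfl⟩
      exact ⟨g.2, hg⟩
  rw [h1, h2, ← MulAction.index_stabilizer, Subgroup.index_mul_card]

open Classical in
theorem nbr_split {X : Type*} [Finite X] (Γ : SimpleGraph X) {a b : X} (h : Γ.Adj a b) :
    {w | Γ.Adj b w}.ncard = 1 + {w | Γ.Adj a w ∧ Γ.Adj b w}.ncard +
      {w | Γ.Adj b w ∧ Nadj Γ a w}.ncard := by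
  have := Fintype.ofFinite X
  have nc : ∀ (p : X → Prop) [DecidablePred p], {w | p w}.ncard = #(univ.filter p) :=
    fun p _ => by rw [← Set.ncard_coe_finset]; congr 1; ext w; simp
  have := split3 Γ a fun w => if Γ.Adj b w then 1 else 0
  rw [if_pos h.symm] at this
  simp only [← card_filter, filter_filter] at this
  rw [nc, nc, nc, this]
  simp only [and_comm]

open Classical in
theorem card_split {X : Type*} [Finite X] (Γ : SimpleGraph X) (a : X) :
    Nat.card X = 1 + {w | Γ.Adj a w}.ncard + {w | Nadj Γ a w}.ncard := by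
  have := Fintype.ofFinite X
  have nc : ∀ (p : X → Prop) [DecidablePred p], {w | p w}.ncard = #(univ.filter p) :=
    fun p _ => by rw [← Set.ncard_coe_finset]; congr 1; ext w; simp
  have := split3 Γ a fun _ => 1
  simp only [← card_eq_sum_ones] at this
  rw [nc, nc, ← this, Nat.card_eq_fintype_card, card_univ]

open Classical in
theorem edge_count {X : Type*} [Finite X] {Γ : SimpleGraph X} {k lam mu s : ℕ}
    (S : Sr Γ k lam mu) (a : X) (hs : k = 1 + lam + s) :
    k * s = {w | Nadj Γ a w}.ncard * mu := by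
  have := Fintype.ofFinite X
  have nc : ∀ (p : X → Prop) [DecidablePred p], {w | p w}.ncard = #(univ.filter p) :=
    fun p _ => by rw [← Set.ncard_coe_finset]; congr 1; ext w; simp
  have := dc Γ (univ.filter (Γ.Adj a)) (univ.filter (Nadj Γ a))
  rw [Finset.sum_const_nat (m := s), Finset.sum_const_nat (m := mu), ← nc, ← nc, S.deg] at this
  · exact this
  · intro w hw
    rw [filter_filter, ← nc]
    exact S.nadj a w (mem_filter.1 hw).2
  · intro b hb
    have h := (mem_filter.1 hb).2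
    have := nbr_split Γ h
    rw [S.deg, S.adj a b h] at this
    rw [filter_filter, ← nc]
    simp only [and_comm] at this ⊢
    omega

theorem jobN2 : JobN2.{u, v} := by
  intro G X _ _ _ _ Γ N k lam mu S
  classical
  have fixa : ∀ a, ∀ g ∈ N a, g • a = a := fun a g hg => ((S.memN a g).1 hg).1
  have k0 : 0 < k := lt_trans S.mu_pos S.mu_lt
  obtain ⟨g0, a0, b0, g1, hab, ga, gb⟩ := S.nreg
  obtain ⟨c0, hc0⟩ := S.ex a0
  have X0 : 0 < Nat.card X := Nat.card_pos_iff.2 ⟨S.ne, inferInstance⟩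
  have cG : ∀ a : X, Nat.card G = Nat.card X * Nat.card (stabilizer G a) := by
    intro a
    have := orb_stab (⊤ : Subgroup G) a
    rw [top_inf_eq, Subgroup.card_top] at this
    rw [this]
    congr 1
    rw [← Set.ncard_univ]
    congr 1
    exact Set.eq_univ_of_forall fun y => (S.tr a y).imp fun g hg => ⟨trivial, hg⟩
  have cS : ∀ a : X, Nat.card (stabilizer G a) = Nat.card (stabilizer G a0) := fun a =>
    Nat.eq_of_mul_eq_mul_left X0 ((cG a).symm.trans (cG a0))
  have cH : ∀ a b, Γ.Adj a b → Nat.card (stabilizer G a0) =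
      k * Nat.card ↥(stabilizer G a ⊓ stabilizer G b) := by
    intro a b h
    rw [← cS a, orb_stab (stabilizer G a) b, ← S.deg a]
    congr 2
    ext y
    constructor
    · rintro ⟨g, hg, rfl⟩
      have := S.inv g _ _ h
      rwa [mem_stabilizer_iff.1 hg] at this
    · exact fun hy => S.arc a b y h hy
  have cL : ∀ a, {w | Nadj Γ a w}.ncard = {w | Nadj Γ a0 w}.ncard := fun a => by
    have h1 := card_split Γ a
    have h2 := card_split Γ a0
    rw [S.deg] at h1 h2
    omega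
  have cD : ∀ a c, Nadj Γ a c → Nat.card (stabilizer G a0) =
      {w | Nadj Γ a0 w}.ncard * Nat.card ↥(stabilizer G a ⊓ stabilizer G c) := by
    intro a c h
    rw [← cS a, orb_stab (stabilizer G a) c, ← cL a]
    congr 2
    ext y
    constructor
    · rintro ⟨g, hg, rfl⟩
      have := S.toGr.nadj_smul g h
      rwa [mem_stabilizer_iff.1 hg] at this
    · exact fun hy => S.narc a c y h hy
  have L0 : 0 < {w | Nadj Γ a0 w}.ncard := (Set.ncard_pos (Set.toFinite _)).2 ⟨c0, hc0⟩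
  have eLe : ∀ (g : G) (a c : X), Nat.card ↥(N a ⊓ stabilizer G c) ≤
      Nat.card ↥(N (g • a) ⊓ stabilizer G (g • c)) := by
    intro g a c
    refine Nat.card_le_card_of_injective (fun x => ⟨g * x * g⁻¹, Subgroup.mem_inf.2
      ⟨S.conjN a g x (Subgroup.mem_inf.1 x.2).1, ?_⟩⟩) fun x y e => ?_
    · rw [mem_stabilizer_iff, mul_smul, mul_smul, inv_smul_smul,
        mem_stabilizer_iff.1 (Subgroup.mem_inf.1 x.2).2]
    · exact Subtype.ext (by simpa using e)
  have cE : ∀ a c, Nadj Γ a c → Nat.card ↥(N a ⊓ stabilizer G c) =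
      Nat.card ↥(N a0 ⊓ stabilizer G c0) := by
    intro a c h
    obtain ⟨g, hg⟩ := S.tr a a0
    obtain ⟨g', h1, h2⟩ := S.narc a0 (g • c) c0 (hg ▸ S.toGr.nadj_smul g h) hc0
    have e1 : (g' * g) • a = a0 := by rw [mul_smul, hg, h1]
    have e2 : (g' * g) • c = c0 := by rw [mul_smul, h2]
    have i1 := eLe (g' * g) a c
    have i2 := eLe (g' * g)⁻¹ ((g' * g) • a) ((g' * g) • c)
    rw [inv_smul_smul, inv_smul_smul] at i2
    rw [e1, e2] at i1 i2
    omega
  set h := Nat.card ↥(stabilizer G a0 ⊓ stabilizer G b0) with hh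
  set m := Nat.card ↥(stabilizer G a0 ⊓ stabilizer G c0) with hm
  set e := Nat.card ↥(N a0 ⊓ stabilizer G c0) with he
  set n := {y | ∃ g ∈ N a0, g • c0 = y}.ncard with hn
  have e0 : 0 < e := Nat.card_pos
  have kne : k = n * e := by rw [← S.cardN a0]; exact orb_stab _ _
  have cO : ∀ a c, Nadj Γ a c → {y | ∃ g ∈ N a, g • c = y}.ncard = n := by
    intro a c h
    have := orb_stab (N a) c
    rw [S.cardN, cE a c h, kne] at this
    exact (Nat.eq_of_mul_eq_mul_right e0 this).symm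
  have cH' : ∀ a b, Γ.Adj a b → Nat.card ↥(stabilizer G a ⊓ stabilizer G b) = h := fun a b hb =>
    Nat.eq_of_mul_eq_mul_left k0 ((cH a b hb).symm.trans (cH a0 b0 hab))
  have hu := card_image_mul {w | Nadj Γ a0 w} (orbit (N a0)) (n := n) fun y hy => by
    rw [← cO a0 y hy]
    congr 1
    ext w
    simp only [Set.mem_ofPred_eq]
    rw [orbit_eq_iff]
    refine ⟨fun ⟨_, g, hg⟩ => ⟨g, g.2, hg⟩, fun ⟨g, hg, e⟩ => ⟨?_, ⟨g, hg⟩, e⟩⟩
    have := S.toGr.nadj_smul g hy
    rwa [fixa a0 g hg, e] at this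
  set u := (orbit (N a0) '' {w | Nadj Γ a0 w}).ncard
  have hl : h ∣ lam := by
    rw [← S.adj a0 b0 hab]
    refine dvd_free _ _ (fun g hg w hw => ?_) fun g hg w hw e => ?_
    · obtain ⟨h1, h2⟩ := Subgroup.mem_inf.1 hg
      have a1 := S.inv g _ _ hw.1
      have a2 := S.inv g _ _ hw.2
      rw [mem_stabilizer_iff.1 h1] at a1
      rw [mem_stabilizer_iff.1 h2] at a2
      exact ⟨a1, a2⟩
    · obtain ⟨h1, h2⟩ := Subgroup.mem_inf.1 hg
      exact S.frob g a0 b0 w h1 hab hw.1 hw.2.ne h2 e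
  obtain ⟨t, ht⟩ : h ∣ {w | Γ.Adj b0 w ∧ Nadj Γ a0 w}.ncard := by
    refine dvd_free _ _ (fun g hg w hw => ?_) fun g hg w hw e => ?_
    · obtain ⟨h1, h2⟩ := Subgroup.mem_inf.1 hg
      have a1 := S.inv g _ _ hw.1
      have a2 := S.toGr.nadj_smul g hw.2
      rw [mem_stabilizer_iff.1 h2] at a1
      rw [mem_stabilizer_iff.1 h1] at a2
      exact ⟨a1, a2⟩
    · obtain ⟨h1, h2⟩ := Subgroup.mem_inf.1 hg
      exact S.frob g b0 a0 w h2 hab.symm hw.1 hw.2.1 h1 e
  have kt : k = 1 + lam + h * t := by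
    have := nbr_split Γ hab
    rwa [S.deg, S.adj a0 b0 hab, ht] at this
  have hkm : k * h = {w | Nadj Γ a0 w}.ncard * m := (cH a0 b0 hab).symm.trans (cD a0 c0 hc0)
  have n0 : 0 < n := Nat.pos_of_ne_zero fun e => by rw [e] at kne; omega
  have um : u * m = e * h := Nat.eq_of_mul_eq_mul_left n0 (by
    rw [← mul_assoc, mul_comm n u, ← hu, ← hkm, kne, mul_assoc])
  refine ⟨h, m, e, n, u, t, S, fun a y g hg hy => ?_, cO, cH', fun a c hc =>
    Nat.eq_of_mul_eq_mul_left L0 ((cD a c hc).symm.trans (cD a0 c0 hc0)), cE,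
    by rw [cG a0, cH a0 b0 hab], by rw [card_split Γ a0, S.deg, hu], fun a => by rw [cL, hu],
    by rw [kne, mul_comm], ?_, hl, kt, ?_, um, ?_⟩
  · refine (S.memN y g).2 ⟨hy, ?_⟩
    by_contra hc
    push Not at hc
    obtain ⟨h1, w, hw, e⟩ := hc
    have p1 : g ^ k = 1 := by
      rw [← S.cardN a]
      exact congrArg Subtype.val (pow_card_eq_one' (x := (⟨g, hg⟩ : N a)))
    have p2 : g ^ h = 1 := by
      rw [← cH' y w hw]
      exact congrArg Subtype.val (pow_card_eq_one'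
        (x := (⟨g, Subgroup.mem_inf.2 ⟨hy, e⟩⟩ : ↥(stabilizer G y ⊓ stabilizer G w))))
    obtain ⟨s, hs⟩ := hl
    rw [kt, hs, pow_add, pow_add, pow_mul, pow_mul, p2] at p1
    exact h1 (by simpa using p1)
  · refine (Subgroup.one_lt_card_iff_ne_bot _).2 fun e => g1 ?_
    exact Subgroup.mem_bot.1 (e ▸ Subgroup.mem_inf.2 ⟨ga, gb⟩)
  · have := edge_count S.toSr a0 kt
    rw [← mul_assoc, hkm, mul_assoc] at this
    rw [mul_comm]
    exact (Nat.eq_of_mul_eq_mul_left L0 this).symm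
  · obtain ⟨m', hm'⟩ : e ∣ m := Subgroup.card_dvd_of_le
      (inf_le_inf_right _ fun g hg => fixa a0 g hg)
    refine ⟨m', Nat.eq_of_mul_eq_mul_left e0 ?_⟩
    rw [← um, hm']
    ring

end H23.R3
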