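/- Tower R3F (S2207): counting involutions. -/
import Cfsg.Agent.H23.R3N2

set_option autoImplicit false

namespace H23.R3
open MulAction H51.R3F Finset

universe u v

theorem sq_of_ord {G : Type*} [Group G] {s : G} (h : orderOf s = 2) : s * s = 1 := by
  rw [← pow_two, ← h, pow_orderOf_eq_one]

theorem ord_conj {G : Type*} [Group G] (g s : G) : orderOf (g * s * g⁻¹) = orderOf s :=
  (MulAut.conj g).orderOf_eq s

theorem sw_conj {G X : Type*} [Group G] [MulAction G X] (g : G) (a y : X) :
    (Sw G a y).ncard = (Sw G (g • a) (g • y)).ncard := by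
  refine ncard_smul (MulAut.conj g) fun s => ?_
  show _ ∧ _ ∧ _ ↔ _ ∧ _ ∧ _
  rw [MulAut.smul_def, MulAut.conj_apply, ord_conj]
  refine and_congr_right fun _ => and_congr ⟨fun ⟨x, hx⟩ => ⟨g⁻¹ • x, ?_⟩,
    fun ⟨x, hx⟩ => ⟨g • x, by simp [mul_smul, hx]⟩⟩ (by simp [mul_smul])
  rw [mul_smul, mul_smul] at hx
  rw [eq_inv_smul_iff, hx]

theorem sw_le {G X : Type*} [Group G] [Finite G] [MulAction G X] (a y : X) :
    (Sw G a y).ncard ≤ Nat.card ↥(stabilizer G a ⊓ stabilizer G y) := by
  rcases (Sw G a y).eq_empty_or_nonempty with h | ⟨s, hs⟩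
  · simp [h]
  have key : ∀ s ∈ Sw G a y, s • y = a := fun s hs => by
    rw [← hs.2.2, ← mul_smul, sq_of_ord hs.1, one_smul]
  refine Set.ncard_le_ncard_of_injOn (t := ((stabilizer G a ⊓ stabilizer G y : Subgroup G) : Set G))
    (fun x => s * x) (fun x hx => Subgroup.mem_inf.2 ⟨?_, ?_⟩) fun x _ y _ e => mul_left_cancel e
  · rw [mem_stabilizer_iff, mul_smul, hx.2.2, key s hs]
  · rw [mem_stabilizer_iff, mul_smul, key x hx, hs.2.2]

theorem jobCnt : JobCnt.{u, v} := by
  intro G X _ _ _ _ Γ N k lam mu h m u t S Z a b c z hab hac hz hza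
  classical
  have := Fintype.ofFinite X
  have := Fintype.ofFinite G
  have nc : ∀ {Y : Type _} [Fintype Y] (p : Y → Prop) [DecidablePred p],
      {w | p w}.ncard = #(univ.filter p) :=
    fun p _ => by rw [← Set.ncard_coe_finset]; congr 1; ext w; simp
  have fixa : ∀ g ∈ N a, g • a = a := fun g hg => ((S.memN a g).1 hg).1
  have k0 : 0 < k := lt_trans S.mu_pos S.mu_lt
  have X0 : 0 < Nat.card X := Nat.card_pos_iff.2 ⟨S.ne, inferInstance⟩
  set I : Finset G := univ.filter fun s => orderOf s = 2 ∧ ∃ x : X, s • x = x with hI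
  have cj : ∀ s ∈ I, ∃ g : G, g * s * g⁻¹ = z := by
    intro s hs
    obtain ⟨h1, x, hx⟩ := (mem_filter.1 hs).2
    obtain ⟨g, hg⟩ := S.tr x a
    obtain ⟨y, -, hy⟩ := Z.conj a (g * s * g⁻¹) z (by rw [ord_conj, h1]) hz
      (by rw [← hg]; simp [mul_smul, hx]) hza
    exact ⟨y * g, by rw [← hy]; group⟩
  have sw : ∀ x y : X, (Sw G x y).ncard = #(I.filter fun s => s • x = y) := fun x y => by
    rw [← Set.ncard_coe_finset]
    congr 1
    ext s
    simp [hI, Sw, and_assoc]
  have fib : ∀ (x : X) (p : X → Prop) [DecidablePred p], #(I.filter fun s => p (s • x)) =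
      ∑ y ∈ univ.filter p, (Sw G x y).ncard := by
    intro x p _
    rw [card_eq_sum_card_fiberwise (f := fun s => s • x) (t := univ.filter p)
      fun s hs => mem_coe.2 (mem_filter.2 ⟨mem_univ _, (mem_filter.1 hs).2⟩)]
    refine Finset.sum_congr rfl fun y hy => ?_
    rw [sw, filter_filter]
    congr 1
    refine filter_congr fun s _ => ⟨fun h => h.2, fun h => ⟨?_, h⟩⟩
    show p (s • x)
    rw [h]
    exact (mem_filter.1 hy).2
  have dbl : ∀ (P : X → X → Prop) (w : ℕ), (∀ (g : G) x y, P x y → P (g • x) (g • y)) →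
      (∀ x, ∑ y ∈ univ.filter (P x), (Sw G x y).ncard = w) →
      #I * {y | P y (z • y)}.ncard = Nat.card X * w := by
    intro P w hP hw
    have : ∑ s ∈ I, #(univ.filter fun y => P y (s • y)) =
        ∑ y : X, #(I.filter fun s => P y (s • y)) := by
      simp only [card_filter]
      exact Finset.sum_comm
    rw [Finset.sum_const_nat (m := {y | P y (z • y)}.ncard), Finset.sum_const_nat (m := w),
      card_univ, ← Nat.card_eq_fintype_card] at this
    · exact this
    · intro y _
      rw [fib y (P y), hw]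
    · intro s hs
      obtain ⟨g, hg⟩ := cj s hs
      rw [← nc]
      refine ncard_smul g fun y => ?_
      simp only [Set.mem_ofPred_eq]
      rw [← hg, mul_smul, mul_smul, inv_smul_smul]
      exact ⟨fun h => by simpa using hP g⁻¹ _ _ h, hP g _ _⟩
  have s0 : (Sw G a a).ncard = k := by
    rw [← S.cardN a]
    refine (ncard_smul (MulOpposite.op z) (A := (N a : Set G)) (B := Sw G a a) fun x => ?_).symm
    rw [MulOpposite.smul_eq_mul_unop, MulOpposite.unop_op]
    constructor
    · intro hx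
      have := Z.mul a _ z hx.1 hz hx.2.2 hza
      rwa [mul_assoc, sq_of_ord hz, mul_one] at this
    · intro hx
      have e : (x * z) • a = a := by rw [mul_smul, hza, fixa x hx]
      refine ⟨orderOf_eq_prime ?_ fun h1 => ?_, ⟨a, e⟩, e⟩
      · have := Z.inv a z hz hza x hx
        rw [inv_eq_of_mul_eq_one_right (sq_of_ord hz)] at this
        rw [pow_two, mul_assoc, ← mul_assoc z, this, mul_inv_cancel]
      · have hzN : z ∈ N a := by
          rw [← inv_eq_of_mul_eq_one_right h1]; exact inv_mem hx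
        obtain ⟨w, hw, -⟩ := Z.nbr a z hz hza
        rcases ((S.memN a z).1 hzN).2 with h | h
        · rw [h, orderOf_one] at hz; omega
        · exact h w hw.1 hw.2
  have s1 : ∀ x y, Γ.Adj x y → (Sw G x y).ncard = (Sw G a b).ncard := by
    intro x y hxy
    obtain ⟨g, hg⟩ := S.tr x a
    obtain ⟨g', h1, h2⟩ := S.arc a (g • y) b (hg ▸ S.inv g _ _ hxy) hab
    rw [sw_conj g, sw_conj g', hg, h1, h2]
  have d1 := dbl Eq k (fun g x y e => by rw [e]) fun x => by
    obtain ⟨g, hg⟩ := S.tr x a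
    rw [filter_eq, if_pos (mem_univ _), sum_singleton, sw_conj g, hg, s0]
  have d2 := dbl Γ.Adj (k * (Sw G a b).ncard) S.inv fun x => by
    rw [Finset.sum_const_nat fun y hy => s1 x y (mem_filter.1 hy).2, ← nc, S.deg]
  have d3 : #I = k + k * (Sw G a b).ncard + u * k * (Sw G a c).ncard := by
    have := fib a fun _ => True
    rw [filter_true, filter_true, split3 Γ a, s0,
      Finset.sum_const_nat fun y hy => s1 a y (mem_filter.1 hy).2,
      Finset.sum_const_nat (m := (Sw G a c).ncard), ← nc, ← nc, S.deg, S.cardL] at this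
    · exact this
    · intro y hy
      obtain ⟨g, h1, h2⟩ := S.narc a y c (mem_filter.1 hy).2 hac
      rw [sw_conj g, h1, h2]
  have e : {y : X | y = z • y} = {y : X | z • y = y} := by ext y; exact eq_comm
  rw [e] at d1
  have I0 : 0 < #I := by omega
  refine ⟨Nat.eq_of_mul_eq_mul_left I0 ?_, Nat.eq_of_mul_eq_mul_right k0 ?_,
    S.cardH a b hab ▸ sw_le a b, S.cardD a c hac ▸ sw_le a c⟩
  · rw [d2, ← mul_assoc, ← mul_assoc, d1]
  · rw [← d1, d3]
    ring

end H23.R3
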