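/- STD-R (S3323), jobs S2a and S2b: `t z` is conjugate to `t`; `C(t) ∩ C(L) = ⟨t⟩ × O`. -/
import Cfsg.Agent.H65.SRAux
import Cfsg.Agent.H98.Sylow

set_option autoImplicit false
set_option linter.unusedSectionVars false
set_option linter.unusedVariables false

open Subgroup H63.Oc H64.SG H65.SR
open scoped commutatorElement

universe u v

namespace H23.SRS

section Abs
variable {G : Type*} [Group G] [Finite G] {L : Subgroup G} {t : G}

/-- the group theoretic part of the hypothesis -/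
structure St (L : Subgroup G) (t : G) : Prop where
  inv : Inv2 t
  cen : t ∈ Cs L
  nrm : Cz t ≤ Ns L
  out : ∀ g ∈ Ns L, Is2 g → ∃ l ∈ L, l⁻¹ * g ∈ Cs L
  cyc : ∀ R : Subgroup G, R ≤ Cs L → IsPGroup 2 R → IsCyclic R
  z1 : L ⊓ Cs L = ⊥

theorem St.one (h : St L t) {x : G} (h1 : x ∈ L) (h2 : x ∈ Cs L) : x = 1 :=
  mem_bot.1 (h.z1 ▸ mem_inf.2 ⟨h1, h2⟩)

theorem St.Lt (h : St L t) : L ≤ Cz t := fun g hg => mem_Cz.2 (mem_Cs.1 h.cen g hg)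

theorem St.tt (h : St L t) (g : G) : t * (t * g) = g := by rw [← mul_assoc, h.inv.1, one_mul]

theorem St.tcz (h : St L t) : t ∈ Cz t := mem_Cz.2 rfl

theorem St.pow_one (h : St L t) {l c : G} (hl : l ∈ L) (hc : c ∈ Cs L) {n : ℕ} (e : (l * c) ^ n = 1) :
    l ^ n = 1 ∧ c ^ n = 1 := by
  rw [Commute.mul_pow (mem_Cs.1 hc l hl)] at e
  have h1 : l ^ n = (c ^ n)⁻¹ := eq_inv_of_mul_eq_one_left e
  have h2 : l ^ n = 1 := h.one (pow_mem hl n) (h1 ▸ inv_mem (pow_mem hc n))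
  exact ⟨h2, by rwa [h2, one_mul] at e⟩

theorem St.dec (h : St L t) {g : G} (hg : g ∈ Cz t) (h2 : Is2 g) :
    ∃ l ∈ L, ∃ c ∈ Cs L, c ∈ Cz t ∧ g = l * c := by
  obtain ⟨l, hl, hc⟩ := h.out g (h.nrm hg) h2
  exact ⟨l, hl, _, hc, mul_mem (inv_mem (h.Lt hl)) hg, by group⟩

/-- the projection of `X ≤ A × B` to `B` -/
def pr (A B X : Subgroup G) (h : A ≤ Cs B) : Subgroup G where
  carrier := {c | c ∈ B ∧ ∃ l ∈ A, l * c ∈ X}
  one_mem' := ⟨one_mem _, 1, one_mem _, by simp⟩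
  mul_mem' := fun {a b} ⟨ha, l, hl, ha'⟩ ⟨hb, l', hl', hb'⟩ => ⟨mul_mem ha hb, l * l', mul_mem hl hl', by
    have := mul_mem ha' hb'
    rwa [mul_assoc, ← mul_assoc a, mem_Cs.1 (h hl') a ha, mul_assoc, ← mul_assoc] at this⟩
  inv_mem' := fun {a} ⟨ha, l, hl, ha'⟩ => ⟨inv_mem ha, l⁻¹, inv_mem hl, by
    have := inv_mem ha'
    rwa [← mem_Cs.1 (h hl) a ha, mul_inv_rev] at this⟩

theorem St.prK (h : St L t) {X : Subgroup G} (hX : IsPGroup 2 X) (hXt : X ≤ Cz t) :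
    ∃ Y : Subgroup G, Y ≤ Cs L ⊓ Cz t ∧ IsPGroup 2 Y ∧ ∀ l ∈ L, ∀ c ∈ Cs L, l * c ∈ X → c ∈ Y := by
  refine ⟨pr L (Cs L) X (cs_symm le_rfl), ?_, two_of_is2 ?_, fun l hl c hc e => ⟨hc, l, hl, e⟩⟩
  · rintro c ⟨hc, l, hl, e⟩
    exact ⟨hc, by simpa using mul_mem (inv_mem (h.Lt hl)) (hXt e)⟩
  · rintro c ⟨hc, l, hl, e⟩
    obtain ⟨k, hk⟩ := is2_of_mem hX e
    exact ⟨k, (h.pow_one hl hc hk).2⟩

theorem St.prL (h : St L t) {X M : Subgroup G} (hX : IsPGroup 2 X) (hXM : X ≤ M) (hM : Cs L ≤ M) :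
    ∃ Y : Subgroup G, Y ≤ L ⊓ M ∧ IsPGroup 2 Y ∧ ∀ l ∈ L, ∀ c ∈ Cs L, l * c ∈ X → l ∈ Y := by
  refine ⟨pr (Cs L) L X le_rfl, ?_, two_of_is2 ?_,
    fun l hl c hc e => ⟨hl, c, hc, by rwa [← mem_Cs.1 hc l hl]⟩⟩
  · rintro l ⟨hl, c, hc, e⟩
    exact ⟨hl, by simpa using mul_mem (inv_mem (hM hc)) (hXM e)⟩
  · rintro l ⟨hl, c, hc, e⟩
    rw [← mem_Cs.1 hc l hl] at e
    obtain ⟨k, hk⟩ := is2_of_mem hX e
    exact ⟨k, (h.pow_one hl hc hk).1⟩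

theorem St.mem_sup (h : St L t) {R P : Subgroup G} (hR : R ≤ Cs L) (hP : P ≤ L) {x : G} :
    x ∈ R ⊔ P ↔ ∃ r ∈ R, ∃ u ∈ P, r * u = x :=
  mem_sup_ns (hR.trans ((cs_anti hP).trans cs_le_ns))

/-- Sylow subgroups of `C(t) ∩ M` -/
theorem St.syl (h : St L t) {R P M : Subgroup G} (hR : H98.IsSyl 2 R (Cs L ⊓ Cz t)) (hM : Cs L ≤ M)
    (hP : H98.IsSyl 2 P (L ⊓ M)) : H98.IsSyl 2 (R ⊔ P) (Cz t ⊓ M) := by
  have hRK : R ≤ Cs L := hR.le.trans inf_le_left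
  have hPL : P ≤ L := hP.le.trans inf_le_left
  refine ⟨sup_le (le_inf (hR.le.trans inf_le_right) (hRK.trans hM))
    (le_inf (hPL.trans h.Lt) (hP.le.trans inf_le_right)),
    two_sup hR.isPGroup hP.isPGroup (hRK.trans ((cs_anti hPL).trans cs_le_ns)), fun Q hQ h1 h2 => ?_⟩
  refine le_antisymm (fun x hx => ?_) h1
  obtain ⟨Y, hY, hY2, hYm⟩ := h.prK hQ (h2.trans inf_le_left)
  obtain ⟨Y', hY', hY2', hYm'⟩ := h.prL hQ (h2.trans inf_le_right) hM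
  have e1 : Y = R := hR.eq_of_le hY2 (fun r hr => hYm 1 (one_mem _) r (hRK hr)
    (by simpa using h1 (mem_sup_left hr))) hY
  have e2 : Y' = P := hP.eq_of_le hY2' (fun r hr => hYm' r (hPL hr) 1 (one_mem _)
    (by simpa using h1 (mem_sup_right hr))) hY'
  obtain ⟨l, hl, c, hc, -, rfl⟩ := h.dec (h2 hx).1 (is2_of_mem hQ hx)
  exact mul_mem (mem_sup_right (e2 ▸ hYm' l hl c hc hx)) (mem_sup_left (e1 ▸ hYm l hl c hc hx))

theorem cyc_inv {R : Subgroup G} (hR : IsCyclic R) {a b : G} (ha : a ∈ R) (hb : b ∈ R) (h1 : Inv2 a)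
    (h2 : Inv2 b) : a = b := by
  classical
  by_contra hne
  have := Fintype.ofFinite R
  have hc := IsCyclic.card_pow_eq_one_le (α := R) (n := 2) (by norm_num)
  have hs : ({1, ⟨a, ha⟩, ⟨b, hb⟩} : Finset R) ⊆ Finset.univ.filter fun x : R => x ^ 2 = 1 := by
    intro x hx
    simp only [Finset.mem_insert, Finset.mem_singleton] at hx
    rw [Finset.mem_filter]
    refine ⟨Finset.mem_univ _, ?_⟩
    rcases hx with rfl | rfl | rfl
    · simp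
    · exact Subtype.ext (by simpa [pow_two] using h1.1)
    · exact Subtype.ext (by simpa [pow_two] using h2.1)
  have h3 : ({1, ⟨a, ha⟩, ⟨b, hb⟩} : Finset R).card = 3 := Finset.card_eq_three.2
    ⟨_, _, _, fun e => h1.2 (congrArg Subtype.val e).symm, fun e => h2.2 (congrArg Subtype.val e).symm,
      fun e => hne (congrArg Subtype.val e), rfl⟩
  have := Finset.card_le_card hs
  omega

theorem St.invK (h : St L t) {c : G} (hc : c ∈ Cs L) (hct : c ∈ Cz t) (h2 : c * c = 1) :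
    c = 1 ∨ c = t := by
  by_cases h1 : c = 1
  · exact Or.inl h1
  · right
    have hn : zpowers t ≤ Ns (zpowers c) := zpowers_le.2 (cs_le_ns (mem_Cs.2 (by
      rintro _ ⟨k, rfl⟩
      exact ((show Commute c t from mem_Cz.1 hct).zpow_left k).eq)))
    exact cyc_inv (h.cyc (zpowers t ⊔ zpowers c) (sup_le (zpowers_le.2 h.cen) (zpowers_le.2 hc))
      (two_sup (two_zp h.inv.1) (two_zp h2) hn)) (mem_sup_right (mem_zpowers c))
      (mem_sup_left (mem_zpowers t)) ⟨h2, h1⟩ h.inv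

theorem St.invol (h : St L t) {x : G} (hx : x ∈ Cz t) (h2 : x * x = 1) : x ∈ L ∨ t * x ∈ L := by
  obtain ⟨l, hl, c, hc, hct, rfl⟩ := h.dec hx ⟨1, by simpa [pow_two] using h2⟩
  have := (h.pow_one hl hc (n := 2) (by rw [pow_two, h2])).2
  rcases h.invK hc hct (by rwa [pow_two] at this) with rfl | rfl
  · left; simpa using hl
  · right; rwa [mem_Cs.1 hc l hl, h.tt]

/-- F1 -/
theorem St.nT (h : St L t) (com : ∀ x ∈ L, Inv2 x → ∃ a ∈ L, ∃ b ∈ L, a ∈ Cz x ∧ b ∈ Cz x ∧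
    IsPGroup 2 (closure ({a, b} : Set G)) ∧ x = ⁅a, b⁆) (g : G) : g * t * g⁻¹ ∉ L := by
  intro hs
  obtain ⟨a, -, b, -, ha, hb, h2, e⟩ := com _ hs ⟨by
    simp only [mul_assoc, inv_mul_cancel_left, h.tt, mul_inv_cancel], fun e => h.inv.2 (by simpa using e)⟩
  have hX : cjs g⁻¹ (closure ({a, b} : Set G)) ≤ Cz t := by
    have : closure ({a, b} : Set G) ≤ Cz (g * t * g⁻¹) := (closure_le _).2 (by
      rintro x (rfl | rfl)
      exacts [ha, hb])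
    intro x hx
    have h1 := mem_Cz.1 (this (mem_cjs.1 hx))
    rw [mem_Cz]
    calc x * t = g⁻¹ * (g⁻¹⁻¹ * x * g⁻¹ * (g * t * g⁻¹)) * g := by group
      _ = t * x := by rw [h1]; group
  have hX2 : IsPGroup 2 (cjs g⁻¹ (closure ({a, b} : Set G))) := h2.map _
  have ma : g⁻¹ * a * g⁻¹⁻¹ ∈ cjs g⁻¹ (closure ({a, b} : Set G)) :=
    cj_mem_cjs (subset_closure (Or.inl rfl))
  have mb : g⁻¹ * b * g⁻¹⁻¹ ∈ cjs g⁻¹ (closure ({a, b} : Set G)) :=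
    cj_mem_cjs (subset_closure (Or.inr rfl))
  obtain ⟨Y, hY, hY2, hYm⟩ := h.prK hX2 hX
  obtain ⟨l, hl, c, hc, -, e1⟩ := h.dec (hX ma) (is2_of_mem hX2 ma)
  obtain ⟨l', hl', c', hc', -, e2⟩ := h.dec (hX mb) (is2_of_mem hX2 mb)
  have hcy := h.cyc Y (hY.trans inf_le_left) hY2
  have hcc : c * c' = c' * c := congrArg Subtype.val
    (hcy.isMulCommutative.is_comm.comm (⟨c, hYm l hl c hc (e1 ▸ ma)⟩ : Y) ⟨c', hYm l' hl' c' hc' (e2 ▸ mb)⟩)
  have et : t = ⁅l * c, l' * c'⁆ := by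
    rw [← e1, ← e2]
    calc t = g⁻¹ * (g * t * g⁻¹) * g := by group
      _ = _ := by rw [e]; simp only [commutatorElement_def]; group
  have k1 : c * (l' * c') * c⁻¹ = l' * c' := by
    rw [← mul_assoc, ← mem_Cs.1 hc l' hl', mul_assoc l', hcc]; group
  have k2 : c' * l⁻¹ * c'⁻¹ = l⁻¹ := cj_eq_of_cs hc' (inv_mem hl)
  have : t = ⁅l, l'⁆ := by
    rw [et]
    calc ⁅l * c, l' * c'⁆ = l * (c * (l' * c') * c⁻¹) * l⁻¹ * c'⁻¹ * l'⁻¹ := by
          simp only [commutatorElement_def]; group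
      _ = l * l' * (c' * l⁻¹ * c'⁻¹) * l'⁻¹ := by rw [k1]; group
      _ = _ := by rw [k2]; rfl
  exact h.inv.2 (h.one (this ▸ mul_mem (mul_mem (mul_mem hl hl') (inv_mem hl)) (inv_mem hl')) h.cen)

theorem St.tri (h : St L t) {N : Subgroup G} (hN : N ≤ Cz t) {a b c : G} (ha : t * a ∈ N)
    (hb : t * b ∈ N) (hc : t * c ∈ N) : t * (a * b * c) ∈ N := by
  have := mul_mem (mul_mem ha hb) hc
  have e : t * b * t = b := by rw [mem_Cz.1 (hN hb), h.tt]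
  have e2 : t * a * (t * b) * (t * c) = t * (a * (t * b * t) * c) := by group
  rwa [e2, e] at this

theorem St.exR (h : St L t) {c : G} (hc : c ∈ Cs L) (hct : c ∈ Cz t) (h2 : Is2 c) :
    ∃ R, H98.IsSyl 2 R (Cs L ⊓ Cz t) ∧ t ∈ R ∧ c ∈ R := by
  have hn : zpowers t ≤ Ns (zpowers c) := zpowers_le.2 (cs_le_ns (mem_Cs.2 (by
    rintro _ ⟨k, rfl⟩
    exact ((show Commute c t from mem_Cz.1 hct).zpow_left k).eq)))
  obtain ⟨k, hk⟩ := h2
  obtain ⟨R, hR, hle⟩ := H98.exists_isSyl_le (H := Cs L ⊓ Cz t)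
    (two_sup (two_zp h.inv.1) (H98.isPGroup_zpowers hk) hn)
    (sup_le (zpowers_le.2 ⟨h.cen, h.tcz⟩) (zpowers_le.2 ⟨hc, hct⟩))
  exact ⟨R, hR, hle (mem_sup_left (mem_zpowers t)), hle (mem_sup_right (mem_zpowers c))⟩

theorem cjs_cz' (g t : G) : cjs g (Cz t) = Cz (g * t * g⁻¹) := by
  ext x
  rw [mem_cjs, mem_Cz, mem_Cz]
  constructor
  · intro e
    calc x * (g * t * g⁻¹) = g * (g⁻¹ * x * g * t) * g⁻¹ := by group
      _ = _ := by rw [e]; group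
  · intro e
    calc g⁻¹ * x * g * t = g⁻¹ * (x * (g * t * g⁻¹)) * g := by group
      _ = _ := by rw [e]; group

/-- the complement -/
theorem St.compl (h : St L t) (two0 : ∀ c ∈ Cs L, c ∈ Cz t → Is2 c → c = 1 ∨ c = t) :
    ∃ O : Subgroup G, Odd (Nat.card O) ∧ Cz t ⊓ Cs L ≤ zpowers t ⊔ O ∧
      ∀ x, x ∈ O ↔ (x ∈ Cz t ∧ x ∈ Cs L) ∧ Odd (orderOf x) := by
  set D := Cz t ⊓ Cs L with hD
  have htD : zpowers t ≤ D := zpowers_le.2 ⟨h.tcz, h.cen⟩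
  have hs : H98.IsSyl 2 (zpowers t) D := ⟨htD, two_zp h.inv.1, fun Q hQ h1 h2 =>
    le_antisymm (fun x hx => by
      rcases two0 x (h2 hx).2 (h2 hx).1 (is2_of_mem hQ hx) with rfl | rfl
      exacts [one_mem _, mem_zpowers _]) h1⟩
  have hN : ((zpowers t).subgroupOf D).Normal := ⟨fun n hn g => by
    obtain ⟨k, hk⟩ := hn
    refine ⟨k, ?_⟩
    change t ^ k = (g : G) * n * (g : G)⁻¹
    have hk' : t ^ k = (n : G) := hk
    rw [← hk', ((show Commute (g : G) t from mem_Cz.1 g.2.1).zpow_right k).eq]; group⟩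
  have hidx : Odd ((zpowers t).subgroupOf D).index :=
    Nat.not_even_iff_odd.1 fun e => hs.not_dvd_relIndex e.two_dvd
  have hcard : Nat.card ((zpowers t).subgroupOf D) = 2 := by
    rw [Nat.card_congr (subgroupOfEquivOfLe htD).toEquiv, Nat.card_zpowers]
    exact orderOf_eq_prime (by rw [pow_two, h.inv.1]) h.inv.2
  obtain ⟨H, hH⟩ := exists_right_complement'_of_coprime (N := (zpowers t).subgroupOf D)
    (by rw [hcard]; exact Nat.coprime_two_left.2 hidx)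
  have hodd : Odd (Nat.card (H.map D.subtype)) := by
    rw [card_map_of_injective D.subtype_injective, ← hH.symm.index_eq_card]; exact hidx
  have hcc : D ≤ zpowers t ⊔ H.map D.subtype := fun x hx => by
    obtain ⟨⟨n, y⟩, e, -⟩ := IsComplement.existsUnique hH ⟨x, hx⟩
    have e' : ((n : D) : G) * ((y : D) : G) = x := congrArg Subtype.val e
    exact e' ▸ mul_mem_sup n.2 ⟨_, y.2, rfl⟩
  have hOD : H.map D.subtype ≤ D := map_subtype_le _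
  refine ⟨H.map D.subtype, hodd, hcc, fun x => ⟨fun hx => ⟨hOD hx, hodd.of_dvd_nat
    (Subgroup.orderOf_dvd_natCard _ hx)⟩, fun ⟨hx, ho⟩ => ?_⟩⟩
  have htn : t ∈ Ns (H.map D.subtype) := cs_le_ns (mem_Cs.2 fun y hy => mem_Cz.1 (hOD hy).1)
  refine ((mem_zp_sup h.inv.1 htn).1 (hcc hx)).resolve_right fun h1 => h.inv.2 ?_
  have ho' : Odd (orderOf (t * x)) := hodd.of_dvd_nat (Subgroup.orderOf_dvd_natCard _ h1)
  refine eq_one_of_odd ⟨1, by simpa [pow_two] using h.inv.1⟩ ((ho'.mul ho).of_dvd_nat ?_)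
  have hc : Commute (t * x) x⁻¹ :=
    (Commute.mul_left (show Commute t x from (mem_Cz.1 hx.1).symm) (Commute.refl x)).inv_right
  have := hc.orderOf_mul_dvd_mul_orderOf
  rwa [mul_inv_cancel_right, orderOf_inv] at this

/-- an element swapping `t` and `s ≠ t` has a `2`-power moving `t` -/
theorem two_mv {g s : G} (h1 : g * t * g⁻¹ = s) (h2 : g * s * g⁻¹ = t) (hne : s ≠ t) :
    ∃ m : ℕ, Is2 (g ^ m) ∧ g ^ m ∉ Cz t := by
  obtain ⟨k, m, ⟨j, rfl⟩, e⟩ := Nat.exists_eq_two_pow_mul_odd (orderOf_pos g).ne'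
  refine ⟨2 * j + 1, ⟨k, by rw [← pow_mul, mul_comm, ← e, pow_orderOf_eq_one]⟩, fun hm => hne ?_⟩
  have hg2 : g ^ 2 ∈ Cz t := mem_Cz.2 (by
    calc g ^ 2 * t = g * (g * t * g⁻¹) * g⁻¹ * g ^ 2 := by rw [pow_two]; group
      _ = _ := by rw [h1, h2])
  have hg : g ∈ Cz t := by
    have := mul_mem (inv_mem (pow_mem hg2 j)) hm
    rwa [← pow_mul, pow_succ g (2 * j), inv_mul_cancel_left] at this
  rw [← h1, mem_Cz.1 hg, mul_inv_cancel_right]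

end Abs

section Con
variable {K : Type*} [Field K] [Fintype K] [CharP K 2] {T : TF K} {G : Type*} [Group G] [Finite G]
  {A : AD T G} {t : G}

theorem st_of (h : Pre A t) (la : LA A) : St A.G0 t := ⟨h.inv, h.cen, h.nrm, h.out, h.cyc, la.cen⟩

theorem sylU (h : Pre A t) (la : LA A) : H98.IsSyl 2 A.S (A.G0 ⊓ ⊤) :=
  ⟨le_inf (S_le A) le_top, la.twoU, fun Q hQ h1 h2 => by
    obtain ⟨g, -, hg⟩ := h.syl Q (h2.trans inf_le_left) hQ
    have hle : cjs g Q ≤ A.S := by rintro _ ⟨x, hx, rfl⟩; exact hg x hx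
    have := card_le_of_le hle
    rw [card_cjs] at this
    exact (eq_of_le_of_card_ge h1 this).symm⟩

theorem sylS (h : Pre A t) (la : LA A) {R : Subgroup G} (hR : H98.IsSyl 2 R (Cs A.G0 ⊓ Cz t)) :
    H98.IsSyl 2 (R ⊔ A.S) (Cz t) := by
  simpa only [inf_top_eq] using (st_of h la).syl hR le_top (sylU h la)

theorem x4_sq (a : K) : A.ι (x4 T a) * A.ι (x4 T a) = 1 := by
  rw [← map_mul, ← x4_add, CharTwo.add_self_eq_zero, x4_zero, map_one]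

theorem x4_ne {a : K} (ha : a ≠ 0) : A.ι (x4 T a) ≠ 1 := fun e =>
  ha (congrArg Co.a4 ((ι_eq_one A).1 e))

theorem x4_memZ (a : K) : A.ι (x4 T a) ∈ A.im (sZ T) := (ι_mem_im A).2 (by simp)

theorem s2a (h : Pre A t) (la : LA A) : ∃ g, g * t * g⁻¹ = t * A.ι (x4 T 1) := by
  have st := st_of h la
  have nT := st.nT la.com
  by_contra hn
  push Not at hn
  -- conjugation by elements of `L`
  have cjL : ∀ g ∈ A.G0, ∀ y, g * (t * y) * g⁻¹ = t * (g * y * g⁻¹) := fun g hg y => by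
    rw [← mul_assoc, mem_Cz.1 (st.Lt hg)]; group
  have tr : ∀ {g k y : G}, k ∈ A.G0 → g * t * g⁻¹ = t * y → k * g * t * (k * g)⁻¹ = t * (k * y * k⁻¹) :=
    fun {g k y} hk e => by rw [← cjL k hk, ← e]; group
  -- `s = t x₅(1)` is conjugate to `t`
  obtain ⟨g5, h5⟩ : ∃ g, g * t * g⁻¹ = t * A.ι (x5 T 1) := by
    obtain ⟨g, hg1, hg2⟩ := h.zs
    have hsq : g * t * g⁻¹ * (g * t * g⁻¹) = 1 := by
      simp only [mul_assoc, inv_mul_cancel_left, st.tt, mul_inv_cancel]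
    have hl := (st.invol hg2 hsq).resolve_left (nT g)
    obtain ⟨k, hk, e⟩ := la.cls _ hl ⟨by
      rw [mul_assoc, ← mul_assoc (g * t * g⁻¹), mem_Cz.1 hg2, mul_assoc t, hsq, mul_one, h.inv.1],
      fun e => hg1 (by rw [← st.tt (g * t * g⁻¹), e, mul_one])⟩
    have := tr hk (st.tt (g * t * g⁻¹)).symm
    rcases e with e | e
    · exact absurd (e ▸ this) (hn _)
    · exact ⟨_, e ▸ this⟩
  have n4 : ∀ a : K, a ≠ 0 → ∀ g, g * t * g⁻¹ ≠ t * A.ι (x4 T a) := fun a ha g e => by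
    obtain ⟨p, hp⟩ := la.cl4 a ha
    exact hn _ (hp ▸ tr (h_mem A p) e)
  have y5 : ∀ a b : K, b ≠ 0 → ∃ g, g * t * g⁻¹ = t * A.ι (x4 T a * x5 T b) := fun a b hb => by
    obtain ⟨k, hk, e⟩ := la.cl5 a b hb
    refine ⟨_, (tr (inv_mem hk) h5).trans ?_⟩
    rw [← e]; group
  obtain ⟨R, hR, htR, -⟩ := st.exR h.cen st.tcz ⟨1, by simpa [pow_two] using h.inv.1⟩
  have hRK : R ≤ Cs A.G0 := hR.le.trans inf_le_left
  have hM : ∀ a b : K, A.ι (x4 T a * x5 T b) ∈ A.im (sT5 T) ⊓ Cs (A.im (sT5 T)) :=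
    fun a b => (la.o5 _).2 ⟨a, b, rfl⟩
  have e5 : x4 T 0 * x5 T 1 = x5 T 1 := by rw [x4_zero, one_mul]
  have hT5 : A.im (sT5 T) ≤ Cz (A.ι (x5 T 1)) := fun y hy => mem_Cz.2 (mem_Cs.1 (e5 ▸ (hM 0 1).2) y hy)
  have hP : H98.IsSyl 2 (R ⊔ A.im (sT5 T)) (Cz t ⊓ Cz (A.ι (x5 T 1))) :=
    st.syl hR (fun c hc => mem_Cz.2 (mem_Cs.1 hc _ (ι_mem A _)).symm)
      ⟨le_inf (im_le A _) hT5, la.two_im _, fun Q hQ h1 h2 => la.syl5 Q hQ h1 h2⟩
  set P := R ⊔ A.im (sT5 T) with hPd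
  have hPt : P ≤ Cz t := hP.le.trans inf_le_left
  have hPs : P ≤ Cz (t * A.ι (x5 T 1)) := fun y hy => mem_Cz.2 (by
    rw [← mul_assoc, mem_Cz.1 (hPt hy), mul_assoc, mem_Cz.1 (hP.le hy).2, mul_assoc])
  obtain ⟨Q, hQ, hPQ⟩ := H98.exists_isSyl_le hP.isPGroup hPs
  have hlt : P < Q := by
    refine lt_of_le_of_ne hPQ fun e => ?_
    have h1 : Nat.card (cjs g5 (R ⊔ A.S)) ≤ Nat.card Q := hQ.card_le ((sylS h la hR).isPGroup.map _)
      (by rw [← h5, ← cjs_cz']; exact cjs_mono (sylS h la hR).le)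
    rw [card_cjs, ← e] at h1
    have h2 : P = R ⊔ A.S := eq_of_le_of_card_ge (sup_le_sup_left (im_le_S A _) _) h1
    have h3 : A.ι (y2 T 1) ∈ P := h2 ▸ mem_sup_right ⟨_, rfl⟩
    obtain ⟨r, hr, u, hu, e'⟩ := (st.mem_sup hRK (im_le A _)).1 h3
    have : r = 1 := st.one (by
      rw [eq_mul_inv_of_mul_eq e']; exact mul_mem (ι_mem A _) (inv_mem (im_le A _ hu))) (hRK hr)
    rw [this, one_mul] at e'
    exact one_ne_zero (α := K) ((mem_sT5 T).1 ((ι_mem_im A).1 (e' ▸ hu))).1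
  obtain ⟨x, ⟨hxQ, hxN⟩, hxP⟩ := SetLike.exists_of_lt (H98.lt_inf_normalizer hQ.isPGroup hlt)
  refine hxP ?_
  suffices hxt : x ∈ Cz t by
    have : Q ⊓ Cz t = P := hP.eq_of_le hQ.isPGroup.to_inf_left (le_inf hPQ hPt) fun y hy =>
      ⟨hy.2, mem_Cz.2 (by
        have := mem_Cz.1 (hQ.le hy.1)
        rw [← mul_assoc, mem_Cz.1 hy.2, mul_assoc, mul_assoc] at this
        exact mul_left_cancel this)⟩
    exact this ▸ mem_inf.2 ⟨hxQ, hxt⟩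
  set M := A.im (sT5 T) ⊓ Cs (A.im (sT5 T)) with hMd
  have hMt : M ≤ Cz t := inf_le_left.trans ((im_le A _).trans st.Lt)
  have hZ : ∀ a b : K, t * A.ι (x4 T a * x5 T b) ∈ P ⊓ Cs P := fun a b =>
    mul_mem ⟨mem_sup_left htR, mem_Cs.2 fun y hy => mem_Cz.1 (hPt hy)⟩
      ⟨mem_sup_right (hM a b).1, cs_sup (mem_Cs.2 fun r hr => (mem_Cs.1 (hRK hr) _ (ι_mem A _)).symm)
        (hM a b).2⟩
  -- the conjugates of `t` in `Z(P)` lie in `t M`
  have hΔ : ∀ g, g * t * g⁻¹ ∈ P ⊓ Cs P → t * (g * t * g⁻¹) ∈ M := fun g hg => by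
    have hsq : g * t * g⁻¹ * (g * t * g⁻¹) = 1 := by
      simp only [mul_assoc, inv_mul_cancel_left, st.tt, mul_inv_cancel]
    have hl := (st.invol (hPt hg.1) hsq).resolve_left (nT g)
    obtain ⟨r, hr, u, hu, e'⟩ := (st.mem_sup hRK (im_le A _)).1 (mul_mem (mem_sup_left htR) hg.1)
    have : r = 1 := st.one (by
      rw [eq_mul_inv_of_mul_eq e']; exact mul_mem hl (inv_mem (im_le A _ hu))) (hRK hr)
    rw [this, one_mul] at e'
    exact ⟨e' ▸ hu, mul_mem (cs_anti (im_le A _) h.cen) (cs_anti le_sup_right hg.2)⟩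
  have hxZ : x ∈ Ns (P ⊓ Cs P) := ns_inf hxN (ns_cs hxN)
  have hf : ∀ a b : K, (∃ g, g * t * g⁻¹ = t * A.ι (x4 T a * x5 T b)) →
      t * (x * (t * A.ι (x4 T a * x5 T b)) * x⁻¹) ∈ M := by
    rintro a b ⟨g, e⟩
    have := hΔ (x * g) (by
      have := cj_mem hxZ (hZ a b)
      rw [← e] at this
      convert this using 1; group)
    rw [← e]
    convert this using 2; group
  have e0 : t * A.ι (x4 T 0 * x5 T 0) = t := by rw [x4_zero, x5_zero, one_mul, map_one, mul_one]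
  have ctr : ∀ a b c : G, x * a * x⁻¹ * (x * b * x⁻¹) * (x * c * x⁻¹) = x * (a * b * c) * x⁻¹ :=
    fun a b c => by group
  have tw : ∀ c d : Co T, t * A.ι c * (t * A.ι d) = A.ι (c * d) := fun c d => by
    rw [mul_assoc, ← mul_assoc (A.ι c), mem_Cz.1 (st.Lt (ι_mem A c)), mul_assoc, st.tt, map_mul]
  have hV : ∀ a : K, a ≠ 0 → t * (x * (t * A.ι (x4 T a)) * x⁻¹) ∈ A.im (sZ T) := fun a ha => by
    have h1 := st.tri hMt (hf 0 0 ⟨1, by rw [e0]; group⟩) (hf 0 1 (y5 _ _ one_ne_zero))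
      (hf a 1 (y5 _ _ one_ne_zero))
    rw [ctr, e0, mul_assoc t, tw, show x4 T 0 * x5 T 1 * (x4 T a * x5 T 1) = x4 T a by
      ext <;> simp [CharTwo.add_self_eq_zero]] at h1
    obtain ⟨a', b', e⟩ := (la.o5 _).1 h1
    by_cases hb : b' = 0
    · rw [e, hb, x5_zero, mul_one]; exact x4_memZ _
    · obtain ⟨g, hg⟩ := y5 a' b' hb
      rw [← e, st.tt] at hg
      refine absurd ?_ (n4 a ha (x⁻¹ * g))
      calc x⁻¹ * g * t * (x⁻¹ * g)⁻¹ = x⁻¹ * (g * t * g⁻¹) * x := by group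
        _ = _ := by rw [hg]; group
  obtain ⟨s, hs⟩ := exists_s (T := T) h.card
  have s0 : s ≠ 0 := by rintro rfl; simp at hs
  have s1 : 1 + s ≠ 0 := fun e => hs (by
    have : s = 1 := by grind
    rw [this, map_one])
  have h1 := st.tri ((im_le A _).trans st.Lt) (hV 1 one_ne_zero) (hV s s0) (hV _ s1)
  rw [ctr, tw, ← mul_assoc (A.ι _), mem_Cz.1 (st.Lt (ι_mem A _)), mul_assoc t, ← map_mul, ← x4_add,
    ← x4_add, CharTwo.add_self_eq_zero, x4_zero, map_one, mul_one] at h1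
  obtain ⟨c, hc, e⟩ := h1
  rw [eq_x4 hc] at e
  by_cases h0 : c.a4 = 0
  · rw [h0, x4_zero, map_one] at e
    have : x * t * x⁻¹ = t := by rw [← st.tt (x * t * x⁻¹), ← e, mul_one]
    exact mem_Cz.2 (mul_inv_eq_iff_eq_mul.1 this)
  · exact absurd (by rw [e, st.tt]) (n4 _ h0 x)

/-- an element normalising `R U` and moving `t` to `t z` -/
theorem ex_g0 (h : Pre A t) (la : LA A) {g : G} (hg : g * t * g⁻¹ = t * A.ι (x4 T 1)) {R : Subgroup G}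
    (hR : H98.IsSyl 2 R (Cs A.G0 ⊓ Cz t)) :
    ∃ g₀ ∈ Ns (R ⊔ A.S), g₀ * t * g₀⁻¹ = t * A.ι (x4 T 1) := by
  have hS := sylS h la hR
  have hz : A.ι (x4 T 1) ∈ Cs A.S := (la.zU.ge (x4_memZ 1)).2
  have h1 : H98.IsSyl 2 (cjs g (R ⊔ A.S)) (Cz (t * A.ι (x4 T 1))) := by
    rw [← hg, ← cjs_cz']; exact hS.cj g
  have hz' : A.ι (x4 T 1) ∈ Cs (R ⊔ A.S) :=
    cs_sup (mem_Cs.2 fun r hr => (mem_Cs.1 (hR.le hr).1 _ (ι_mem A _)).symm) hz
  have h2 : H98.IsSyl 2 (R ⊔ A.S) (Cz (t * A.ι (x4 T 1))) := h1.of_card_ge hS.isPGroup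
    (fun y hy => mem_Cz.2 (by
      rw [← mul_assoc, mem_Cz.1 (hS.le hy), mul_assoc, mem_Cs.1 hz' y hy, mul_assoc])) card_cjs.le
  obtain ⟨k, hk, e⟩ := h1.exists_cj_eq h2
  refine ⟨k * g, H98.cj_eq_self_iff.1 (by rw [← H98.cj_cj]; exact e), ?_⟩
  calc k * g * t * (k * g)⁻¹ = k * (g * t * g⁻¹) * k⁻¹ := by group
    _ = _ := by rw [hg, mem_Cz.1 hk, mul_inv_cancel_right]

theorem nosq (h : Pre A t) (la : LA A) {g : G} (hg : g * t * g⁻¹ = t * A.ι (x4 T 1)) {r : G}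
    (hr : r ∈ Cs A.G0) : r * r ≠ t := by
  intro e
  have st := st_of h la
  obtain ⟨R, hR, htR, hrR⟩ := st.exR hr (mem_Cz.2 (by rw [← e, mul_assoc]))
    ⟨2, by rw [show r ^ 2 ^ 2 = r * r * (r * r) by rw [← pow_two, ← pow_two, ← pow_mul]; rfl, e, h.inv.1]⟩
  have hRK : R ≤ Cs A.G0 := hR.le.trans inf_le_left
  obtain ⟨g₀, hN, e0⟩ := ex_g0 h la hg hR
  have hcy := h.cyc R hRK hR.isPGroup
  have hrZ : r ∈ (R ⊔ A.S) ⊓ Cs (R ⊔ A.S) := ⟨mem_sup_left hrR, cs_sup (mem_Cs.2 fun y hy =>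
    congrArg Subtype.val (hcy.isMulCommutative.is_comm.comm (⟨y, hy⟩ : R) ⟨r, hrR⟩)) (cs_anti (S_le A) hr)⟩
  have h1 := cj_mem (ns_inf hN (ns_cs hN)) hrZ
  obtain ⟨r', hr', u, hu, e'⟩ := (st.mem_sup hRK (S_le A)).1 h1.1
  have hu' : u ∈ A.im (sZ T) := la.zU.le ⟨S_le A hu, by
    have := mul_mem (inv_mem (cs_anti (S_le A) (hRK hr'))) (cs_anti le_sup_right h1.2)
    rwa [← e', inv_mul_cancel_left] at this⟩
  have huu : u * u = 1 := by
    obtain ⟨c, hc, rfl⟩ := hu'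
    rw [eq_x4 hc]; exact x4_sq _
  have h2 : r' * r' = t * A.ι (x4 T 1) := by
    rw [← e0, ← e]
    calc r' * r' = r' * (r' * u) * u := by rw [mul_assoc, mul_assoc, huu, mul_one]
      _ = r' * (u * r') * u := by rw [← mem_Cs.1 (hRK hr') u (S_le A hu)]
      _ = r' * u * (r' * u) := by group
      _ = _ := by rw [e']; group
  refine x4_ne one_ne_zero (st.one (ι_mem A (x4 T 1)) ?_)
  rw [← st.tt (A.ι _), ← h2]
  exact mul_mem h.cen (mul_mem (hRK hr') (hRK hr'))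

theorem s2b (h : Pre A t) (la : LA A) (nT : ∀ g, g * t * g⁻¹ ∉ A.G0) {g : G}
    (hg : g * t * g⁻¹ = t * A.ι (x4 T 1)) : ∃ O, Cf0 A t O := by
  have st := st_of h la
  have two0 : ∀ c ∈ Cs A.G0, c ∈ Cz t → Is2 c → c = 1 ∨ c = t := by
    rintro c hc hct ⟨k, hk⟩
    induction k generalizing c with
    | zero => left; simpa using hk
    | succ k ih =>
      exact st.invK hc hct ((ih (c * c) (mul_mem hc hc) (mul_mem hct hct) (by
        rw [← pow_two, ← pow_mul, ← pow_succ', hk])).resolve_right (nosq h la hg hc))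
  obtain ⟨O, hodd, hcc, hO⟩ := st.compl two0
  have hord : ∀ k x : G, orderOf (k * x * k⁻¹) = orderOf x := fun k x =>
    (MulAut.conj k).orderOf_eq x
  have hR : H98.IsSyl 2 (zpowers t) (Cs A.G0 ⊓ Cz t) :=
    ⟨zpowers_le.2 ⟨h.cen, st.tcz⟩, two_zp h.inv.1, fun Q hQ h1 h2 => le_antisymm (fun x hx => by
      rcases two0 x (h2 hx).1 (h2 hx).2 (is2_of_mem hQ hx) with rfl | rfl
      exacts [one_mem _, mem_zpowers _]) h1⟩
  obtain ⟨g₀, hN, e0⟩ := ex_g0 h la hg hR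
  set E := zpowers t ⊔ A.S with hE
  have hEt : E ≤ Cz t := (sylS h la hR).le
  have hEO : Ns E ≤ Ns O := fun k hk => mem_ns_of fun y hy => by
    obtain ⟨⟨h1, h2⟩, h3⟩ := (hO y).1 hy
    have hy' : y ∈ Cs E := cs_sup (mem_Cs.2 (by
      rintro _ ⟨k, rfl⟩
      exact ((show Commute y t from mem_Cz.1 h1).zpow_right k).eq.symm)) (cs_anti (S_le A) h2)
    have h4 := cj_mem (ns_cs hk) hy'
    have h5 : k * y * k⁻¹ ∈ Cz t := mem_Cz.2 (mem_Cs.1 h4 t (mem_sup_left (mem_zpowers t))).symm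
    have h6 : Odd (orderOf (k * y * k⁻¹)) := by rwa [hord]
    exact (hO _).2 ⟨⟨h5, la.rigL _ (h.nrm h5) h6 (cs_anti ((im_le_S A _).trans le_sup_right) h4)⟩, h6⟩
  refine ⟨O, h.toBs, h.inv, h.cen, h.nrm, hodd, fun x hx => ((hO x).1 hx).1.1,
    fun x hx => ((hO x).1 hx).1.2, hcc, fun k hk => mem_ns_of fun y hy => ?_, fun x hx h2 => ?_, ?_⟩
  · obtain ⟨⟨h1, h2⟩, h3⟩ := (hO y).1 hy
    exact (hO _).2 ⟨⟨mul_mem (mul_mem hk h1) (inv_mem hk), cj_mem (ns_cs (h.nrm hk)) h2⟩, by rwa [hord]⟩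
  · obtain ⟨l, hl, c, hc, hct, rfl⟩ := st.dec hx h2
    obtain ⟨k, hk⟩ := h2
    rcases two0 c hc hct ⟨k, (st.pow_one hl hc hk).2⟩ with rfl | rfl
    · left; simpa using hl
    · right; rwa [mem_Cs.1 hc l hl, st.tt]
  · have htZ : t ∈ E ⊓ Cs E := ⟨mem_sup_left (mem_zpowers t), mem_Cs.2 fun y hy => mem_Cz.1 (hEt hy)⟩
    have h1 := cj_mem (inv_mem (ns_inf hN (ns_cs hN))) htZ
    have hsq : g₀⁻¹ * t * g₀⁻¹⁻¹ * (g₀⁻¹ * t * g₀⁻¹⁻¹) = 1 := by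
      simp only [mul_assoc, inv_mul_cancel_left, st.tt, mul_inv_cancel]
    have hl := (st.invol (hEt h1.1) hsq).resolve_left (nT _)
    obtain ⟨c, hc, e⟩ := la.zU.le ⟨hl, mul_mem (cs_anti (S_le A) h.cen) (cs_anti le_sup_right h1.2)⟩
    rw [eq_x4 hc] at e
    have hne : t * A.ι (x4 T 1) ≠ t := fun e => x4_ne one_ne_zero (mul_eq_left.1 e)
    have h0 : c.a4 ≠ 0 := fun h0 => hne (by
      rw [h0, x4_zero, map_one] at e
      have : g₀⁻¹ * t * g₀⁻¹⁻¹ = t := by rw [← st.tt (g₀⁻¹ * t * g₀⁻¹⁻¹), ← e, mul_one]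
      rw [← e0]
      calc g₀ * t * g₀⁻¹ = g₀ * (g₀⁻¹ * t * g₀⁻¹⁻¹) * g₀⁻¹ := by rw [this]
        _ = t := by group)
    obtain ⟨p, hp⟩ := la.cl4 _ h0
    have hpt : A.h p * t = t * A.h p := mem_Cz.1 (st.Lt (h_mem A p))
    have hpE : A.h p ∈ Ns E := ns_sup (cs_le_ns (mem_Cs.2 (by
      rintro _ ⟨k, rfl⟩
      exact ((show Commute (A.h p) t from hpt).zpow_right k).eq.symm))) (by
        have := la.hN ⊤ (by simp) ⟨p, rfl⟩
        rwa [show A.im ⊤ = A.S from (MonoidHom.range_eq_map _).symm] at this)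
    obtain ⟨m, hm2, hm⟩ := two_mv (t := t) (g := A.h p * g₀⁻¹) (s := t * A.ι (x4 T 1)) (by
      calc A.h p * g₀⁻¹ * t * (A.h p * g₀⁻¹)⁻¹ = A.h p * (t * (t * (g₀⁻¹ * t * g₀⁻¹⁻¹))) * (A.h p)⁻¹ := by
            rw [st.tt]; group
        _ = _ := by rw [← e, ← mul_assoc, hpt, ← hp]; group) (by
      rw [← e0]
      calc A.h p * g₀⁻¹ * (g₀ * t * g₀⁻¹) * (A.h p * g₀⁻¹)⁻¹ = A.h p * t * (A.h p)⁻¹ := by group
        _ = t := by rw [hpt, mul_inv_cancel_right]) hne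
    have hgE := pow_mem (mul_mem hpE (inv_mem hN)) m
    exact ⟨_, hm2, hEO hgE, hgE, hm⟩

end Con

theorem jobS2a : JobS2a.{u, v} := fun kit K _ _ _ T G _ _ A t h la =>
  ⟨(st_of h la).nT la.com, s2a h la⟩

theorem jobS2b : JobS2b.{u, v} := fun kit K _ _ _ T G _ _ A t h la nT ⟨g, hg⟩ => s2b h la nT hg

end H23.SRS
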