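import Cfsg.Agent.H12.Linearize

/-! Facts on an elementary abelian group of order eight. -/

set_option autoImplicit false

namespace H23.ST

/-- The model. -/
abbrev M8 : Type := Multiplicative (Fin 3 → ZMod 2)

/-- A vector. -/
abbrev v8 (a b c : ZMod 2) : M8 := Multiplicative.ofAdd ![a, b, c]

/-- A Singer cycle. -/
def ξ8 : MulAut M8 where
  toFun v := v8 (v.toAdd 2) (v.toAdd 0 + v.toAdd 2) (v.toAdd 1)
  invFun v := v8 (v.toAdd 0 + v.toAdd 1) (v.toAdd 2) (v.toAdd 0)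
  left_inv := by decide +kernel
  right_inv := by decide +kernel
  map_mul' := by decide +kernel

/-- An element of order four. -/
def σ8 : MulAut M8 where
  toFun v := v8 (v.toAdd 0 + v.toAdd 1) (v.toAdd 1 + v.toAdd 2) (v.toAdd 2)
  invFun v := v8 (v.toAdd 0 + v.toAdd 1 + v.toAdd 2) (v.toAdd 1 + v.toAdd 2) (v.toAdd 2)
  left_inv := by decide +kernel
  right_inv := by decide +kernel
  map_mul' := by decide +kernel

/-- An element of order three. -/
def ρ8 : MulAut M8 where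
  toFun v := v8 (v.toAdd 0) (v.toAdd 2) (v.toAdd 1 + v.toAdd 2)
  invFun v := v8 (v.toAdd 0) (v.toAdd 1 + v.toAdd 2) (v.toAdd 1)
  left_inv := by decide +kernel
  right_inv := by decide +kernel
  map_mul' := by decide +kernel

/-- The endomorphism with given values on the basis. -/
def lin8 (p q r v : M8) : M8 := p ^ (v.toAdd 0).val * q ^ (v.toAdd 1).val * r ^ (v.toAdd 2).val

theorem lin8_id : ∀ v, lin8 (v8 1 0 0) (v8 0 1 0) (v8 0 0 1) v = v := by decide +kernel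

set_option synthInstance.maxSize 1024 in
theorem lin8_sc : ∀ p q r : M8,
    ((∀ v, σ8 (lin8 p q r v) = lin8 p q r (σ8 v)) ∨ ∀ v, σ8 (lin8 p q r v) = lin8 p q r (σ8 v) * σ8 v) →
    ((∀ v, ρ8 (lin8 p q r v) = lin8 p q r (ρ8 v)) ∨ ∀ v, ρ8 (lin8 p q r v) = lin8 p q r (ρ8 v) * ρ8 v) →
    (∀ v, lin8 p q r v = 1) ∨ ∀ v, lin8 p q r v = v := by decide +kernel

theorem ξ8_poly : ∀ v, ξ8 (ξ8 (ξ8 v)) = ξ8 v * v := by decide +kernel

theorem ξ8_trans : ∀ v w : M8, v ≠ 1 → w ≠ 1 → ∃ n : Fin 7, ξ8^[n] v = w := by decide +kernel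

variable {V : Type*} [Group V] [Finite V] (h2 : ∀ a : V, a * a = 1) (h8 : Nat.card V = 8)
include h2 h8

theorem exists_m8 : Nonempty (V ≃* M8) :=
  have := Fact.mk Nat.prime_two
  H12.nonempty_mulEquiv_fun (fun a b => by
    rw [← inv_eq_of_mul_eq_one_right (h2 (a * b)), mul_inv_rev, inv_eq_of_mul_eq_one_right (h2 a),
      inv_eq_of_mul_eq_one_right (h2 b)]) (fun a => by rw [sq, h2]) (n := 3) h8

theorem exists_singer : ∃ ξ : MulAut V, (∀ v, ξ (ξ (ξ v)) = ξ v * v) ∧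
    ∀ v w, v ≠ 1 → w ≠ 1 → ∃ n : ℕ, (ξ ^ n) v = w := by
  obtain ⟨c⟩ := exists_m8 h2 h8
  refine ⟨c.trans (ξ8.trans c.symm), fun v => by simp [ξ8_poly], fun v w hv hw => ?_⟩
  obtain ⟨n, hn⟩ := ξ8_trans (c v) (c w) (by simpa using hv) (by simpa using hw)
  refine ⟨n, c.injective (hn ▸ ?_)⟩
  generalize (n : ℕ) = k
  induction k with
  | zero => rfl
  | succ k ih => rw [pow_succ', MulAut.mul_apply, Function.iterate_succ_apply', ← ih]; simp

theorem scalar8 {z : V} (hz : z ≠ 1) (φ : V →* V)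
    (h : ∀ ψ : MulAut V, ψ z = z → (∀ v, ψ (φ v) = φ (ψ v)) ∨ ∀ v, ψ (φ v) = φ (ψ v) * ψ v) :
    (∀ v, φ v = 1) ∨ ∀ v, φ v = v := by
  obtain ⟨c, hc⟩ : ∃ c : V ≃* M8, c z = v8 1 0 0 := by
    obtain ⟨c⟩ := exists_m8 h2 h8
    obtain ⟨ξ, -, hξ⟩ := exists_singer h2 h8
    obtain ⟨n, hn⟩ := hξ z (c.symm (v8 1 0 0)) hz (by
      rw [Ne, map_eq_one_iff _ c.symm.injective]; decide)
    exact ⟨(ξ ^ n).trans c, by rw [MulEquiv.trans_apply, hn, c.apply_symm_apply]⟩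
  have h1 : ∀ v, lin8 (c (φ (c.symm (v8 1 0 0)))) (c (φ (c.symm (v8 0 1 0))))
      (c (φ (c.symm (v8 0 0 1)))) v = c (φ (c.symm v)) := fun v => by
    conv_rhs => rw [← lin8_id v]
    simp only [lin8, map_mul, map_pow]
  have h3 : ∀ ψ : MulAut M8, ψ (v8 1 0 0) = v8 1 0 0 →
      (∀ v, ψ (c (φ (c.symm v))) = c (φ (c.symm (ψ v)))) ∨
        ∀ v, ψ (c (φ (c.symm v))) = c (φ (c.symm (ψ v))) * ψ v := fun ψ hψ =>
    (h (c.trans (ψ.trans c.symm)) (by simp [hc, hψ, c.symm_apply_eq])).imp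
      (fun k v => c.symm.injective (by simpa using k (c.symm v)))
      fun k v => c.symm.injective (by simpa using k (c.symm v))
  have := lin8_sc (c (φ (c.symm (v8 1 0 0)))) (c (φ (c.symm (v8 0 1 0)))) (c (φ (c.symm (v8 0 0 1))))
  simp only [h1] at this
  exact (this (h3 σ8 (by decide)) (h3 ρ8 (by decide))).imp (fun k v => by simpa using k (c v))
    fun k v => by simpa using k (c v)

end H23.ST
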