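import Cfsg.Agent.H52.SimXSSpec

/-! Tower SIM, chapter XS: the job `Ex`. -/

set_option autoImplicit false

namespace H23.SimEx

open Subgroup Cfsg H98 Matrix H0.Sim H52.XS
open scoped commutatorElement

theorem map_inf_cen {G : Type*} [Group G] [Finite G] (α : G ≃* G) {E : Subgroup G}
    (h : E.map α.toMonoidHom = E) :
    (E ⊓ centralizer (E : Set G)).map α.toMonoidHom = E ⊓ centralizer (E : Set G) := by
  refine eq_of_le_of_card_ge ?_ (card_map_of_injective α.injective).ge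
  rintro _ ⟨x, ⟨hx, hc⟩, rfl⟩
  refine ⟨h.le ⟨x, hx, rfl⟩, mem_centralizer_iff.2 fun y hy => ?_⟩
  obtain ⟨y, hy', rfl⟩ := h.ge hy
  rw [← map_mul, ← map_mul, mem_centralizer_iff.1 hc y hy']

theorem sc_iff {n : ℕ} {F : Type} [Field F] {x : GL (Fin n) F} :
    x ∈ center (GL (Fin n) F) ↔ Sc (x : Mt n F) :=
  GeneralLinearGroup.mem_center_iff_val_mem_range_scalar.trans
    ⟨fun ⟨c, h⟩ => ⟨c, h.symm⟩, fun ⟨c, h⟩ => ⟨c, h.symm⟩⟩

/-- A scalar matrix of order dividing the characteristic is trivial. -/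
theorem eq_one {n : ℕ} {F : Type} [Field F] [Fintype F] (hn : 0 < n) {x : GL (Fin n) F}
    (hx : x ∈ center (GL (Fin n) F)) (h : x ^ ringChar F = 1) : x = 1 := by
  have : Nonempty (Fin n) := ⟨⟨0, hn⟩⟩
  have : Fact (ringChar F).Prime := ⟨CharP.char_is_prime F _⟩
  obtain ⟨c, hc⟩ := sc_iff.1 hx
  have h1 : c ^ ringChar F = 1 := by
    apply Matrix.scalar_inj (n := Fin n).1
    rw [map_pow, ← hc, map_one, ← Units.val_pow_eq_pow_val, h, Units.val_one]
  have h2 : c = 1 := frobenius_inj F (ringChar F) (by rw [frobenius_def, h1, map_one])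
  exact Units.ext (by rw [hc, h2, map_one, Units.val_one])

theorem job : JobEx := by
  intro th n F _ _ u q p Θ H Q E c hp hab
  have : Fact p.Prime := ⟨c.pp⟩
  have pos : 0 < n := by have := c.par.two; omega
  have ZC : Zg n F u q ≤ center (GL (Fin n) F) := inf_le_right
  refine ⟨⟨pos, c.ZE, fun z hz => sc_iff.1 (ZC hz), fun a ha b hb => c.cE a ha b (c.EQ hb), ?_, ?_⟩,
    ?_, fun x hx h => ⟨hx, sc_iff.2 h⟩⟩
  · intro a ha h
    have iv : Iv Θ (mat (E ⊓ centralizer (E : Set (GL (Fin n) F)))) := fun j hj => by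
      obtain ⟨α, hα⟩ := (th n F j).2.2.2.2.2
      exact (hα _).2 (map_inf_cen α ((hα E).1 (c.ivE j hj)))
    rcases c.mn _ (le_inf c.ZE (ZC.trans (center_le_centralizer _))) inf_le_left iv with e | e
    · exact e.le ⟨ha, mem_centralizer_iff.2 fun b hb => (h b hb).symm⟩
    · obtain ⟨x, hx, y, hy, ne⟩ := hab
      exact absurd (mem_centralizer_iff.1 (e.ge hy).2 x hx) ne
  · intro h
    have hr : (ringChar F).Prime := CharP.char_is_prime F _
    have : Fact (ringChar F).Prime := ⟨hr⟩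
    obtain ⟨e, he⟩ := exists_prime_orderOf_dvd_card' (ringChar F) ((ringChar.spec F _).1 h)
    have he' : orderOf (e : GL (Fin n) F) = ringChar F := by rw [Subgroup.orderOf_coe, he]
    have h1 : (e : GL (Fin n) F) ^ p = 1 := eq_one pos (ZC (c.pE e e.2)) (by
      rw [← pow_mul, mul_comm, pow_mul, ← he', pow_orderOf_eq_one, one_pow])
    have h2 := orderOf_dvd_of_pow_eq_one h1
    rw [he'] at h2
    exact hp ((Nat.prime_dvd_prime_iff_eq hr c.pp).1 h2).symm
  · have : ((Zg n F u q).subgroupOf E).Normal := ⟨fun z hz g => by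
      have h1 : (g : GL (Fin n) F) * z = z * g := mem_center_iff.1 (ZC (mem_subgroupOf.1 hz)) g
      have h2 : g * z * g⁻¹ = z := Subtype.ext (by simp [h1])
      rwa [h2]⟩
    have hP : IsPGroup p (E ⧸ (Zg n F u q).subgroupOf E) := fun x => by
      obtain ⟨x, rfl⟩ := QuotientGroup.mk_surjective x
      refine ⟨1, ?_⟩
      rw [pow_one, ← QuotientGroup.mk_pow, QuotientGroup.eq_one_iff]
      exact mem_subgroupOf.2 (c.pE x x.2)
    exact IsPGroup.iff_card.1 hP

end H23.SimEx
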