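import Cfsg.Agent.H42.SimXBSpec

/-! Tower SIM, chapter XA part two: the job `K5`. -/

set_option autoImplicit false

namespace H23.SimK5

open Subgroup Cfsg H98 Matrix H0.Sim H42.SX

theorem dl_three {G : Type*} [Group G] {B : Subgroup G} {b t : G}
    (ab : ∀ x ∈ B, ∀ y ∈ B, x * y = y * x) (hb : b ∈ B)
    (h : t * b * t⁻¹ ∈ normalizer (B : Set G)) : dl b (dl b (dl b t)) = 1 := by
  have h1 : t * b * t⁻¹ * b * (t * b * t⁻¹)⁻¹ ∈ B := (mem_normalizer_iff.1 h b).1 hb
  have h2 : dl b (dl b t) ∈ B := by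
    convert mul_mem h1 (inv_mem hb) using 1
    unfold dl
    group
  generalize dl b (dl b t) = c at h2
  unfold dl
  rw [ab b hb c h2]
  group

theorem jobK5 : JobK5 := by
  intro n F _ _ u q p Θ H Q E g c hab r _ mp b hb t ht tA
  have tH : t ∈ H := mp t ht fun m hm => by
    rw [r.comm _ tA m hm, mul_assoc, ← Units.val_mul, mul_inv_cancel, Units.val_one, mul_one]
    exact hm
  refine dl_three (B := cj g E) ?_ hb (c.nb1 t tH (conj_mem_cj hb))
  rintro _ ⟨x, hx, rfl⟩ _ ⟨y, hy, rfl⟩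
  rw [← map_mul, ← map_mul, hab x hx y hy]

end H23.SimK5
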