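/- Specification of the two halves of Thompson's lemma on a single Jordan block of size three. -/
import Cfsg.Agent.Base

set_option autoImplicit false
open Cfsg

namespace H23.Thom

universe u v

/-- the commutator group is a `2`-group -/
def JobOdd : Prop := ∀ {S : Type u} [Group S] [Finite S] [Group.IsSolvable S] {E : Type v}
  [AddCommGroup E] [Module (ZMod 3) E] [Finite E] (ρ : Representation (ZMod 3) S E),
  Function.Injective ρ → ∀ b : S, b ^ 3 = 1 → Nat.card (LinearMap.range (ρ b - 1)) = 9 →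
  (ρ b - 1) ^ 2 ≠ 0 → ∀ K Q : Subgroup S, K.Normal → ¬ 3 ∣ Nat.card K → Q ≤ K →
  IsElementaryAbelian 2 Q → Nat.card Q = 4 → b ∈ Subgroup.normalizer (Q : Set S) →
  b ∉ Subgroup.centralizer (Q : Set S) → IsPGroup 2 (⁅K, Subgroup.zpowers b⁆ : Subgroup S)

/-- the structure of the `2`-group -/
def JobTwo : Prop := ∀ {S : Type u} [Group S] [Finite S] {E : Type v}
  [AddCommGroup E] [Module (ZMod 3) E] [Finite E] (ρ : Representation (ZMod 3) S E),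
  Function.Injective ρ → ∀ b : S, b ^ 3 = 1 → Nat.card (LinearMap.range (ρ b - 1)) = 9 →
  (ρ b - 1) ^ 2 ≠ 0 → ∀ R Q : Subgroup S, IsPGroup 2 R → ⁅R, Subgroup.zpowers b⁆ = R → Q ≤ R →
  IsElementaryAbelian 2 Q → Nat.card Q = 4 → b ∈ Subgroup.normalizer (Q : Set S) →
  b ∉ Subgroup.centralizer (Q : Set S) →
  ((IsElementaryAbelian 2 R ∧ Nat.card R = 4) ∨ (IsExtraspecial 2 R ∧ Nat.card R = 32 ∧
    ∃ A : Subgroup S, A ≤ R ∧ IsElementaryAbelian 2 A ∧ Nat.card A = 8)) ∧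
  ∃ F₀ F₁ : Submodule (ZMod 3) E, F₀ ⊓ F₁ = ⊥ ∧ F₀ ⊔ F₁ = ⊤ ∧ (∀ r ∈ R, ∀ v ∈ F₁, ρ r v = v) ∧
    (∀ r ∈ R ⊔ Subgroup.zpowers b, ∀ v ∈ F₀, ρ r v ∈ F₀) ∧
    (∀ r ∈ R ⊔ Subgroup.zpowers b, (∀ v ∈ F₀, ρ r v = v) → r = 1) ∧
    ∀ N : Submodule (ZMod 3) E, N ≤ F₀ → (∀ r ∈ R ⊔ Subgroup.zpowers b, ∀ v ∈ N, ρ r v ∈ N) →
      N = ⊥ ∨ N = F₀

end H23.Thom
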