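/- Thompson's lemma on a single Jordan block of size three: assembly of the two halves. -/
import Cfsg.Agent.H23.ThomSpec
import Cfsg.Agent.H1.Coprime2
import Cfsg.Agent.H2.MinNormal

set_option autoImplicit false
open Cfsg Subgroup

namespace H23.Thom
universe u v

theorem card_range {E : Type*} [AddCommGroup E] [Module (ZMod 3) E] [Finite E] (f : E →ₗ[ZMod 3] E)
    (h3 : ∀ w, f (f (f w)) = w) (E₀ E₁ : Submodule (ZMod 3) E) (hE01' : E₀ ⊔ E₁ = ⊤)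
    (hE1 : ∀ v ∈ E₁, f v = v) (hE0inv : ∀ v ∈ E₀, f v ∈ E₀) (hE0 : Nat.card ↥E₀ = 27) {v : E} (hv : v ∈ E₀)
    (hn : (f - 1) ((f - 1) v) ≠ 0) : Nat.card (LinearMap.range (f - 1)) = 9 := by
  have b3 : ∀ w, (f - 1) ((f - 1) ((f - 1) w)) = 0 := fun w => by
    have : (f - 1) ((f - 1) ((f - 1) w)) = (3 : ZMod 3) • (f w - f (f w)) := by
      simp only [LinearMap.sub_apply, Module.End.one_apply, map_sub, h3]; module
    rw [this, show (3 : ZMod 3) = 0 from rfl, zero_smul]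
  have hβ : ∀ w ∈ E₀, (f - 1) w ∈ E₀ := fun w hw => sub_mem (hE0inv w hw) hw
  have h1 : ∀ w ∈ E₁, (f - 1) w = 0 := fun w hw => sub_eq_zero.2 (hE1 w hw)
  generalize f - 1 = β at *
  let g := Fintype.linearCombination (ZMod 3) ![v, β v, β (β v)]
  have ge : ∀ c, g c = c 0 • v + c 1 • β v + c 2 • β (β v) := fun c => by
    simp [g, Fintype.linearCombination_apply, Fin.sum_univ_three]
  have inj : Function.Injective g := (injective_iff_map_eq_zero g).2 fun c e => by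
    rw [ge] at e
    have e1 := congrArg β e
    have e2 := congrArg β e1
    simp only [map_add, map_smul, b3, map_zero, smul_zero, add_zero] at e1 e2
    have a0 := (smul_eq_zero.1 e2).resolve_right hn
    rw [a0, zero_smul, zero_add] at e1 e
    have a1 := (smul_eq_zero.1 e1).resolve_right hn
    rw [a1, zero_smul, zero_add] at e
    have a2 := (smul_eq_zero.1 e).resolve_right hn
    ext i; fin_cases i
    exacts [a0, a1, a2]
  have rg : ∀ w ∈ E₀, ∃ c, g c = w := fun w hw => by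
    have m : ∀ c, g c ∈ E₀ := fun c => by
      rw [ge]
      exact add_mem (add_mem (E₀.smul_mem _ hv) (E₀.smul_mem _ (hβ _ hv))) (E₀.smul_mem _ (hβ _ (hβ _ hv)))
    obtain ⟨c, hc⟩ := ((Nat.bijective_iff_injective_and_card (g.codRestrict E₀ m)).2
      ⟨fun a b e => inj (congrArg Subtype.val e), by rw [hE0]; simp⟩).2 ⟨w, hw⟩
    exact ⟨c, congrArg Subtype.val hc⟩
  have : Nat.card (ZMod 3 × ZMod 3) = 9 := by simp
  rw [← this]
  refine (Nat.card_eq_of_bijective (fun c : ZMod 3 × ZMod 3 => (⟨g ![0, c.1, c.2], g ![c.1, c.2, 0], by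
    simp [ge]⟩ : LinearMap.range β)) ⟨fun a b e => ?_, ?_⟩).symm
  · have := inj (congrArg Subtype.val e)
    exact Prod.ext (congrFun this 1) (congrFun this 2)
  · rintro ⟨_, w, rfl⟩
    obtain ⟨x, hx, y, hy, rfl⟩ := Submodule.mem_sup.1 (hE01' ▸ Submodule.mem_top : w ∈ E₀ ⊔ E₁)
    obtain ⟨c, rfl⟩ := rg x hx
    exact ⟨(c 0, c 1), Subtype.ext (by simp [ge, h1 y hy, b3])⟩

theorem comm_four {S : Type*} [Group S] [Finite S] {Q B : Subgroup S} (hQ4 : Nat.card Q = 4)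
    (hB : Nat.card B = 3) (hBQ : B ≤ normalizer (Q : Set S)) (hBQ' : ¬ B ≤ centralizer (Q : Set S)) :
    ⁅Q, B⁆ = Q := by
  have : Fact (Nat.card B).Prime := ⟨hB ▸ Nat.prime_three⟩
  have : IsCyclic B := isCyclic_of_prime_card rfl
  have le := H1.commutator_le_of_le_normalizer hBQ
  have cc := H1.commutator_commutator_eq hBQ (by rw [hB, hQ4]; norm_num) (.inl inferInstance)
  have ne : ⁅Q, B⁆ ≠ ⊥ := fun e => hBQ' (H1.commutator_eq_bot_iff_le_centralizer'.1 e)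
  obtain ⟨i, hi, e⟩ := (Nat.dvd_prime_pow Nat.prime_two).1 (show _ ∣ 2 ^ 2 from hQ4 ▸ card_dvd_of_le le)
  interval_cases i
  · exact absurd (card_eq_one.1 e) ne
  · refine absurd (cc.symm.trans (H1.commutator_eq_bot_iff_le_centralizer'.2 fun g hg =>
      mem_centralizer_iff.2 fun x hx => ?_)) ne
    obtain ⟨y, -, hy⟩ := (Nat.card_eq_two_iff' (1 : (⁅Q, B⁆ : Subgroup S))).1 e
    by_cases x1 : x = 1
    · simp [x1]
    have m := H1.conj_mem_of_le_normalizer (H1.le_normalizer_commutator_right Q B) hg hx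
    have := congrArg Subtype.val ((hy ⟨_, m⟩ fun c => x1 (by simpa using congrArg Subtype.val c)).trans
      (hy ⟨x, hx⟩ fun c => x1 (congrArg Subtype.val c)).symm)
    exact (mul_inv_eq_iff_eq_mul.1 this).symm
  · exact eq_of_le_of_card_ge le (by rw [e, hQ4]; rfl)

theorem s4415 (hO : JobOdd.{u, v}) (hT : JobTwo.{u, v}) {S : Type u} [Group S] [Finite S]
    [Group.IsSolvable S] {E : Type v} [AddCommGroup E] [Module (ZMod 3) E] [Finite E]
    (ρ : Representation (ZMod 3) S E) (hfaith : Function.Injective ρ)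
    (B : Subgroup S) (hB : Nat.card ↥B = 3) (b : S) (hb : Subgroup.zpowers b = B)
    (E₀ E₁ : Submodule (ZMod 3) E) (hE01' : E₀ ⊔ E₁ = ⊤)
    (hE1 : ∀ v ∈ E₁, ρ b v = v) (hE0inv : ∀ v ∈ E₀, ρ b v ∈ E₀) (hE0 : Nat.card ↥E₀ = 27)
    (hind : ∃ v ∈ E₀, ρ b (ρ b v - v) - (ρ b v - v) ≠ 0)
    (Q : Subgroup S) (hQ : Cfsg.IsElementaryAbelian 2 Q) (hQ4 : Nat.card ↥Q = 4)
    (hBQ : B ≤ Subgroup.normalizer (Q : Set S)) (hBQ' : ¬ B ≤ Subgroup.centralizer (Q : Set S))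
    (P : Sylow 3 S) (hBZ : (Subgroup.center ↥(P : Subgroup S)).map (P : Subgroup S).subtype = B) :
    ((Cfsg.IsElementaryAbelian 2 ⁅Cfsg.pPrimeCore 3 S, B⁆ ∧ Nat.card ↥⁅Cfsg.pPrimeCore 3 S, B⁆ = 4) ∨
      (Cfsg.IsExtraspecial 2 ↥⁅Cfsg.pPrimeCore 3 S, B⁆ ∧ Nat.card ↥⁅Cfsg.pPrimeCore 3 S, B⁆ = 32 ∧
        ∃ A : Subgroup S, A ≤ ⁅Cfsg.pPrimeCore 3 S, B⁆ ∧ Cfsg.IsElementaryAbelian 2 A ∧ Nat.card ↥A = 8)) ∧
    ∃ F₀ F₁ : Submodule (ZMod 3) E, F₀ ⊓ F₁ = ⊥ ∧ F₀ ⊔ F₁ = ⊤ ∧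
      (∀ r ∈ ⁅Cfsg.pPrimeCore 3 S, B⁆, ∀ v ∈ F₁, ρ r v = v) ∧
      (∀ r ∈ ⁅Cfsg.pPrimeCore 3 S, B⁆ ⊔ B, ∀ v ∈ F₀, ρ r v ∈ F₀) ∧
      (∀ r ∈ ⁅Cfsg.pPrimeCore 3 S, B⁆ ⊔ B, (∀ v ∈ F₀, ρ r v = v) → r = 1) ∧
      (∀ N : Submodule (ZMod 3) E, N ≤ F₀ → (∀ r ∈ ⁅Cfsg.pPrimeCore 3 S, B⁆ ⊔ B, ∀ v ∈ N, ρ r v ∈ N) →
        N = ⊥ ∨ N = F₀) := by
  have : Fact (Nat.Prime 3) := ⟨Nat.prime_three⟩
  have := H2.pPrimeCore_characteristic 3 S
  have b3 : b ^ 3 = 1 := by rw [← hB, ← hb, Nat.card_zpowers, pow_orderOf_eq_one]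
  obtain ⟨v, hv, hn⟩ := hind
  have hn' : (ρ b - 1) ((ρ b - 1) v) ≠ 0 := hn
  have h9 := card_range (ρ b) (fun w => by
    rw [← Module.End.mul_apply, ← Module.End.mul_apply, ← map_mul, ← map_mul, ← pow_three', b3, map_one]; rfl)
    E₀ E₁ hE01' hE1 hE0inv hE0 hv hn'
  have h2 : (ρ b - 1) ^ 2 ≠ 0 := fun e => hn' (by rw [← Module.End.mul_apply, ← sq, e]; rfl)
  have hQB := comm_four hQ4 hB hBQ hBQ'
  let π := QuotientGroup.mk' (pPrimeCore 3 S)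
  have hπ : Function.Surjective π := QuotientGroup.mk'_surjective _
  have := H2.pCore_characteristic 3 (S ⧸ pPrimeCore 3 S)
  have BO : B.map π ≤ pCore 3 (S ⧸ pPrimeCore 3 S) := by
    rintro _ ⟨x, hx, rfl⟩
    refine H2.centralizer_pCore_le (H2.pPrimeCore_quotient_pPrimeCore 3 S) (mem_centralizer_iff.2 fun y hy => ?_)
    obtain ⟨w, hw, rfl⟩ := H2.pCore_le_sylow (P.mapSurjective hπ) hy
    obtain ⟨z, hz, rfl⟩ : x ∈ (center P).map (P : Subgroup S).subtype := hBZ ▸ hx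
    rw [← map_mul, ← map_mul]
    exact congrArg (fun a : P => π a) (mem_center_iff.1 hz ⟨w, hw⟩)
  have QK : Q ≤ pPrimeCore 3 S := by
    rw [← QuotientGroup.ker_mk' (pPrimeCore 3 S), ← Subgroup.map_eq_bot_iff]
    refine disjoint_self.1 (Disjoint.mono_left ?_ (H2.disjoint_of_isPGroup_of_coprime (H2.pCore_isPGroup 3 _)
      (Nat.Coprime.coprime_dvd_left (card_map_dvd Q π) (by rw [hQ4]; norm_num))))
    rw [← hQB, map_commutator]
    exact (commutator_mono le_rfl BO).trans (commutator_le_right _ _)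
  have n3 := H2.not_dvd_card_pPrimeCore 3 S
  subst hb
  have nQ : b ∈ normalizer (Q : Set S) := hBQ (mem_zpowers b)
  have cQ : b ∉ centralizer (Q : Set S) := fun h => hBQ' (zpowers_le.2 h)
  exact hT ρ hfaith b b3 h9 h2 _ Q (hO ρ hfaith b b3 h9 h2 _ Q inferInstance n3 QK hQ hQ4 nQ cQ)
    (H1.commutator_commutator_eq le_normalizer_of_normal
      (by rw [hB]; exact (H2.coprime_card_pPrimeCore 3 S).symm) (.inl inferInstance))
    (hQB ▸ commutator_mono QK le_rfl) hQ hQ4 nQ cQ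

end H23.Thom
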